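import Cfsg.Agent.BlockChar.MajorHeight
import Cfsg.Agent.BlockChar.RankTwoForm

/-!
# `k(B) ≤ p^d l(b)` for a major subsection
-/

set_option autoImplicit false
set_option linter.unusedSectionVars false
set_option linter.style.haveILetI false

namespace Cfsg.Agent.BlockChar

open MonoidAlgebra
open scoped MonoidAlgebra ComplexConjugate
open Cfsg Cfsg.Agent Cfsg.Agent.Blocks

universe u

variable {G : Type u} [Group G] [Fintype G] {p : ℕ} [Fact p.Prime] {M : Ideal AlgInt}
  [M.IsMaximal] {B : Set (IrrCharacter G)} {P : Subgroup G} {e : (Res M)[G]}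

theorem blockRank_blkSet_congr {v u : G} (h : cz v = cz u) (β : (Res M)[G]) :
    blockRank p (blkSet (M := M) v β) = blockRank p (blkSet (M := M) u β) :=
  congrArg (fun T : Subgroup G => haveI := Fintype.ofFinite T
    blockRank p (Classical.epsilon fun c : Set (IrrCharacter T) =>
      IsPBlock M c ∧ idemS M c = β)) h

open scoped Classical in
/-- The number of characters against the rank of a major subsection. -/
theorem card_le_pow_mul_rank (hpM : (p : AlgInt) ∈ M) (D : MaxData p B P e) {d : ℕ}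
    (hd : Nat.card P = p ^ d) (hd0 : 0 < d) {u : G} (hu : u ∈ P) (huc : ∀ w ∈ P, Commute u w)
    [Fintype (cz u)] :
    Nat.card B ≤ p ^ d * blockRank p (blkSet (M := M) u (locB p P e u)) := by
  haveI := charP_res (p := p) hpM
  haveI := DegreeGraph.finiteDimensional_fieldG (G := G)
  letI : ∀ v : G, Fintype (cz v) := fun v => Fintype.ofFinite _
  set S0 := Finset.univ.filter (fun v : G => Subgroup.zpowers v = Subgroup.zpowers u) with hS0
  set S := bf B ×ˢ S0 with hS
  have hmem : ∀ v ∈ S0, v ∈ P ∧ (∀ w ∈ P, Commute v w) ∧ cz v = cz u ∧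
      locB p P e v = locB p P e u := by
    intro v hv
    have hz : Subgroup.zpowers v = Subgroup.zpowers u := (Finset.mem_filter.mp hv).2
    have hvu : v ∈ Subgroup.zpowers u := hz ▸ Subgroup.mem_zpowers v
    have hvP : v ∈ P := Subgroup.zpowers_le.mpr hu hvu
    have hcz : cz v = cz u := by rw [cz, cz, hz]
    refine ⟨hvP, fun w hw => ?_, hcz, locB_eq_of_cz hpM D hvP hu hcz⟩
    obtain ⟨i, rfl⟩ := hvu
    exact (huc w hw).zpow_left i
  let r : IrrCharacter G × G → ℝ := fun q => if q ∈ S then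
    (p : ℝ) ^ d * (conP p P e (q.1 : G → ℂ) (q.1 : G → ℂ) q.2).re else 1
  have hre : ∀ q ∈ S, ((r q : ℝ) : ℂ) =
      (p : ℂ) ^ d * conP p P e (q.1 : G → ℂ) (q.1 : G → ℂ) q.2 := fun q hq => by
    simp only [r, if_pos hq]
    rw [Complex.ofReal_mul, (conP_self _ _).2, Complex.ofReal_pow, Complex.ofReal_natCast]
  have hpG : p ∣ Nat.card G :=
    ((dvd_pow_self p hd0.ne').trans (hd ▸ dvd_rfl)).trans (Subgroup.card_subgroup_dvd_card P)
  have hmem2 : ∀ q ∈ S, m2 p (q.1 : G → ℂ) (q.1 : G → ℂ) q.2 (locB p P e q.2) ∈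
      DegreeGraph.fieldG G := by
    intro q hq
    obtain ⟨hvP, hvc, -, -⟩ := hmem q.2 (Finset.mem_product.mp hq).2
    obtain ⟨k, hk⟩ := orderOf_of_mem D.pmax.pair.pgroup hvP
    obtain ⟨hbs, hbe⟩ := blkSet_spec hpM ((locB_spec hpM D hvP).isPair_left D.pmax.pair).blk
    obtain ⟨j, hjG, hroot, hchar⟩ := exists_pow_embedding (DegreeGraph.fieldG G).val
    obtain ⟨h, -⟩ := exists_pow_m2 hpM q.1 hk hbs _ (hjG.coprime_dvd_right hpG) hjG hroot hchar
    rwa [hbe] at h
  have hmemr : ∀ q, ((r q : ℝ) : ℂ) ∈ DegreeGraph.fieldG G := fun q => by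
    by_cases hq : q ∈ S
    · rw [hre q hq, conP]
      exact mul_mem (pow_mem (natCast_mem _ _) _)
        (mul_mem (inv_mem (natCast_mem _ _)) (hmem2 q hq))
    · simp only [r, if_neg hq, Complex.ofReal_one]
      exact one_mem _
  have hgal := DegreeGraph.card_le_sum_of_galois S (DegreeGraph.fieldG G) r
    (fun q hq => by
      obtain ⟨hχ, hv⟩ := Finset.mem_product.mp hq
      obtain ⟨hvP, hvc, -, -⟩ := hmem q.2 hv
      simp only [r, if_pos hq]
      exact mul_pos (pow_pos (Nat.cast_pos.mpr (Fact.out : p.Prime).pos) _)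
        (conP_pos hpM D hvP hvc (mem_bf.mp hχ)))
    (fun q hq => by
      obtain ⟨hvP, hvc, -, -⟩ := hmem q.2 (Finset.mem_product.mp hq).2
      obtain ⟨k, hk⟩ := orderOf_of_mem D.pmax.pair.pgroup hvP
      obtain ⟨hbs, hbe⟩ := blkSet_spec hpM ((locB_spec hpM D hvP).isPair_left D.pmax.pair).blk
      have h := isIntegral_pow_defect_m2 hpM q.1
        (show q.2 ^ p ^ k = 1 from hk ▸ pow_orderOf_eq_one _) hbs
      rw [blockDefect_locB_of_central hpM D hd hvP hvc, hbe] at h
      rw [hre q hq]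
      exact h)
    hmemr ?_
  swap
  · intro σ
    obtain ⟨j, hjG, hroot, hchar⟩ := exists_pow_embedding σ
    have hjp : j.Coprime p := hjG.coprime_dvd_right hpG
    have hmap : ∀ q ∈ S, ((q.1, q.2 ^ j) : IrrCharacter G × G) ∈ S := by
      intro q hq
      obtain ⟨hχ, hv⟩ := Finset.mem_product.mp hq
      obtain ⟨k, hk⟩ := orderOf_of_mem D.pmax.pair.pgroup (hmem q.2 hv).1
      refine Finset.mem_product.mpr ⟨hχ, Finset.mem_filter.mpr ⟨Finset.mem_univ _, ?_⟩⟩
      rw [cz_pow (hk ▸ pow_orderOf_eq_one _) hjp]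
      exact (Finset.mem_filter.mp hv).2
    refine ⟨fun q => (q.1, q.2 ^ j), ?_, hmap, fun q hq => ?_⟩
    · intro a _ c _ h
      obtain ⟨h1, h2⟩ := Prod.mk.inj h
      exact Prod.ext h1 (DegreeGraph.pow_coprime_injective hjG h2)
    obtain ⟨hvP, hvc, -, hloc⟩ := hmem q.2 (Finset.mem_product.mp hq).2
    obtain ⟨-, -, -, hloc'⟩ := hmem _ (Finset.mem_product.mp (hmap q hq)).2
    obtain ⟨k, hk⟩ := orderOf_of_mem D.pmax.pair.pgroup hvP
    obtain ⟨hbs, hbe⟩ := blkSet_spec hpM ((locB_spec hpM D hvP).isPair_left D.pmax.pair).blk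
    obtain ⟨h, hσ⟩ := exists_pow_m2 hpM q.1 hk hbs σ hjp hjG hroot hchar
    have hcz : Nat.card (cz (q.2 ^ j)) = Nat.card (cz q.2) := by
      rw [cz, cz, cz_pow (hk ▸ pow_orderOf_eq_one _) hjp]
    have e1 : (⟨((r q : ℝ) : ℂ), hmemr q⟩ : DegreeGraph.fieldG G) =
        (p : DegreeGraph.fieldG G) ^ d *
          ((Nat.card (cz q.2) : DegreeGraph.fieldG G)⁻¹ * ⟨_, h⟩) := by
      apply Subtype.ext
      simp only [hre q hq, conP, hbe]
      simp
    rw [e1, map_mul, map_mul, map_pow, map_inv₀, map_natCast, map_natCast, hσ, hbe,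
      hre _ (hmap q hq), conP, hloc', hloc, hcz]
  have hsum : ∑ q ∈ S, r q =
      (S0.card : ℝ) * ((p : ℝ) ^ d * (blockRank p (blkSet (M := M) u (locB p P e u)) : ℝ)) := by
    apply Complex.ofReal_injective
    rw [Complex.ofReal_sum, Finset.sum_congr rfl hre, hS, Finset.sum_product_right]
    simp only [← Finset.mul_sum]
    rw [Finset.sum_congr rfl fun v hv => by
      obtain ⟨hvP, -, hcz, hloc⟩ := hmem v hv
      rw [sum_conP_diag hpM D hvP, hloc, blockRank_blkSet_congr hcz]]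
    simp only [Finset.sum_const, nsmul_eq_mul]
    push_cast
    ring
  rw [hsum, hS, Finset.card_product] at hgal
  have h : (bf B).card * S0.card ≤
      S0.card * (p ^ d * blockRank p (blkSet (M := M) u (locB p P e u))) := by
    exact_mod_cast hgal
  rw [mul_comm] at h
  rw [card_bf]
  exact Nat.le_of_mul_le_mul_left h
    (Finset.card_pos.mpr ⟨u, Finset.mem_filter.mpr ⟨Finset.mem_univ _, rfl⟩⟩)

end Cfsg.Agent.BlockChar
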