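import Cfsg.Agent.BlockChar.AbelianContrib
import Cfsg.Agent.BlockChar.MajorBound
import Cfsg.Agent.BlockChar.NilpotentBlock

/-!
Inner products of the products of characters with functions on an abelian defect group.
-/

set_option autoImplicit false
set_option linter.unusedSectionVars false
set_option linter.style.haveILetI false

namespace Cfsg.Agent.BlockChar

open MonoidAlgebra
open scoped MonoidAlgebra ComplexConjugate
open Cfsg Cfsg.Agent Cfsg.Agent.Blocks

universe u

variable {G : Type u} [Group G] [Fintype G] {p : ℕ} [Fact p.Prime] {M : Ideal AlgInt}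
  [M.IsMaximal] {B : Set (IrrCharacter G)} {P : Subgroup G} {e : (Res M)[G]}

/-- A function invariant under the inertial group of an abelian pair is stable. -/
theorem isStable_of_stab (hpM : (p : AlgInt) ∈ M) (D : MaxData p B P e)
    (hab : ∀ x ∈ P, ∀ y ∈ P, x * y = y * x) {f : G → ℂ}
    (hst : ∀ t ∈ stab P e, ∀ v ∈ P, f (t * v * t⁻¹) = f v) : IsStable p P e f := by
  haveI := charP_res (p := p) hpM
  intro v hv g hg
  obtain ⟨β, hβ, hβ'⟩ := hg
  obtain ⟨c, hc, hcg⟩ := exists_stab_of_abelian D.pmax hab hβ hβ'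
  rw [conjS_zpowers] at hc
  have h := hst _ hcg v hv
  have hcomm : c * (g * v * g⁻¹) = g * v * g⁻¹ * c :=
    (Subgroup.mem_centralizer_iff.mp hc _ (Subgroup.mem_zpowers _)).symm
  rwa [show c * g * v * (c * g)⁻¹ = c * (g * v * g⁻¹) * c⁻¹ by group, hcomm,
    mul_inv_cancel_right] at h

/-- The inner product of a product with an irreducible character, by subsections. -/
theorem classInner_starP_eq_sum (hpM : (p : AlgInt) ∈ M) (D : MaxData p B P e)
    (hab : ∀ x ∈ P, ∀ y ∈ P, x * y = y * x) {f : G → ℂ}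
    (hst : ∀ t ∈ stab P e, ∀ v ∈ P, f (t * v * t⁻¹) = f v) (χ ψ : IrrCharacter G)
    [DecidablePred (· ∈ P)] :
    classInner (starP p P e (χ : G → ℂ) f) (ψ : G → ℂ) =
      ∑ v ∈ Finset.univ.filter (· ∈ P), (Nat.card (orbP P e v) : ℂ)⁻¹ * f v *
        conP p P e (χ : G → ℂ) (ψ : G → ℂ) v := by
  classical
  haveI := charP_res (p := p) hpM
  set S := Finset.univ.filter (fun v : G => v ∈ P) with hS
  have hP : IsPGroup p P := D.pmax.pair.pgroup
  have hblk : ∀ v ∈ S, IsBlk (cz v) (locB p P e v) := fun v hv =>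
    ((locB_spec hpM D (Finset.mem_filter.mp hv).2).isPair_left D.pmax.pair).blk
  have hfst := isStable_of_stab hpM D hab hst
  have hphi : starP p P e (χ : G → ℂ) f = star p (χ : G → ℂ) (fun u β =>
      ∑ v ∈ S, (Nat.card (orbP P e v) : ℂ)⁻¹ * f v * orbitInd v (locB p P e v) u β) := by
    funext g
    refine Finset.sum_congr rfl fun β hβ => ?_
    congr 1
    by_cases h : ∃ x : G, Below p P e x (ppart p g) β
    · obtain ⟨x, hx⟩ := h
      rw [phiOf_eq hfst hx]
      set v₀ := x * ppart p g * x⁻¹ with hv₀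
      have hv₀P : v₀ ∈ P := hx.mem
      have hxβ : cj x β = locB p P e v₀ := eq_locB hpM D hv₀P hx
      have key : ∀ v ∈ S, (orbitInd v (locB p P e v) (ppart p g) β : ℂ) =
          if v ∈ orbP P e v₀ then 1 else 0 := by
        intro v hv
        have hvP := (Finset.mem_filter.mp hv).2
        unfold orbitInd
        refine if_congr ⟨?_, ?_⟩ rfl rfl
        · rintro ⟨y, h1, h2⟩
          have hg' : PairLE p (conjS (x * y) (Subgroup.zpowers v),
              cj (x * y) (locB p P e v)) (P, e) := by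
            rw [conjS_zpowers, cj_mul, h2, show x * y * v * (x * y)⁻¹ = v₀ by
              rw [hv₀, ← h1]; group]
            exact hx
          obtain ⟨c, hc, hcs⟩ := exists_stab_of_abelian D.pmax hab (locB_spec hpM D hvP) hg'
          refine ⟨(c * (x * y))⁻¹, Subgroup.inv_mem _ hcs, ?_⟩
          have hcv : Commute v₀ c := by
            refine (Subgroup.mem_centralizer_iff.mp hc v₀ ?_)
            rw [conjS_zpowers, show x * y * v * (x * y)⁻¹ = v₀ by rw [hv₀, ← h1]; group]
            exact Subgroup.mem_zpowers v₀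
          calc (c * (x * y))⁻¹ * v₀ * ((c * (x * y))⁻¹)⁻¹
              = (x * y)⁻¹ * (c⁻¹ * (v₀ * c)) * (x * y) := by group
            _ = (x * y)⁻¹ * v₀ * (x * y) := by rw [hcv.eq]; group
            _ = v := by rw [hv₀, ← h1]; group
        · rintro ⟨t, ht, rfl⟩
          refine ⟨(t * x)⁻¹, by rw [hv₀]; group, ?_⟩
          have h1 : PairLE p (Subgroup.zpowers (t * v₀ * t⁻¹), cj t (cj x β)) (P, e) := by
            have h := (show PairLE p (Subgroup.zpowers v₀, cj x β) (P, e) from hx).cj t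
            rwa [conjS_zpowers, conjS_eq_self_of_mem_normalizer ht.1, ht.2] at h
          rw [← eq_locB hpM D hvP h1, ← cj_mul t x β, cj_inv_cj]
      show f v₀ = ∑ v ∈ S, _
      rw [Finset.sum_congr rfl fun v hv => by rw [key v hv]]
      simp only [mul_ite, mul_one, mul_zero]
      rw [← Finset.sum_filter, ← sum_filter_orbP (α := f) hv₀P (fun w hw => by
        obtain ⟨t, ht, rfl⟩ := hw
        exact hst t ht v₀ hv₀P)]
      refine (Finset.sum_congr ?_ fun v hv => rfl).symm
      ext v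
      simp only [hS, Finset.mem_filter, Finset.mem_univ, true_and]
      exact ⟨fun h => h.2, fun h => ⟨orbP_subset hv₀P v h, h⟩⟩
    · rw [phiOf_eq_zero h]
      symm
      refine Finset.sum_eq_zero fun v hv => ?_
      unfold orbitInd
      rw [if_neg, mul_zero]
      rintro ⟨y, h1, h2⟩
      refine h ⟨y⁻¹, ?_⟩
      unfold Below
      rw [← h1, ← h2, show y⁻¹ * (y * v * y⁻¹) * y⁻¹⁻¹ = v by group, cj_inv_cj]
      exact locB_spec hpM D (Finset.mem_filter.mp hv).2
  have hstar : star p (χ : G → ℂ) (fun u β =>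
      ∑ v ∈ S, (Nat.card (orbP P e v) : ℂ)⁻¹ * f v * orbitInd v (locB p P e v) u β) =
      ∑ v ∈ S, fun g => (Nat.card (orbP P e v) : ℂ)⁻¹ * f v *
        star p (χ : G → ℂ) (orbitInd v (locB p P e v)) g := by
    funext g
    rw [Finset.sum_apply]
    simp only [star, Finset.sum_mul, Finset.mul_sum]
    rw [Finset.sum_comm]
    exact Finset.sum_congr rfl fun v _ => Finset.sum_congr rfl fun β _ => by ring
  rw [hphi, hstar, Chars.classInner_sum_left]
  refine Finset.sum_congr rfl fun v hv => ?_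
  rw [show (fun g => (Nat.card (orbP P e v) : ℂ)⁻¹ * f v *
      star p (χ : G → ℂ) (orbitInd v (locB p P e v)) g) = ((Nat.card (orbP P e v) : ℂ)⁻¹ * f v) •
      star p (χ : G → ℂ) (orbitInd v (locB p P e v)) from rfl, Chars.classInner_smul_left,
    ← Chars.classInner_conj_symm,
    classInner_orbit hpM ψ χ (orderOf_of_mem hP (Finset.mem_filter.mp hv).2) (hblk v hv)]
  congr 1
  rw [conP, map_mul, map_inv₀, map_natCast]
  congr 1
  simp only [m2, map_sum, map_mul, Complex.conj_conj]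
  exact Finset.sum_congr rfl fun s _ => mul_comm _ _

/-- Contributions are invariant under the inertial group. -/
theorem conP_stab (hpM : (p : AlgInt) ∈ M) (D : MaxData p B P e) (χ ψ : IrrCharacter G) {t : G}
    (ht : t ∈ stab P e) {v : G} (hv : v ∈ P) :
    conP p P e (χ : G → ℂ) (ψ : G → ℂ) (t * v * t⁻¹) = conP p P e (χ : G → ℂ) (ψ : G → ℂ) v := by
  haveI := charP_res (p := p) hpM
  have hle := locB_spec hpM D hv
  have h1 : PairLE p (Subgroup.zpowers (t * v * t⁻¹), cj t (locB p P e v)) (P, e) := by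
    have h := hle.cj t
    rwa [conjS_zpowers, conjS_eq_self_of_mem_normalizer ht.1, ht.2] at h
  have hv' : t * v * t⁻¹ ∈ P := (Subgroup.mem_normalizer_iff.mp ht.1 v).mp hv
  rw [conP, conP, ← eq_locB hpM D hv' h1, m2_cj hpM χ ψ t (hle.isPair_left D.pmax.pair).blk,
    ← conjS_cz, card_conjS]

/-- Positive integral multiples of diagonal contributions with mean one are one. -/
theorem mul_conP_eq_one_of_galois (hpM : (p : AlgInt) ∈ M) (D : MaxData p B P e)
    (hab : ∀ x ∈ P, ∀ y ∈ P, x * y = y * x) (hpG : p ∣ Nat.card G) {χ : IrrCharacter G}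
    (hχ : χ ∈ B) (S : Finset G) (hSP : ∀ v ∈ S, v ∈ P)
    (hclosed : ∀ v ∈ S, ∀ j : ℕ, j.Coprime (Nat.card G) → v ^ j ∈ S) {q : ℕ} (hq : 0 < q)
    (hint : ∀ v ∈ S, IsIntegral ℤ ((q : ℂ) * conP p P e (χ : G → ℂ) (χ : G → ℂ) v))
    (hsum : ∑ v ∈ S, (q : ℂ) * conP p P e (χ : G → ℂ) (χ : G → ℂ) v = (S.card : ℂ)) :
    ∀ v ∈ S, (q : ℂ) * conP p P e (χ : G → ℂ) (χ : G → ℂ) v = 1 := by
  classical
  haveI := charP_res (p := p) hpM
  haveI := DegreeGraph.finiteDimensional_fieldG (G := G)
  letI : ∀ v : G, Fintype (cz v) := fun v => Fintype.ofFinite _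
  let r : G → ℝ := fun v =>
    if v ∈ S then (q : ℝ) * (conP p P e (χ : G → ℂ) (χ : G → ℂ) v).re else 1
  have hre : ∀ v ∈ S, ((r v : ℝ) : ℂ) = (q : ℂ) * conP p P e (χ : G → ℂ) (χ : G → ℂ) v := by
    intro v hv
    simp only [r, if_pos hv]
    rw [Complex.ofReal_mul, (conP_self _ _).2, Complex.ofReal_natCast]
  have hblk : ∀ v ∈ S, ∃ b : Set (IrrCharacter (cz v)), IsPBlock M b ∧
      idemS M b = locB p P e v := fun v hv =>
    ⟨_, blkSet_spec hpM ((locB_spec hpM D (hSP v hv)).isPair_left D.pmax.pair).blk⟩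
  have hm2 : ∀ v ∈ S, m2 p (χ : G → ℂ) (χ : G → ℂ) v (locB p P e v) ∈ DegreeGraph.fieldG G := by
    intro v hv
    obtain ⟨k, hk⟩ := orderOf_of_mem D.pmax.pair.pgroup (hSP v hv)
    obtain ⟨b, hbs, hbe⟩ := hblk v hv
    obtain ⟨j, hjG, hroot, hchar⟩ := exists_pow_embedding (DegreeGraph.fieldG G).val
    obtain ⟨h, -⟩ := exists_pow_m2 hpM χ hk hbs _ (hjG.coprime_dvd_right hpG) hjG hroot hchar
    rwa [hbe] at h
  have hmem : ∀ v, ((r v : ℝ) : ℂ) ∈ DegreeGraph.fieldG G := fun v => by
    by_cases hv : v ∈ S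
    · rw [hre v hv, conP]
      exact mul_mem (natCast_mem _ _) (mul_mem (inv_mem (natCast_mem _ _)) (hm2 v hv))
    · simp only [r, if_neg hv, Complex.ofReal_one]
      exact one_mem _
  intro v hv
  have h1 := eq_one_of_galois S (DegreeGraph.fieldG G) r
    (fun w hw => by
      simp only [r, if_pos hw]
      exact mul_pos (Nat.cast_pos.mpr hq)
        (conP_pos hpM D (hSP w hw) (fun y hy => hab w (hSP w hw) y hy) hχ))
    (fun w hw => by rw [hre w hw]; exact hint w hw) hmem ?_ ?_ v hv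
  · rw [← hre v hv, h1, Complex.ofReal_one]
  · intro σ
    obtain ⟨j, hjG, hroot, hchar⟩ := exists_pow_embedding σ
    have hjp : j.Coprime p := hjG.coprime_dvd_right hpG
    refine ⟨fun w => w ^ j, (DegreeGraph.pow_coprime_injective hjG).injOn,
      fun w hw => hclosed w hw j hjG, fun w hw => ?_⟩
    have hw' := hclosed w hw j hjG
    obtain ⟨k, hk⟩ := orderOf_of_mem D.pmax.pair.pgroup (hSP w hw)
    have hcz : cz (w ^ j) = cz w := by
      rw [cz, cz, cz_pow (hk ▸ pow_orderOf_eq_one _) hjp]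
    have hloc : locB p P e (w ^ j) = locB p P e w :=
      locB_eq_of_cz hpM D (hSP _ hw') (hSP w hw) hcz
    obtain ⟨b, hbs, hbe⟩ := hblk w hw
    obtain ⟨h, hσ⟩ := exists_pow_m2 hpM χ hk hbs σ hjp hjG hroot hchar
    have e1 : (⟨((r w : ℝ) : ℂ), hmem w⟩ : DegreeGraph.fieldG G) =
        (q : DegreeGraph.fieldG G) * ((Nat.card (cz w) : DegreeGraph.fieldG G)⁻¹ * ⟨_, h⟩) := by
      apply Subtype.ext
      simp only [hre w hw, conP, hbe]
      simp
    rw [e1, map_mul, map_mul, map_inv₀, map_natCast, map_natCast, hσ, hbe,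
      hre _ hw', conP, hloc, show Nat.card (cz (w ^ j)) = Nat.card (cz w) by rw [hcz]]
  · apply Complex.ofReal_injective
    rw [Complex.ofReal_sum, Finset.sum_congr rfl hre, hsum, Complex.ofReal_natCast]

end Cfsg.Agent.BlockChar
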