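import Mathlib.GroupTheory.PGroup
import Mathlib.GroupTheory.Rank
import Mathlib.Algebra.Group.Pointwise.Set.Card
import Mathlib.Data.Fintype.Lattice
import Mathlib.Data.Nat.Prime.Int
import Mathlib.RingTheory.Coprime.Lemmas
import Mathlib.RingTheory.Int.Basic

/-!
# Coprime action on an abelian `p`-group of rank at most two: a regular element
-/

set_option autoImplicit false
set_option linter.unusedSectionVars false
set_option linter.style.haveILetI false

namespace Cfsg.Agent.BlockChar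

universe u

section frattini

variable {A : Type u} [CommGroup A] [Finite A] {p : ℕ} [Fact p.Prime]

/-- Few generators give a small index of the subgroup of `p`-th powers. -/
theorem index_range_pow_le {r : ℕ} (S : Finset A) (hS : Subgroup.closure (S : Set A) = ⊤)
    (hr : S.card ≤ r) : (powMonoidHom p : A →* A).range.index ≤ p ^ r := by
  classical
  have hp : p.Prime := Fact.out
  set Φ := (powMonoidHom p : A →* A).range
  let f := QuotientGroup.mk' Φ
  have hexp : ∀ x : A ⧸ Φ, x ^ p = 1 := fun x => by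
    obtain ⟨a, rfl⟩ := QuotientGroup.mk_surjective x
    rw [← QuotientGroup.mk_pow, QuotientGroup.eq_one_iff]
    exact ⟨a, rfl⟩
  have key : ∀ T : Finset (A ⧸ Φ), Nat.card (Subgroup.closure (T : Set (A ⧸ Φ))) ≤ p ^ T.card := by
    intro T
    induction T using Finset.induction_on with
    | empty => simp
    | insert x T hx ih =>
      rw [Finset.coe_insert, Set.insert_eq, Subgroup.closure_union, ← Subgroup.zpowers_eq_closure,
        Finset.card_insert_of_notMem hx, pow_succ']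
      rw [← SetLike.coe_sort_coe, Subgroup.mul_normal]
      refine Set.natCard_mul_le.trans (Nat.mul_le_mul ?_ ih)
      rw [SetLike.coe_sort_coe, Nat.card_zpowers]
      exact orderOf_le_of_pow_eq_one hp.pos (hexp x)
  have h := key (S.image f)
  rw [Finset.coe_image, ← MonoidHom.map_closure, hS, Subgroup.map_top_of_surjective f
    (QuotientGroup.mk'_surjective Φ), Subgroup.card_top] at h
  exact h.trans (Nat.pow_le_pow_right hp.pos (Finset.card_image_le.trans hr))

theorem card_ker_pow_eq_index : Nat.card (powMonoidHom p : A →* A).ker =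
    (powMonoidHom p : A →* A).range.index := by
  set f := (powMonoidHom p : A →* A)
  have h1 := Subgroup.card_mul_index f.ker
  rw [Subgroup.index_ker] at h1
  have h2 := Subgroup.card_mul_index f.range
  exact Nat.eq_of_mul_eq_mul_right (Nat.card_pos (α := f.range))
    (h1.trans (h2.symm.trans (mul_comm _ _)))

theorem card_ker_pow_le (n : ℕ) : Nat.card (powMonoidHom (p ^ n) : A →* A).ker ≤
    (powMonoidHom p : A →* A).range.index ^ n := by
  induction n with
  | zero =>
    have : (powMonoidHom (p ^ 0) : A →* A).ker = ⊥ := by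
      ext x; simp [MonoidHom.mem_ker]
    rw [this, Subgroup.card_bot, pow_zero]
  | succ n ih =>
    set K := (powMonoidHom (p ^ (n + 1)) : A →* A).ker
    set g := (powMonoidHom p : A →* A).comp K.subtype
    have h1 := Subgroup.card_mul_index g.ker
    rw [Subgroup.index_ker] at h1
    rw [← h1, pow_succ, mul_comm (_ ^ n)]
    refine Nat.mul_le_mul ?_ ((Subgroup.card_le_of_le ?_).trans ih)
    · rw [← card_ker_pow_eq_index]
      refine Nat.card_le_card_of_injective (fun x => ⟨((x : K) : A), ?_⟩) fun a c h => ?_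
      · exact (MonoidHom.mem_ker.mp x.2 : g (x : K) = 1)
      · exact Subtype.ext (Subtype.ext (congrArg Subtype.val h :))
    · rintro _ ⟨x, rfl⟩
      refine MonoidHom.mem_ker.mpr ?_
      show ((x : A) ^ p) ^ p ^ n = 1
      rw [← pow_mul, ← pow_succ']
      exact MonoidHom.mem_ker.mp x.2

/-- An element of largest order: it bounds the group, and is not a `p`-th power. -/
theorem exists_max_order (hA : IsPGroup p A) [Nontrivial A] :
    ∃ (x : A) (n : ℕ), 0 < n ∧ orderOf x = p ^ n ∧ x ∉ (powMonoidHom p : A →* A).range ∧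
      Nat.card A ≤ (powMonoidHom p : A →* A).range.index ^ n := by
  have hp : p.Prime := Fact.out
  obtain ⟨x, hx⟩ := Finite.exists_max (fun a : A => orderOf a)
  obtain ⟨n, hn⟩ := IsPGroup.iff_orderOf.mp hA x
  have hn0 : 0 < n := by
    rcases Nat.eq_zero_or_pos n with rfl | h
    · obtain ⟨y, hy⟩ := exists_ne (1 : A)
      refine absurd (orderOf_eq_one_iff.mp ?_) hy
      have := hx y
      simp only [hn, pow_zero] at this
      exact le_antisymm this (orderOf_pos y)
    · exact h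
  have hall : ∀ a : A, a ^ p ^ n = 1 := fun a => by
    obtain ⟨i, hi⟩ := IsPGroup.iff_orderOf.mp hA a
    have hle : i ≤ n := (Nat.pow_le_pow_iff_right hp.one_lt).mp (hi ▸ hn ▸ hx a)
    exact orderOf_dvd_iff_pow_eq_one.mp (hi ▸ pow_dvd_pow p hle)
  refine ⟨x, n, hn0, hn, ?_, ?_⟩
  · rintro ⟨v, hv⟩
    have h1 : x ^ p ^ (n - 1) = 1 := by
      rw [← hv]
      show (v ^ p) ^ p ^ (n - 1) = 1
      rw [← pow_mul, ← pow_succ', Nat.sub_add_cancel hn0, hall]
    have h2 := orderOf_dvd_of_pow_eq_one h1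
    rw [hn] at h2
    have := (Nat.pow_dvd_pow_iff_le_right hp.one_lt).mp h2
    omega
  · have htop : (powMonoidHom (p ^ n) : A →* A).ker = ⊤ := eq_top_iff.mpr fun a _ => hall a
    rw [← Subgroup.card_top (G := A), ← htop]
    exact card_ker_pow_le n

end frattini

section action

variable {G : Type u} [Group G] [Finite G] {p : ℕ} [Fact p.Prime] {P : Subgroup G}

/-- A `p'`-element of the action fixing the elements of order `p` fixes everything. -/
theorem conj_fix_of_fix_omega (hP : IsPGroup p P) (hab : ∀ x ∈ P, ∀ y ∈ P, x * y = y * x) {t : G}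
    (htP : ∀ x ∈ P, t * x * t⁻¹ ∈ P) {m : ℕ} (hm : ¬ p ∣ m)
    (htm : ∀ x ∈ P, t ^ m * x * (t ^ m)⁻¹ = x)
    (hΩ : ∀ x ∈ P, x ^ p = 1 → t * x * t⁻¹ = x) : ∀ x ∈ P, t * x * t⁻¹ = x := by
  have hp : p.Prime := Fact.out
  suffices h : ∀ k : ℕ, ∀ x ∈ P, x ^ p ^ k = 1 → t * x * t⁻¹ = x by
    intro x hx
    obtain ⟨k, hk⟩ := hP ⟨x, hx⟩
    exact h k x hx (congrArg Subtype.val hk)
  intro k
  induction k with
  | zero => intro x _ hx1; rw [pow_zero, pow_one] at hx1; rw [hx1]; group
  | succ k ih =>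
    intro x hx hx1
    set y := t * x * t⁻¹ * x⁻¹ with hy
    have hyP : y ∈ P := P.mul_mem (htP x hx) (P.inv_mem hx)
    have hyp : y ^ p = 1 := by
      have h1 : t * x ^ p * t⁻¹ = x ^ p := ih (x ^ p) (P.pow_mem hx p) (by
        rw [← pow_mul, ← pow_succ']; exact hx1)
      rw [hy, (show Commute (t * x * t⁻¹) x⁻¹ from
        hab _ (htP x hx) _ (P.inv_mem hx)).mul_pow, conj_pow, h1, inv_pow, mul_inv_cancel]
    have hfy : t * y * t⁻¹ = y := hΩ y hyP hyp
    have htx : t * x * t⁻¹ = y * x := by rw [hy, inv_mul_cancel_right]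
    have hit : ∀ i : ℕ, t ^ i * x * (t ^ i)⁻¹ = y ^ i * x := by
      intro i
      induction i with
      | zero => simp
      | succ i ih' =>
        calc t ^ (i + 1) * x * (t ^ (i + 1))⁻¹ = t * (t ^ i * x * (t ^ i)⁻¹) * t⁻¹ := by
              rw [pow_succ']; group
          _ = t * (y ^ i * x) * t⁻¹ := by rw [ih']
          _ = (t * y * t⁻¹) ^ i * (t * x * t⁻¹) := by rw [conj_pow]; group
          _ = y ^ (i + 1) * x := by rw [hfy, htx, ← mul_assoc, ← pow_succ]
    have hym : y ^ m = 1 := mul_eq_right.mp ((hit m).symm.trans (htm x hx))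
    have hy1 : y = 1 := by
      have h := pow_gcd_eq_one.mpr ⟨hym, hyp⟩
      rwa [Nat.Coprime.gcd_eq_one ((hp.coprime_iff_not_dvd.mpr hm).symm), pow_one] at h
    rw [htx, hy1, one_mul]

/-- An abelian `p`-group of rank at most two, not elementary abelian, has an element whose
stabilizer in a `p'`-group of automorphisms is trivial. -/
theorem exists_regular_element (hP : IsPGroup p P) (hab : ∀ x ∈ P, ∀ y ∈ P, x * y = y * x)
    {T : Subgroup G} (hTN : T ≤ Subgroup.normalizer (P : Set G))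
    (hidx : ∀ T' : Subgroup G, T' ≤ T →
      ¬ p ∣ (Subgroup.centralizer (P : Set G)).relIndex T')
    (hΩ : Nat.card {x : P // x ^ p = 1} ≤ p ^ 2) (hexp : ∃ x ∈ P, x ^ p ≠ 1) :
    ∃ u ∈ P, T ⊓ Subgroup.centralizer ((Subgroup.zpowers u : Subgroup G) : Set G) ≤
      Subgroup.centralizer (P : Set G) := by
  classical
  have hp : p.Prime := Fact.out
  letI : CommGroup P := { mul_comm := fun a b => Subtype.ext (hab a a.2 b b.2) }
  set Φ := (powMonoidHom p : P →* P).range with hΦ
  set Ω := (powMonoidHom p : P →* P).ker with hΩdef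
  have hΩc : Nat.card Ω ≤ p ^ 2 := by
    refine le_of_eq_of_le ?_ hΩ
    exact Nat.card_congr (Equiv.subtypeEquivRight fun x => MonoidHom.mem_ker)
  obtain ⟨x₀, hx₀, hx₀p⟩ := hexp
  haveI : Nontrivial P := ⟨⟨⟨x₀, hx₀⟩, 1, fun h => hx₀p (by
    rw [show x₀ = 1 from congrArg Subtype.val h, one_pow])⟩⟩
  -- an element of order `p` in the powers
  obtain ⟨⟨b, hbΦ⟩, hbo⟩ : ∃ b : Φ, orderOf b = p := by
    refine exists_prime_orderOf_dvd_card' p ?_
    obtain ⟨i, hi⟩ := IsPGroup.iff_card.mp (hP.to_subgroup Φ)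
    rw [hi]
    refine dvd_pow_self p fun h0 => hx₀p ?_
    rw [h0, pow_zero, Subgroup.card_eq_one] at hi
    have : (⟨x₀, hx₀⟩ : P) ^ p ∈ Φ := ⟨⟨x₀, hx₀⟩, rfl⟩
    rw [hi, Subgroup.mem_bot] at this
    exact congrArg Subtype.val this
  rw [← Subgroup.orderOf_coe] at hbo
  change orderOf b = p at hbo
  have hbΩ : b ∈ Ω := MonoidHom.mem_ker.mpr (show b ^ p = 1 from hbo ▸ pow_orderOf_eq_one b)
  have hΦtop : Φ ≠ ⊤ := by
    intro h
    have hi : Nat.card Ω = 1 := by
      rw [hΩdef, card_ker_pow_eq_index, ← hΦ, h, Subgroup.index_top]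
    rw [Subgroup.card_eq_one] at hi
    rw [hi, Subgroup.mem_bot] at hbΩ
    rw [hbΩ, orderOf_one] at hbo
    exact hp.ne_one hbo.symm
  -- the coset to be searched
  obtain ⟨a, haΦ, haΩ⟩ : ∃ a : P, a ∉ Φ ∧ Ω ≤ Subgroup.zpowers a ⊔ Φ := by
    by_cases h : Ω ≤ Φ
    · obtain ⟨a, -, ha⟩ := SetLike.exists_of_lt (lt_top_iff_ne_top.mpr hΦtop)
      exact ⟨a, ha, h.trans le_sup_right⟩
    · obtain ⟨a, haΩ, ha⟩ := SetLike.not_le_iff_exists.mp h
      refine ⟨a, ha, ?_⟩
      have hle : Subgroup.zpowers a ⊔ Subgroup.zpowers b ≤ Ω :=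
        sup_le (Subgroup.zpowers_le.mpr haΩ) (Subgroup.zpowers_le.mpr hbΩ)
      have hao : orderOf a = p := orderOf_eq_prime (MonoidHom.mem_ker.mp haΩ) fun h' =>
        ha (h' ▸ Φ.one_mem)
      have hba : b ∉ Subgroup.zpowers a := by
        intro hb'
        have heq := Subgroup.eq_of_le_of_card_ge (Subgroup.zpowers_le.mpr hb')
          (by rw [Nat.card_zpowers, Nat.card_zpowers, hao, hbo])
        exact ha (Subgroup.zpowers_le.mpr hbΦ (heq.symm ▸ Subgroup.mem_zpowers a))
      have hlt : Subgroup.zpowers a < Subgroup.zpowers a ⊔ Subgroup.zpowers b :=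
        lt_of_le_of_ne le_sup_left fun heq => hba (by
          rw [heq]; exact Subgroup.mem_sup_right (Subgroup.mem_zpowers b))
      have hcard : p ^ 2 ≤ Nat.card (Subgroup.zpowers a ⊔ Subgroup.zpowers b : Subgroup P) := by
        obtain ⟨i, hi⟩ := IsPGroup.iff_card.mp
          (hP.to_subgroup (Subgroup.zpowers a ⊔ Subgroup.zpowers b))
        have h1 : p ^ 1 < p ^ i := by
          rw [← hi, pow_one, ← hao, ← Nat.card_zpowers]
          by_contra hn
          push Not at hn
          exact hlt.ne (Subgroup.eq_of_le_of_card_ge hlt.le hn)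
        rw [hi]
        exact Nat.pow_le_pow_right hp.pos ((Nat.pow_lt_pow_iff_right hp.one_lt).mp h1)
      rw [← Subgroup.eq_of_le_of_card_ge hle (hΩc.trans hcard)]
      exact sup_le_sup_left (Subgroup.zpowers_le.mpr hbΦ) _
  by_contra hno
  push Not at hno
  -- the automorphisms
  have htP : ∀ t ∈ T, ∀ x ∈ P, t * x * t⁻¹ ∈ P := fun t ht x hx =>
    (Subgroup.mem_normalizer_iff.mp (hTN ht) x).mp hx
  let act : T → P →* P := fun t =>
    { toFun := fun v => ⟨(t : G) * v * (t : G)⁻¹, htP t t.2 v v.2⟩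
      map_one' := Subtype.ext (by simp)
      map_mul' := fun a c => Subtype.ext (by simp [mul_assoc]) }
  have hact : ∀ (s t : T) (v : P), act (s * t) v = act s (act t v) := fun s t v =>
    Subtype.ext (by
      show ((s * t : T) : G) * v * ((s * t : T) : G)⁻¹ = (s : G) * ((t : G) * v * (t : G)⁻¹) * _
      push_cast; group)
  have hact1 : ∀ v : P, act 1 v = v := fun v => Subtype.ext (by
    show ((1 : T) : G) * v * ((1 : T) : G)⁻¹ = v
    simp)
  have hactΦ : ∀ (t : T) (v : P), v ∈ Φ → act t v ∈ Φ := by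
    rintro t v ⟨w, rfl⟩
    exact ⟨act t w, (map_pow (act t) w p).symm⟩
  let Ta : Subgroup T :=
    { carrier := {t | a⁻¹ * act t a ∈ Φ}
      one_mem' := by show a⁻¹ * act 1 a ∈ Φ; rw [hact1, inv_mul_cancel]; exact Φ.one_mem
      mul_mem' := fun {s t} hs ht => by
        show a⁻¹ * act (s * t) a ∈ Φ
        rw [hact, show act t a = a * (a⁻¹ * act t a) by group, map_mul, ← mul_assoc]
        exact Φ.mul_mem hs (hactΦ _ _ ht)
      inv_mem' := fun {t} ht => by
        show a⁻¹ * act t⁻¹ a ∈ Φ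
        have h := hactΦ t⁻¹ _ (Φ.inv_mem ht)
        rwa [map_inv, map_mul, map_inv, ← hact, inv_mul_cancel, hact1, mul_inv_rev, inv_inv] at h }
  set C := Subgroup.centralizer (P : Set G) with hC
  set T' := Ta.map T.subtype with hT'
  have hT'T : T' ≤ T := Subgroup.map_subtype_le Ta
  set N := C.subgroupOf T' with hN
  haveI : N.Normal := Subgroup.normal_subgroupOf_of_le_normalizer (fun t ht =>
    Subgroup.mem_normalizer_iff.mpr fun c => by
      have hn := hTN (hT'T ht)
      constructor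
      · intro hc
        refine Subgroup.mem_centralizer_iff.mpr fun x hx => ?_
        have h := Subgroup.mem_centralizer_iff.mp hc (t⁻¹ * x * t)
          ((Subgroup.mem_normalizer_iff''.mp hn _).mp hx)
        calc x * (t * c * t⁻¹) = t * ((t⁻¹ * x * t) * c) * t⁻¹ := by group
          _ = t * (c * (t⁻¹ * x * t)) * t⁻¹ := by rw [h]
          _ = t * c * t⁻¹ * x := by group
      · intro hc
        refine Subgroup.mem_centralizer_iff.mpr fun x hx => ?_
        have h := Subgroup.mem_centralizer_iff.mp hc (t * x * t⁻¹)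
          ((Subgroup.mem_normalizer_iff.mp hn x).mp hx)
        calc x * c = t⁻¹ * ((t * x * t⁻¹) * (t * c * t⁻¹)) * t := by group
          _ = t⁻¹ * ((t * c * t⁻¹) * (t * x * t⁻¹)) * t := by rw [h]
          _ = c * x := by group)
  set m := Nat.card (T' ⧸ N) with hm
  have hmp : ¬ p ∣ m := hidx T' hT'T
  have hTaT' : ∀ t : T', ∃ h : (t : G) ∈ T, (⟨t, h⟩ : T) ∈ Ta := fun t => by
    obtain ⟨s, hs, hst⟩ := t.2
    exact ⟨hT'T t.2, (Subtype.ext hst : s = (⟨t, hT'T t.2⟩ : T)) ▸ hs⟩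
  have hpow : ∀ t ∈ T', ∀ x ∈ P, t ^ m * x * (t ^ m)⁻¹ = x := by
    intro t ht x hx
    have h1 : ((⟨t, ht⟩ : T') ^ m : T') ∈ N := by
      rw [← QuotientGroup.eq_one_iff, QuotientGroup.mk_pow, hm, pow_card_eq_one']
    rw [hN, Subgroup.mem_subgroupOf, SubmonoidClass.coe_pow] at h1
    rw [← Subgroup.mem_centralizer_iff.mp h1 x hx, mul_inv_cancel_right]
  let q : T' ⧸ N → P := Quotient.lift (fun t : T' => act ⟨t, hT'T t.2⟩ a) (fun s t hst => by
    have h := QuotientGroup.leftRel_apply.mp hst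
    rw [hN, Subgroup.mem_subgroupOf] at h
    push_cast at h
    refine Subtype.ext ?_
    show (s : G) * a * (s : G)⁻¹ = (t : G) * a * (t : G)⁻¹
    calc (s : G) * a * (s : G)⁻¹ = (s : G) * ((a : G) * ((s : G)⁻¹ * t)) * (t : G)⁻¹ := by group
      _ = (s : G) * ((s : G)⁻¹ * t * a) * (t : G)⁻¹ := by
        rw [Subgroup.mem_centralizer_iff.mp h a a.2]
      _ = _ := by group)
  letI : Fintype (T' ⧸ N) := Fintype.ofFinite _
  set c : P := ∏ z : T' ⧸ N, q z with hc
  have hcfix : ∀ t : T', act ⟨t, hT'T t.2⟩ c = c := by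
    intro t
    rw [hc, map_prod]
    refine Fintype.prod_equiv (MulAction.toPerm t) _ _ fun z => ?_
    induction z using QuotientGroup.induction_on with | H s =>
    show act ⟨t, _⟩ (act ⟨s, _⟩ a) = act ⟨((t * s : T') : G), hT'T (t * s : T').2⟩ a
    rw [← hact]
    rfl
  have hcΦ : c ∉ Φ := by
    intro h
    rw [← QuotientGroup.eq_one_iff, hc, ← QuotientGroup.mk'_apply Φ, map_prod] at h
    simp only [QuotientGroup.mk'_apply] at h
    rw [Finset.prod_eq_pow_card (b := (a : P ⧸ Φ)) fun z _ => by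
      induction z using QuotientGroup.induction_on with | H s =>
      obtain ⟨_, hs⟩ := hTaT' s
      exact (QuotientGroup.eq.mpr hs).symm, Finset.card_univ, ← Nat.card_eq_fintype_card, ← hm] at h
    refine haΦ ((QuotientGroup.eq_one_iff a).mp ?_)
    have hap : (a : P ⧸ Φ) ^ p = 1 := by
      rw [← QuotientGroup.mk_pow, QuotientGroup.eq_one_iff]; exact ⟨a, rfl⟩
    have h' := pow_gcd_eq_one.mpr ⟨h, hap⟩
    rwa [Nat.Coprime.gcd_eq_one ((hp.coprime_iff_not_dvd.mpr hmp).symm), pow_one] at h'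
  -- the fixed points of a nontrivial element of `T'`
  have hfix : ∀ t ∈ T', t ∉ C →
      ((∀ x : P, t * (x : G) * t⁻¹ = x → x ∈ Subgroup.zpowers c) ∧
        ¬ ∀ x : P, x ∈ Ω → t * (x : G) * t⁻¹ = x) := by
    intro t ht htC
    have hnΩ : ¬ ∀ x : P, x ∈ Ω → t * (x : G) * t⁻¹ = x := by
      intro hall
      refine htC (Subgroup.mem_centralizer_iff.mpr fun x hx => ?_)
      have h := conj_fix_of_fix_omega hP hab (htP t (hT'T ht)) hmp (hpow t ht)
        (fun y hy hy1 => hall ⟨y, hy⟩ (MonoidHom.mem_ker.mpr (Subtype.ext hy1))) x hx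
      exact (mul_inv_eq_iff_eq_mul.mp h).symm
    refine ⟨?_, hnΩ⟩
    let F : Subgroup P :=
      { carrier := {x | t * (x : G) * t⁻¹ = x}
        one_mem' := by simp
        mul_mem' := fun {x y} hx hy => by
          show t * ((x : G) * y) * t⁻¹ = x * y
          calc t * ((x : G) * y) * t⁻¹ = (t * x * t⁻¹) * (t * y * t⁻¹) := by group
            _ = _ := by rw [hx, hy]
        inv_mem' := fun {x} hx => by
          show t * (x : G)⁻¹ * t⁻¹ = (x : G)⁻¹
          calc t * (x : G)⁻¹ * t⁻¹ = (t * x * t⁻¹)⁻¹ := by group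
            _ = _ := by rw [hx] }
    have hcF : c ∈ F := congrArg Subtype.val (hcfix ⟨t, ht⟩)
    obtain ⟨n, hn⟩ := IsPGroup.iff_orderOf.mp hP c
    have hn0 : n ≠ 0 := fun h => hcΦ (by
      rw [h, pow_zero, orderOf_eq_one_iff] at hn; rw [hn]; exact Φ.one_mem)
    set c₁ := c ^ p ^ (n - 1) with hc₁
    have hc₁o : orderOf c₁ = p := by
      rw [hc₁, orderOf_pow_of_dvd (pow_ne_zero _ hp.ne_zero) (hn ▸ pow_dvd_pow p (Nat.sub_le n 1)),
        hn, Nat.pow_div (Nat.sub_le n 1) hp.pos, Nat.sub_sub_self (Nat.one_le_iff_ne_zero.mpr hn0),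
        pow_one]
    have hc₁m : c₁ ∈ F ⊓ Ω := ⟨F.pow_mem hcF _, MonoidHom.mem_ker.mpr
      (show c₁ ^ p = 1 from hc₁o ▸ pow_orderOf_eq_one c₁)⟩
    have hFΩ : F ⊓ Ω = Subgroup.zpowers c₁ := by
      refine (Subgroup.eq_of_le_of_card_ge (Subgroup.zpowers_le.mpr hc₁m) ?_).symm
      rw [Nat.card_zpowers, hc₁o]
      by_contra hn'
      push Not at hn'
      obtain ⟨i, hi⟩ := IsPGroup.iff_card.mp (hP.to_subgroup (F ⊓ Ω))
      rw [hi] at hn'
      have h2 : 2 ≤ i := by
        have := (Nat.pow_lt_pow_iff_right hp.one_lt).mp ((pow_one p).symm ▸ hn' : p ^ 1 < p ^ i)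
        omega
      refine hnΩ fun x hx => ?_
      have := Subgroup.eq_of_le_of_card_ge (inf_le_right : F ⊓ Ω ≤ Ω)
        (hΩc.trans (hi ▸ Nat.pow_le_pow_right hp.pos h2))
      rw [← this] at hx
      exact hx.1
    suffices h : ∀ k : ℕ, ∀ x ∈ F, x ^ p ^ k = 1 → x ∈ Subgroup.zpowers c by
      intro x hx
      obtain ⟨k, hk⟩ := hP x
      exact h k x hx hk
    intro k
    induction k with
    | zero => intro x _ hx1; rw [pow_zero, pow_one] at hx1; rw [hx1]; exact one_mem _
    | succ k ih =>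
      intro x hx hx1
      obtain ⟨i, hi⟩ := ih (x ^ p) (F.pow_mem hx p) (by rw [← pow_mul, ← pow_succ']; exact hx1)
      change c ^ i = x ^ p at hi
      by_cases hpi : (p : ℤ) ∣ i
      · obtain ⟨j, rfl⟩ := hpi
        have hy : x * (c ^ j)⁻¹ ∈ F ⊓ Ω := by
          refine ⟨F.mul_mem hx (F.inv_mem (F.zpow_mem hcF j)), MonoidHom.mem_ker.mpr ?_⟩
          show (x * (c ^ j)⁻¹) ^ p = 1
          rw [mul_pow, inv_pow, ← zpow_natCast (c ^ j), ← zpow_mul, mul_comm j, ← hi,
            mul_inv_cancel]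
        rw [hFΩ] at hy
        obtain ⟨l, hl⟩ := hy
        change c₁ ^ l = x * (c ^ j)⁻¹ at hl
        rw [← inv_mul_cancel_right x (c ^ j), ← hl]
        exact Subgroup.mul_mem _ (Subgroup.zpow_mem _ (Subgroup.pow_mem _ (Subgroup.mem_zpowers c) _) l)
          (Subgroup.zpow_mem _ (Subgroup.mem_zpowers c) j)
      · exfalso
        refine hcΦ ?_
        have hci : c ^ i ∈ Φ := ⟨x, hi.symm⟩
        have hcp : c ^ (p : ℤ) ∈ Φ := ⟨c, (zpow_natCast c p).symm⟩
        obtain ⟨α, β, hαβ⟩ := ((Nat.prime_iff_prime_int.mp hp).coprime_iff_not_dvd.mpr hpi)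
        have := Φ.mul_mem (Φ.zpow_mem hcp α) (Φ.zpow_mem hci β)
        rwa [← zpow_mul, ← zpow_mul, ← zpow_add, mul_comm (p : ℤ), mul_comm i, hαβ, zpow_one] at this
  -- every element of the coset lies in the cyclic fixed group
  have hcoset : ∀ φ ∈ Φ, ∃ t ∈ T', t ∉ C ∧ t * ((a * φ : P) : G) * t⁻¹ = (a * φ : P) := by
    intro φ hφ
    obtain ⟨t, ⟨htT, htu⟩, htC⟩ := SetLike.not_le_iff_exists.mp (hno _ (a * φ : P).2)
    have hfixt : t * ((a * φ : P) : G) * t⁻¹ = (a * φ : P) := by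
      rw [← Subgroup.mem_centralizer_iff.mp htu _ (Subgroup.mem_zpowers _), mul_inv_cancel_right]
    refine ⟨t, ⟨⟨t, htT⟩, ?_, rfl⟩, htC, hfixt⟩
    have h1 : act ⟨t, htT⟩ (a * φ) = a * φ := Subtype.ext hfixt
    rw [map_mul] at h1
    show a⁻¹ * act ⟨t, htT⟩ a ∈ Φ
    rw [eq_mul_inv_of_mul_eq h1, ← mul_assoc, inv_mul_cancel_left]
    exact Φ.mul_mem hφ (Φ.inv_mem (hactΦ _ _ hφ))
  obtain ⟨t, ht, htC, hta⟩ := hcoset 1 Φ.one_mem
  have hsub : ∀ φ ∈ Φ, a * φ ∈ Subgroup.zpowers c := fun φ hφ => by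
    obtain ⟨s, hs, hsC, hsfix⟩ := hcoset φ hφ
    exact (hfix s hs hsC).1 _ hsfix
  refine (hfix t ht htC).2 fun x hx => ?_
  have hsup : Subgroup.zpowers a ⊔ Φ ≤ Subgroup.zpowers c := by
    have ha : a ∈ Subgroup.zpowers c := by simpa using hsub 1 Φ.one_mem
    refine sup_le (Subgroup.zpowers_le.mpr ha) fun φ hφ => ?_
    have := Subgroup.mul_mem _ (Subgroup.inv_mem _ ha) (hsub φ hφ)
    rwa [inv_mul_cancel_left] at this
  obtain ⟨i, rfl⟩ := hsup (haΩ hx)
  have hct : t * (c : G) * t⁻¹ = c := congrArg Subtype.val (hcfix ⟨t, ht⟩)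
  show t * ((c ^ i : P) : G) * t⁻¹ = ((c ^ i : P) : G)
  rw [SubgroupClass.coe_zpow, ← conj_zpow, hct]

end action

end Cfsg.Agent.BlockChar
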