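import Cfsg.Agent.Chars.GlaubermanSolvable
import Cfsg.Agent.Chars.Eigen
import Cfsg.Agent.Core.PiSeparable
import Cfsg.Prelude.Def_Blocks

/-!
# Characters of defect zero for a `p`-solvable group without elements of order `pq`
-/

set_option autoImplicit false
set_option linter.unusedSectionVars false
set_option linter.style.haveILetI false

namespace Cfsg.Agent.BlockChar.DefectZeroPQ

open Cfsg Cfsg.Agent
open scoped ComplexConjugate

universe u

/-- No element of order `p` centralises one of order `q`. -/
def NoCommute (p q : ℕ) (G : Type u) [Group G] : Prop :=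
  ∀ x y : G, orderOf x = p → orderOf y = q → ¬ Commute x y

variable {G : Type u} [Group G] [Fintype G] {p q : ℕ}

theorem noCommute_symm (h : NoCommute p q G) : NoCommute q p G :=
  fun x y hx hy hc => h y x hy hx hc.symm

open scoped Classical in
/-- A normal `p'`-subgroup of order divisible by `q` carries a character of `p`-defect zero. -/
theorem exists_defect_zero (hp : p.Prime) (hq : q.Prime) (hC : NoCommute p q G) (N : Subgroup G)
    [N.Normal] (hN : (Nat.card N).Coprime p) (hqN : q ∣ Nat.card N) :
    ∃ χ : IrrCharacter G, (charDegree (χ : G → ℂ)).factorization p = (Nat.card G).factorization p := by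
  haveI := Fact.mk hp
  haveI := Fact.mk hq
  haveI := Fintype.ofFinite N
  obtain ⟨y, hy⟩ := exists_prime_orderOf_dvd_card' (G := N) q hqN
  set C : Finset N := Finset.univ.filter fun z => IsConj ((y : N) : G) (z : G) with hCdef
  have hord : ∀ z ∈ C, orderOf z = q := fun z hz => by
    obtain ⟨g, hg⟩ := isConj_iff.mp (Finset.mem_filter.mp hz).2
    rw [← Subgroup.orderOf_coe, ← hg]
    rw [show g * (y : G) * g⁻¹ = MulAut.conj g (y : G) from rfl, MulEquiv.orderOf_eq,
      Subgroup.orderOf_coe, hy]
  -- an element of order `p` moves every class of `N` in `C`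
  have hmove : ∀ x : G, orderOf x = p → ∀ z ∈ C,
      ConjClasses.map (MulAut.conjNormal (H := N) x).toMonoidHom (ConjClasses.mk z) ≠ ConjClasses.mk z := by
    intro x hx z hz hfix
    set S := Subgroup.zpowers x
    set φ : S →* MulAut N := (MulAut.conjNormal (H := N)).comp S.subtype
    have hS : Group.IsSolvable S := inferInstance
    have hcop : (Nat.card N).Coprime (Nat.card S) := by rwa [Nat.card_zpowers, hx]
    obtain ⟨hE, -⟩ := Chars.glauberman_classes hS φ hcop
    obtain ⟨c, hc, hzc⟩ := hE z (by
      rintro ⟨a, ha⟩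
      obtain ⟨i, rfl⟩ := ha
      let A : Subgroup G :=
        { carrier := {g | IsConj z (MulAut.conjNormal g z)}
          one_mem' := by show IsConj z (MulAut.conjNormal (1 : G) z); rw [map_one]; exact IsConj.refl z
          mul_mem' := fun {g h} hg hh => by
            show IsConj z (MulAut.conjNormal (g * h) z)
            rw [map_mul]
            exact IsConj.trans hg ((MulAut.conjNormal (H := N) g).toMonoidHom.map_isConj hh)
          inv_mem' := fun {g} hg => by
            show IsConj z (MulAut.conjNormal g⁻¹ z)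
            have h := (MulAut.conjNormal (H := N) g⁻¹).toMonoidHom.map_isConj hg
            change IsConj (MulAut.conjNormal g⁻¹ z) (MulAut.conjNormal g⁻¹ (MulAut.conjNormal g z)) at h
            rw [← MulAut.mul_apply, ← map_mul, inv_mul_cancel, map_one] at h
            exact h.symm }
      exact Subgroup.zpowers_le.mpr
        (show x ∈ A from (ConjClasses.mk_eq_mk_iff_isConj.mp hfix).symm) ⟨i, rfl⟩)
    have hxc : Commute x (c : G) := by
      have h := congrArg Subtype.val (hc ⟨x, Subgroup.mem_zpowers x⟩)
      exact mul_inv_eq_iff_eq_mul.mp h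
    obtain ⟨g, hg⟩ := isConj_iff.mp hzc
    refine hC x (c : G) hx ?_ hxc
    rw [Subgroup.orderOf_coe, ← hg, show g * z * g⁻¹ = MulAut.conj g z from rfl, MulEquiv.orderOf_eq,
      hord z hz]
  obtain ⟨θ, hθ⟩ : ∃ θ : IrrCharacter N, ∀ x : G, orderOf x = p →
      x ∉ Chars2.inertiaSub (G := G) (θ : N → ℂ) := by
    by_contra hno
    push Not at hno
    have hdiv : ∀ θ : IrrCharacter N, ∃ α : ℂ, IsIntegral ℤ α ∧
        ∑ z ∈ C, (θ : N → ℂ) z / (θ : N → ℂ) 1 = (p : ℂ) * α := by
      intro θ
      obtain ⟨x, hx, hxT⟩ := hno θ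
      set X : Finset (ConjClasses N) := C.image ConjClasses.mk with hX
      let w : ConjClasses N → ℂ := fun K =>
        ∑ z ∈ Finset.univ.filter (fun z => ConjClasses.mk z = K), (θ : N → ℂ) z / (θ : N → ℂ) 1
      have hsum : ∑ z ∈ C, (θ : N → ℂ) z / (θ : N → ℂ) 1 = ∑ K ∈ X, w K := by
        rw [← Finset.sum_fiberwise_of_maps_to (t := X) (g := ConjClasses.mk)
          (fun z hz => Finset.mem_image_of_mem _ hz)]
        refine Finset.sum_congr rfl fun K hK => Finset.sum_congr ?_ fun _ _ => rfl
        obtain ⟨z, hz, rfl⟩ := Finset.mem_image.mp hK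
        ext z'
        simp only [Finset.mem_filter, Finset.mem_univ, true_and, hCdef, and_iff_right_iff_imp]
        intro h
        exact (Finset.mem_filter.mp hz).2.trans
          (N.subtype.map_isConj (ConjClasses.mk_eq_mk_iff_isConj.mp h).symm)
      have hw : ∀ K, IsIntegral ℤ (w K) := by
        intro K
        obtain ⟨z, rfl⟩ := ConjClasses.mk_surjective K
        have h := Chars.centralChar_isIntegral_irr θ.2 z
        convert h using 1
        simp only [w]
        have hval : ∀ z' ∈ Finset.univ.filter (fun z' => ConjClasses.mk z' = ConjClasses.mk z),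
            (θ : N → ℂ) z' / (θ : N → ℂ) 1 = (θ : N → ℂ) z / (θ : N → ℂ) 1 := fun z' hz' => by
          obtain ⟨g, rfl⟩ := isConj_iff.mp
            (ConjClasses.mk_eq_mk_iff_isConj.mp (Finset.mem_filter.mp hz').2).symm
          rw [Chars.isCharacter_conj_apply (Chars.irr_isCharacter θ)]
        rw [Finset.sum_congr rfl hval, Finset.sum_const, nsmul_eq_mul,
          show (Finset.univ.filter fun z' => ConjClasses.mk z' = ConjClasses.mk z) =
            Finset.univ.filter (IsConj z) from Finset.filter_congr fun z' _ => by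
              rw [ConjClasses.mk_eq_mk_iff_isConj]; exact ⟨IsConj.symm, IsConj.symm⟩,
          show (Finset.univ.filter (IsConj z)).card = (Subgroup.centralizer ({z} : Set N)).index by
            convert Chars.card_filter_isConj z, mul_div_assoc]
      -- the permutation of the classes
      let f : ConjClasses N → ConjClasses N := ConjClasses.map (MulAut.conjNormal (H := N) x).toMonoidHom
      have hfw : ∀ K, w (f K) = w K := by
        intro K
        refine (Finset.sum_equiv (MulAut.conjNormal (H := N) x).toEquiv (fun z => ?_) fun z _ => ?_).symm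
        · simp only [Finset.mem_filter, Finset.mem_univ, true_and]
          constructor
          · intro h; rw [← h]; rfl
          · intro h
            obtain ⟨z₀, rfl⟩ := ConjClasses.mk_surjective K
            have h1 := congrArg (ConjClasses.map (MulAut.conjNormal (H := N) x⁻¹).toMonoidHom) h
            change ConjClasses.mk (MulAut.conjNormal x⁻¹ (MulAut.conjNormal x z)) =
              ConjClasses.mk (MulAut.conjNormal x⁻¹ (MulAut.conjNormal x z₀)) at h1
            rwa [← MulAut.mul_apply, ← MulAut.mul_apply, ← map_mul, inv_mul_cancel, map_one] at h1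
        · congr 1
          have h := congrFun (Chars2.mem_inertiaSub.mp hxT) (MulAut.conjNormal x z)
          simp only [Chars2.conjFun] at h
          rw [← MulAut.mul_apply, ← map_mul, inv_mul_cancel, map_one] at h
          exact h
      let S := Subgroup.zpowers x
      have hSc : Nat.card S = p := by rw [Nat.card_zpowers, hx]
      letI act : MulAction S (ConjClasses N) :=
        { smul := fun a => ConjClasses.map (MulAut.conjNormal (H := N) (a : G)).toMonoidHom
          one_smul := fun K => by
            obtain ⟨z, rfl⟩ := ConjClasses.mk_surjective K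
            show ConjClasses.mk (MulAut.conjNormal ((1 : S) : G) z) = _
            rw [Subgroup.coe_one, map_one]; rfl
          mul_smul := fun a b K => by
            obtain ⟨z, rfl⟩ := ConjClasses.mk_surjective K
            show ConjClasses.mk (MulAut.conjNormal ((a * b : S) : G) z) = _
            rw [Subgroup.coe_mul, map_mul]; rfl }
      have hfix : ∀ (a : S) (K : ConjClasses N), w (a • K) = w K := by
        let B : Subgroup G :=
          { carrier := {g | ∀ K : ConjClasses N, w (ConjClasses.map (MulAut.conjNormal (H := N) g).toMonoidHom K) = w K}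
            one_mem' := fun K => by
              obtain ⟨z, rfl⟩ := ConjClasses.mk_surjective K
              show w (ConjClasses.mk (MulAut.conjNormal (1 : G) z)) = _
              rw [map_one]; rfl
            mul_mem' := fun {g h} hg hh K => by
              obtain ⟨z, rfl⟩ := ConjClasses.mk_surjective K
              show w (ConjClasses.mk (MulAut.conjNormal (g * h) z)) = _
              rw [map_mul]
              exact (hg (ConjClasses.mk (MulAut.conjNormal h z))).trans (hh (ConjClasses.mk z))
            inv_mem' := fun {g} hg K => by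
              obtain ⟨z, rfl⟩ := ConjClasses.mk_surjective K
              show w (ConjClasses.mk (MulAut.conjNormal g⁻¹ z)) = _
              have h := hg (ConjClasses.mk (MulAut.conjNormal g⁻¹ z))
              change w (ConjClasses.mk (MulAut.conjNormal g (MulAut.conjNormal g⁻¹ z))) = _ at h
              rw [← MulAut.mul_apply, ← map_mul, mul_inv_cancel, map_one] at h
              exact h.symm }
        rintro ⟨a, ha⟩ K
        exact (Subgroup.zpowers_le.mpr (show x ∈ B from hfw) ha : a ∈ B) K
      have hXinv : ∀ (a : S) (K : ConjClasses N), K ∈ X → a • K ∈ X := by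
        intro a K hK
        obtain ⟨z, hz, rfl⟩ := Finset.mem_image.mp hK
        refine Finset.mem_image.mpr ⟨MulAut.conjNormal (H := N) (a : G) z,
          Finset.mem_filter.mpr ⟨Finset.mem_univ _, (Finset.mem_filter.mp hz).2.trans
            (isConj_iff.mpr ⟨(a : G), (MulAut.conjNormal_apply _ _).symm⟩)⟩, rfl⟩
      have hfree : ∀ K ∈ X, ∀ a : S, a • K = K → a = 1 := by
        intro K hK a ha
        by_contra hne
        obtain ⟨z, hz, rfl⟩ := Finset.mem_image.mp hK
        refine hmove (a : G) ?_ z hz ha
        have h := orderOf_dvd_natCard a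
        rw [hSc] at h
        rw [Subgroup.orderOf_coe]
        exact ((Nat.dvd_prime hp).mp h).resolve_left fun e => hne (orderOf_eq_one_iff.mp e)
      refine ⟨∑ O ∈ X.image (fun K => Quotient.mk (MulAction.orbitRel S (ConjClasses N)) K), w O.out, ?_, ?_⟩
      · exact IsIntegral.sum _ fun O _ => hw _
      · rw [hsum, Finset.mul_sum, ← Finset.sum_fiberwise_of_maps_to
          (t := X.image (fun K => Quotient.mk (MulAction.orbitRel S (ConjClasses N)) K))
          (fun K hK => Finset.mem_image_of_mem _ hK)]
        refine Finset.sum_congr rfl fun O hO => ?_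
        obtain ⟨K, hK, rfl⟩ := Finset.mem_image.mp hO
        have hset : X.filter (fun K' => Quotient.mk (MulAction.orbitRel S (ConjClasses N)) K' =
            Quotient.mk (MulAction.orbitRel S (ConjClasses N)) K) = Finset.univ.image (fun a : S => a • K) := by
          ext K'
          simp only [Finset.mem_filter, Finset.mem_image, Finset.mem_univ, true_and]
          constructor
          · rintro ⟨-, h⟩
            obtain ⟨a, ha⟩ := MulAction.orbitRel_apply.mp (Quotient.exact h)
            exact ⟨a, ha⟩
          · rintro ⟨a, rfl⟩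
            exact ⟨hXinv a K hK, Quotient.sound (MulAction.orbitRel_apply.mpr ⟨a, rfl⟩)⟩
        obtain ⟨b, hb⟩ := MulAction.orbitRel_apply.mp
          (Quotient.exact (Quotient.out_eq (Quotient.mk (MulAction.orbitRel S (ConjClasses N)) K)))
        rw [hset, Finset.sum_image (fun a _ a' _ h => by
          have h1 : (a'⁻¹ * a) • K = K := by rw [mul_smul, h, inv_smul_smul]
          exact (inv_mul_eq_one.mp (hfree K hK _ h1)).symm),
          Finset.sum_congr rfl (fun a _ => hfix a K), Finset.sum_const, Finset.card_univ,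
          ← Nat.card_eq_fintype_card, hSc, nsmul_eq_mul, ← hb, hfix]
    choose α hα hαeq using hdiv
    have htot : (Nat.card N : ℂ) =
        (p : ℂ) * ∑ θ : IrrCharacter N, α θ * ((θ : N → ℂ) 1 * conj ((θ : N → ℂ) y)) := by
      rw [Finset.mul_sum]
      calc (Nat.card N : ℂ) = ∑ z ∈ C, ∑ θ : IrrCharacter N, (θ : N → ℂ) z * conj ((θ : N → ℂ) y) := by
            simp only [Chars.column_orth]
            rw [← Finset.sum_subset (s₁ := Finset.univ.filter (IsConj y)) (s₂ := C)
              (fun z hz => Finset.mem_filter.mpr ⟨Finset.mem_univ _,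
                N.subtype.map_isConj (Finset.mem_filter.mp hz).2⟩)
              (fun z _ hz => by
                split_ifs with h
                · exact absurd (Finset.mem_filter.mpr ⟨Finset.mem_univ _, h.symm⟩) hz
                · rfl),
              Finset.sum_congr rfl (g := fun _ =>
              (Nat.card (Subgroup.centralizer ({y} : Set N)) : ℂ)) fun z hz => ?_,
              Finset.sum_const, show (Finset.univ.filter (IsConj y)).card = (Subgroup.centralizer ({y} : Set N)).index by
                convert Chars.card_filter_isConj y, nsmul_eq_mul, ← Nat.cast_mul,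
              Subgroup.index_mul_card]
            rw [if_pos (Finset.mem_filter.mp hz).2.symm]
            obtain ⟨g, rfl⟩ := isConj_iff.mp (Finset.mem_filter.mp hz).2
            congr 1
            exact Nat.card_congr
              { toFun := fun c => ⟨g⁻¹ * c * g, by
                  have h := Subgroup.mem_centralizer_singleton_iff.mp c.2
                  rw [Subgroup.mem_centralizer_singleton_iff]
                  calc g⁻¹ * c * g * y = g⁻¹ * ((c : N) * (g * y * g⁻¹)) * g := by group
                    _ = g⁻¹ * ((g * y * g⁻¹) * c) * g := by rw [h]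
                    _ = y * (g⁻¹ * c * g) := by group⟩
                invFun := fun c => ⟨g * c * g⁻¹, by
                  have h := Subgroup.mem_centralizer_singleton_iff.mp c.2
                  rw [Subgroup.mem_centralizer_singleton_iff]
                  calc g * c * g⁻¹ * (g * y * g⁻¹) = g * ((c : N) * y) * g⁻¹ := by group
                    _ = g * (y * c) * g⁻¹ := by rw [h]
                    _ = g * y * g⁻¹ * (g * c * g⁻¹) := by group⟩
                left_inv := fun c => Subtype.ext (show g * (g⁻¹ * (c : N) * g) * g⁻¹ = c by group)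
                right_inv := fun c => Subtype.ext (show g⁻¹ * (g * (c : N) * g⁻¹) * g = c by group) }
        _ = _ := by
            rw [Finset.sum_comm]
            refine Finset.sum_congr rfl fun θ _ => ?_
            rw [← mul_assoc, ← hαeq θ, Finset.sum_mul]
            refine Finset.sum_congr rfl fun z _ => ?_
            rw [← mul_assoc, div_mul_cancel₀ _ (Chars.irr_apply_one_ne_zero θ.2)]
    set β := ∑ θ : IrrCharacter N, α θ * ((θ : N → ℂ) 1 * conj ((θ : N → ℂ) y)) with hβdef
    have hβ : IsIntegral ℤ β := IsIntegral.sum _ fun θ _ => by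
      obtain ⟨n, hn⟩ := Chars.exists_apply_one_eq (Chars.irr_isCharacter θ)
      refine (hα θ).mul (IsIntegral.mul (by rw [hn]; exact isIntegral_natCast n) ?_)
      exact Chars.isIntegral_of_isCharacter
        (Chars.isCharacter_star (Chars.irr_isCharacter θ)) y
    have hdvd : p ∣ Nat.card N := by
      refine Chars.dvd_of_isIntegral_div hp.pos ?_
      rwa [htot, mul_div_cancel_left₀ _ (Nat.cast_ne_zero.mpr hp.ne_zero)]
    exact (hp.coprime_iff_not_dvd.mp hN.symm) hdvd
  obtain ⟨χ, hχ⟩ := Chars.exists_irr_above N θ.2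
  refine ⟨χ, ?_⟩
  set T := Chars2.inertiaSub (G := G) (θ : N → ℂ)
  have hT : ¬ p ∣ Nat.card T := fun hd => by
    obtain ⟨x, hx⟩ := exists_prime_orderOf_dvd_card' (G := T) p hd
    exact hθ x (by rw [Subgroup.orderOf_coe]; exact hx) x.2
  obtain ⟨d, hd0, hd, hdvd⟩ := Chars.irr_degree_dvd_card χ.2
  have hdeg : charDegree (χ : G → ℂ) = d := by simp [charDegree, hd]
  obtain ⟨e, he⟩ := Chars.exists_classInner_eq_nat
    (Chars.isCharacter_restrict (Chars.irr_isCharacter χ) N) (Chars.irr_isCharacter θ)
  obtain ⟨t, ht⟩ := Chars.exists_apply_one_eq (Chars.irr_isCharacter θ)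
  have h := Chars2.clifford_degree χ.2 θ.2 hχ
  rw [he, ht, hd] at h
  have hd' : T.index ∣ d := ⟨e * t, by rw [← mul_assoc]; exact_mod_cast h⟩
  rw [hdeg]
  refine le_antisymm ((Nat.factorization_le_iff_dvd hd0.ne' Nat.card_pos.ne').mpr hdvd p) ?_
  rw [← T.card_mul_index, Nat.factorization_mul Nat.card_pos.ne' Subgroup.index_ne_zero_of_finite,
    Finsupp.add_apply, Nat.factorization_eq_zero_of_not_dvd hT, zero_add]
  exact (Nat.factorization_le_iff_dvd Subgroup.index_ne_zero_of_finite hd0.ne').mpr hd' p

/-- The hypothesis passes to the quotient by a normal subgroup of order prime to `p q`. -/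
theorem noCommute_quot (hp : p.Prime) (hq : q.Prime) (hpq : p ≠ q) (hC : NoCommute p q G)
    (N : Subgroup G) [N.Normal] (hNp : (Nat.card N).Coprime p) (hNq : (Nat.card N).Coprime q) :
    NoCommute p q (G ⧸ N) := by
  haveI := Fact.mk hp
  haveI := Fact.mk hq
  intro xb yb hx hy hc
  obtain ⟨x₀, rfl⟩ := QuotientGroup.mk'_surjective N xb
  obtain ⟨y₀, rfl⟩ := QuotientGroup.mk'_surjective N yb
  -- a lift of order `p`
  set x := x₀ ^ Nat.card N with hxdef
  have hxp : x ^ p = 1 := by
    have hmem : x₀ ^ p ∈ N := by
      rw [← QuotientGroup.eq_one_iff, QuotientGroup.mk_pow]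
      exact hx ▸ pow_orderOf_eq_one _
    rw [hxdef, ← pow_mul, mul_comm, pow_mul]
    exact congrArg Subtype.val (pow_card_eq_one' (x := (⟨_, hmem⟩ : N)))
  have hxN : x ∉ N := by
    intro h
    rw [← QuotientGroup.eq_one_iff, hxdef, QuotientGroup.mk_pow] at h
    have := orderOf_dvd_of_pow_eq_one h
    rw [show (x₀ : G ⧸ N) = QuotientGroup.mk' N x₀ from rfl, hx] at this
    exact hp.coprime_iff_not_dvd.mp hNp.symm this
  have hxo : orderOf x = p := orderOf_eq_prime hxp fun h => hxN (h ▸ N.one_mem)
  set Y := (Subgroup.zpowers (QuotientGroup.mk' N y₀)).comap (QuotientGroup.mk' N)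
  have hxY : ∀ z ∈ Y, x * z * x⁻¹ * z⁻¹ ∈ N := by
    intro z hz
    obtain ⟨i, hi⟩ := Subgroup.mem_zpowers_iff.mp (Subgroup.mem_comap.mp hz)
    rw [← QuotientGroup.eq_one_iff]
    simp only [QuotientGroup.mk_mul, QuotientGroup.mk_inv, hxdef, QuotientGroup.mk_pow]
    have h : Commute ((x₀ : G ⧸ N) ^ Nat.card N) (z : G ⧸ N) := by
      rw [show (z : G ⧸ N) = QuotientGroup.mk' N y₀ ^ i from hi.symm]
      exact (hc.pow_left _).zpow_right i
    rw [h.eq, mul_inv_cancel_right, mul_inv_cancel]
  have hNY : N ≤ Y := fun n hn => by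
    refine Subgroup.mem_comap.mpr ?_
    rw [show QuotientGroup.mk' N n = 1 from (QuotientGroup.eq_one_iff n).mpr hn]
    exact Subgroup.one_mem _
  set S := Subgroup.zpowers x
  have hnorm : ∀ a ∈ S, ∀ z ∈ Y, a * z * a⁻¹ ∈ Y := by
    have h1 : S ≤ Subgroup.normalizer (Y : Set G) := by
      refine Subgroup.zpowers_le.mpr (Subgroup.mem_normalizer_iff.mpr fun z => ⟨fun hz => ?_, fun hz => ?_⟩)
      · have h2 := Y.mul_mem (hNY (hxY z hz)) hz
        rwa [inv_mul_cancel_right] at h2
      · have h2 := hxY _ hz
        have e : x⁻¹ * (x * (x * z * x⁻¹) * x⁻¹ * (x * z * x⁻¹)⁻¹)⁻¹ * x * (x * z * x⁻¹) ∈ Y :=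
          Y.mul_mem (hNY ((inferInstance : N.Normal).conj_mem' _ (N.inv_mem h2) x)) hz
        convert e using 1
        group
    intro a ha z hz
    exact (Subgroup.mem_normalizer_iff.mp (h1 ha) z).mp hz
  letI : MulDistribMulAction S Y :=
    { smul := fun a z => ⟨(a : G) * z * (a : G)⁻¹, hnorm a a.2 z z.2⟩
      one_smul := fun z => Subtype.ext (show ((1 : S) : G) * z * ((1 : S) : G)⁻¹ = z by simp)
      mul_smul := fun a b z => Subtype.ext (show ((a * b : S) : G) * z * ((a * b : S) : G)⁻¹ =
        (a : G) * ((b : G) * z * (b : G)⁻¹) * (a : G)⁻¹ by push_cast; group)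
      smul_mul := fun a z w => Subtype.ext (show (a : G) * ((z : G) * w) * (a : G)⁻¹ =
        (a : G) * z * (a : G)⁻¹ * ((a : G) * w * (a : G)⁻¹) by group)
      smul_one := fun a => Subtype.ext (show (a : G) * 1 * (a : G)⁻¹ = 1 by group) }
  have hS : IsPGroup p S := IsPGroup.of_card (n := 1) (by rw [Nat.card_zpowers, hxo, pow_one])
  have hYc : Nat.card Y = q * Nat.card N := by
    have h := Subgroup.card_mul_index Y
    rw [Subgroup.index_comap_of_surjective _ (QuotientGroup.mk'_surjective N)] at h
    have h2 := Subgroup.card_mul_index (Subgroup.zpowers (QuotientGroup.mk' N y₀))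
    have h3 := Subgroup.card_mul_index N
    rw [Subgroup.index_eq_card, ← h2, ← h, Nat.card_zpowers, hy, ← mul_assoc, mul_comm (Nat.card N)] at h3
    exact (Nat.eq_of_mul_eq_mul_right (Nat.pos_of_ne_zero Subgroup.index_ne_zero_of_finite) h3).symm
  -- a Sylow subgroup of `Y` fixed by `x`
  have hpY : ¬ p ∣ Nat.card Y := by
    rw [hYc, hp.dvd_mul]
    rintro (h | h)
    · exact hpq ((Nat.prime_dvd_prime_iff_eq hp hq).mp h)
    · exact hp.coprime_iff_not_dvd.mp hNp.symm h
  obtain ⟨Q, hQ⟩ := hS.nonempty_fixed_point_of_prime_not_dvd_card (Sylow q Y) fun hd =>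
    hpY (hd.trans ((Sylow.card_dvd_index (default : Sylow q Y)).trans (Subgroup.index_dvd_card _)))
  have hQc : Nat.card (Q : Subgroup Y) = q := by
    rw [Sylow.card_eq_multiplicity, hYc, Nat.factorization_mul hq.ne_zero Nat.card_pos.ne',
      Finsupp.add_apply, hq.factorization_self,
      Nat.factorization_eq_zero_of_not_dvd (hq.coprime_iff_not_dvd.mp hNq.symm), add_zero, pow_one]
  obtain ⟨⟨y, hy'⟩, hyo⟩ := exists_prime_orderOf_dvd_card' (G := (Q : Subgroup Y)) q (dvd_of_eq hQc.symm)
  rw [← Subgroup.orderOf_coe] at hyo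
  change orderOf y = q at hyo
  have hmem : (⟨x, Subgroup.mem_zpowers x⟩ : S) • y ∈ (Q : Subgroup Y) := by
    have h := hQ ⟨x, Subgroup.mem_zpowers x⟩
    exact (SetLike.ext_iff.mp (congrArg (fun R : Sylow q Y => (R : Subgroup Y)) h) _).mp ⟨y, hy', rfl⟩
  set d := ((⟨x, Subgroup.mem_zpowers x⟩ : S) • y) * y⁻¹ with hd
  have hdQ : d ∈ (Q : Subgroup Y) := Subgroup.mul_mem _ hmem (Subgroup.inv_mem _ hy')
  have hdN : (d : G) ∈ N := hxY y y.2
  have hd1 : d = 1 := by
    refine orderOf_eq_one_iff.mp (Nat.eq_one_of_dvd_coprimes hNq ?_ ?_)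
    · rw [← Subgroup.orderOf_coe d, ← Subgroup.orderOf_mk (d : G) hdN]
      exact orderOf_dvd_natCard _
    · have := orderOf_dvd_natCard (⟨d, hdQ⟩ : (Q : Subgroup Y))
      rwa [hQc, Subgroup.orderOf_mk] at this
  rw [hd, mul_inv_eq_one] at hd1
  refine hC x (y : G) hxo ?_ (mul_inv_eq_iff_eq_mul.mp (congrArg Subtype.val hd1))
  rw [Subgroup.orderOf_coe]; exact hyo

theorem exists_normal_pieces (hs : IsPSolvable p G) [Nontrivial G] :
    ∃ N : Subgroup G, N.Normal ∧ N ≠ ⊥ ∧
      ((∃ m : ℕ, Nat.card N = p ^ m) ∨ (Nat.card N).Coprime p) := by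
  obtain ⟨n, H, h0, hlast, -, hn, hstep⟩ := hs
  by_contra hno
  push Not at hno
  have hall : ∀ i, H i = ⊥ := by
    intro i
    induction i using Fin.induction with
    | zero => exact h0
    | succ i ih =>
      by_contra hne
      obtain ⟨h1, h2⟩ := hno (H i.succ) (hn _) hne
      have h := hstep i
      rw [ih, Subgroup.relIndex_bot_left] at h
      rcases h with ⟨m, hm⟩ | h
      · exact h1 m hm
      · exact h2 h
  have h := hall (Fin.last n)
  rw [hlast] at h
  exact bot_ne_top h.symm

/-- The theorem for a `p`-solvable group. -/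
theorem exists_of_isPSolvable (hp : p.Prime) (hq : q.Prime) (hpq : p ≠ q) :
    ∀ (n : ℕ) (G : Type u) [Group G] [Fintype G], Nat.card G = n → p ∣ n → q ∣ n →
      NoCommute p q G → IsPSolvable p G →
        (∃ χ : IrrCharacter G, (charDegree (χ : G → ℂ)).factorization p = (Nat.card G).factorization p) ∨
        ∃ χ : IrrCharacter G, (charDegree (χ : G → ℂ)).factorization q = (Nat.card G).factorization q := by
  intro n
  induction n using Nat.strong_induction_on with
  | _ n ih =>
    intro G _ _ hn hpn hqn hC hs
    haveI := Fact.mk hp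
    haveI : Nontrivial G := Finite.one_lt_card_iff_nontrivial.mp
      (lt_of_lt_of_le hp.one_lt (Nat.le_of_dvd Nat.card_pos (hn ▸ hpn)))
    obtain ⟨N, hNn, hN1, hN⟩ := exists_normal_pieces hs
    haveI := hNn
    rcases hN with ⟨m, hm⟩ | hN
    · right
      refine exists_defect_zero hq hp (noCommute_symm hC) N ?_ ?_
      · rw [hm]; exact Nat.Coprime.pow_left m ((Nat.coprime_primes hp hq).mpr hpq)
      · rw [hm]
        exact dvd_pow_self p fun h => hN1 (Subgroup.card_eq_one.mp (by rw [hm, h, pow_zero]))
    by_cases hqN : q ∣ Nat.card N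
    · exact Or.inl (exists_defect_zero hp hq hC N hN hqN)
    have hNq : (Nat.card N).Coprime q := (hq.coprime_iff_not_dvd.mpr hqN).symm
    haveI : Fintype (G ⧸ N) := Fintype.ofFinite _
    have hcard : Nat.card (G ⧸ N) * Nat.card N = n := by
      rw [← Subgroup.index_eq_card, Subgroup.index_mul_card, hn]
    have hlt : Nat.card (G ⧸ N) < n := by
      have h1 : 1 < Nat.card N := (Subgroup.one_lt_card_iff_ne_bot N).mpr hN1
      rw [← hcard]
      exact lt_mul_of_one_lt_right Nat.card_pos h1
    have hf : ∀ r : ℕ, r.Prime → (Nat.card N).Coprime r →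
        (Nat.card G).factorization r = (Nat.card (G ⧸ N)).factorization r := by
      intro r hr hrc
      rw [hn, ← hcard, Nat.factorization_mul Nat.card_pos.ne' Nat.card_pos.ne', Finsupp.add_apply,
        Nat.factorization_eq_zero_of_not_dvd (hr.coprime_iff_not_dvd.mp hrc.symm), add_zero]
    have hs' := QuotientGroup.mk'_surjective N
    rcases ih _ hlt (G ⧸ N) rfl ((hN.symm).dvd_of_dvd_mul_right (by rwa [hcard]))
        ((hNq.symm).dvd_of_dvd_mul_right (by rwa [hcard]))
        (noCommute_quot hp hq hpq hC N hN hNq) (Core.isPSolvable_quotient hs N) with ⟨χ, hχ⟩ | ⟨χ, hχ⟩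
    · exact Or.inl ⟨⟨_, Chars.isIrrCharacter_comp_surjective χ.2 _ hs'⟩, by
        simp only [charDegree, Function.comp_apply, map_one]; rw [hf p hp hN]; exact hχ⟩
    · exact Or.inr ⟨⟨_, Chars.isIrrCharacter_comp_surjective χ.2 _ hs'⟩, by
        simp only [charDegree, Function.comp_apply, map_one]; rw [hf q hq hNq]; exact hχ⟩

end Cfsg.Agent.BlockChar.DefectZeroPQ
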