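import Cfsg.Agent.Chars.Gen
import Cfsg.Agent.Chars.Linear

/-!
Functions on a finite abelian `2`-group of rank two under a free automorphism of order three.
-/

set_option autoImplicit false
set_option linter.unusedSectionVars false
set_option linter.style.haveILetI false

namespace Cfsg.Agent.BlockChar.Homocyclic

open scoped ComplexConjugate
open Cfsg Cfsg.Agent

universe u v

variable {A : Type u} [CommGroup A] [Fintype A]

/-- The squares. -/
abbrev sq (A : Type u) [CommGroup A] : Subgroup A := (powMonoidHom 2 : A →* A).range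

theorem hom_norm (φ : A →* ℂˣ) (v : A) : conj ((φ v : ℂ)) = ((φ v⁻¹ : ℂˣ) : ℂ) := by
  have h : ((φ v : ℂˣ) : ℂ) ^ Nat.card A = 1 := by
    rw [← Units.val_pow_eq_pow_val, ← map_pow, pow_card_eq_one', map_one, Units.val_one]
  rw [map_inv, Units.val_inv_eq_inv_val,
    Complex.inv_eq_conj (Complex.norm_eq_one_of_pow_eq_one h Nat.card_pos.ne')]

theorem sum_hom (φ : A →* ℂˣ) :
    ∑ v : A, ((φ v : ℂˣ) : ℂ) = @ite _ (φ = 1) (Classical.propDecidable _) (Nat.card A : ℂ) 0 := by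
  classical
  split_ifs with h
  · subst h; simp [Nat.card_eq_fintype_card]
  · refine sum_hom_units_eq_zero ((Units.coeHom ℂ).comp φ) fun e => h (MonoidHom.ext fun x => Units.ext ?_)
    exact DFunLike.congr_fun e x

theorem sum_mul_conj (φ ψ : A →* ℂˣ) :
    ∑ v : A, (φ v : ℂ) * conj ((ψ v : ℂ)) =
      @ite _ (φ = ψ) (Classical.propDecidable _) (Nat.card A : ℂ) 0 := by
  classical
  rw [Finset.sum_congr rfl fun v _ => (show (φ v : ℂ) * conj ((ψ v : ℂ)) =
    (((φ * ψ⁻¹) v : ℂˣ) : ℂ) by rw [hom_norm]; simp), sum_hom]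
  exact if_congr (mul_inv_eq_one (G := A →* ℂˣ)) rfl rfl

theorem card_dual : Nat.card (A →* ℂˣ) = Nat.card A :=
  CommGroup.card_monoidHom_of_hasEnoughRootsOfUnity A ℂ

theorem sum_dual [Fintype (A →* ℂˣ)] (v : A) :
    ∑ φ : A →* ℂˣ, ((φ v : ℂˣ) : ℂ) = @ite _ (v = 1) (Classical.propDecidable _) (Nat.card A : ℂ) 0 := by
  classical
  split_ifs with h
  · subst h
    rw [← card_dual (A := A), Nat.card_eq_fintype_card]
    simp
  · obtain ⟨φ₀, hφ₀⟩ := CommGroup.exists_apply_ne_one_of_hasEnoughRootsOfUnity A ℂ h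
    have h1 := Fintype.sum_equiv (Equiv.mulLeft φ₀) (fun φ : A →* ℂˣ => (φ₀ v : ℂ) * (φ v : ℂ))
      (fun φ : A →* ℂˣ => ((φ v : ℂˣ) : ℂ)) (fun φ => by simp)
    rw [← Finset.mul_sum] at h1
    by_contra hne
    refine hφ₀ (Units.ext ?_)
    exact (mul_left_eq_self₀.mp h1).resolve_right hne

theorem sq_eq_one_iff_trivial (φ : A →* ℂˣ) : φ * φ = 1 ↔ φ.comp (sq A).subtype = 1 := by
  constructor
  · intro h
    ext ⟨x, y, rfl⟩
    have := DFunLike.congr_fun h y
    simp only [MonoidHom.mul_apply, MonoidHom.one_apply] at this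
    simp [powMonoidHom_apply, pow_two, ← Units.val_mul, this]
  · intro h
    ext y
    have := DFunLike.congr_fun h ⟨y ^ 2, y, rfl⟩
    simp only [MonoidHom.comp_apply, Subgroup.coe_subtype, MonoidHom.one_apply, map_pow] at this
    rw [MonoidHom.mul_apply, ← pow_two, this, MonoidHom.one_apply]

/-- The shape of a homocyclic group of rank two. -/
structure Shape (A : Type u) [CommGroup A] : Prop where
  card_omega : Nat.card (powMonoidHom 2 : A →* A).ker = 4
  omega_le : (powMonoidHom 2 : A →* A).ker ≤ sq A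

theorem Shape.card_sq (hA : Shape A) : 4 * Nat.card (sq A) = Nat.card A := by
  rw [← Subgroup.card_mul_index (powMonoidHom 2 : A →* A).ker, hA.card_omega, Subgroup.index_ker]

theorem Shape.exists_top (hA : Shape A) : ∃ v : A, v ∉ sq A := by
  by_contra h
  push Not at h
  have h1 := hA.card_sq
  rw [show sq A = ⊤ from top_le_iff.mp fun v _ => h v, Subgroup.card_top] at h1
  have := Nat.card_pos (α := A)
  omega

theorem Shape.card_top (hA : Shape A) [DecidablePred (· ∈ sq A)] :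
    4 * (Finset.univ.filter (fun v : A => v ∉ sq A)).card = 3 * Nat.card A := by
  have h := Finset.card_filter_add_card_filter_not
    (s := (Finset.univ : Finset A)) (fun v : A => v ∈ sq A)
  have e : (Finset.univ.filter (fun v : A => v ∈ sq A)).card = Nat.card (sq A) := by
    rw [Nat.card_eq_fintype_card]; exact (Fintype.card_subtype _).symm
  rw [e, Finset.card_univ, ← Nat.card_eq_fintype_card] at h
  have := hA.card_sq
  omega

open scoped Classical in
/-- The linear characters of order at most two. -/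
noncomputable def twoHoms (A : Type u) [CommGroup A] [Fintype (A →* ℂˣ)] : Finset (A →* ℂˣ) :=
  Finset.univ.filter fun ε => ε * ε = 1

theorem mem_twoHoms [Fintype (A →* ℂˣ)] {ε : A →* ℂˣ} : ε ∈ twoHoms A ↔ ε * ε = 1 := by
  classical
  simp [twoHoms]

theorem Shape.card_twoHoms (hA : Shape A) [Fintype (A →* ℂˣ)] : (twoHoms A).card = 4 := by
  classical
  obtain ⟨E⟩ := CommGroup.monoidHom_mulEquiv_of_hasEnoughRootsOfUnity A ℂ
  rw [← hA.card_omega, Nat.card_eq_fintype_card,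
    ← Finset.card_univ, ← Finset.card_map (Function.Embedding.subtype (fun a : A => a ∈ (powMonoidHom 2 : A →* A).ker))]
  refine Finset.card_bij' (fun ε _ => E ε) (fun a _ => E.symm a) ?_ ?_ (fun ε _ => E.symm_apply_apply ε)
    (fun a _ => E.apply_symm_apply a)
  · intro ε hε
    rw [Finset.mem_map]
    refine ⟨⟨E ε, ?_⟩, Finset.mem_univ _, rfl⟩
    rw [MonoidHom.mem_ker, powMonoidHom_apply, pow_two, ← map_mul, mem_twoHoms.mp hε, map_one]
  · intro a ha
    obtain ⟨⟨b, hb⟩, -, rfl⟩ := Finset.mem_map.mp ha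
    rw [mem_twoHoms, ← map_mul]
    rw [MonoidHom.mem_ker, powMonoidHom_apply, pow_two] at hb
    show E.symm (b * b) = 1
    rw [hb, map_one]

theorem Shape.sum_twoHoms (hA : Shape A) [Fintype (A →* ℂˣ)] (v : A) :
    ∑ ε ∈ twoHoms A, ((ε v : ℂˣ) : ℂ) =
      @ite _ (v ∈ sq A) (Classical.propDecidable _) (4 : ℂ) 0 := by
  classical
  split_ifs with h
  · rw [Finset.sum_congr rfl (g := fun _ => (1 : ℂ)) fun ε hε => ?_, Finset.sum_const,
      hA.card_twoHoms]
    · simp
    · have := DFunLike.congr_fun ((sq_eq_one_iff_trivial ε).mp (mem_twoHoms.mp hε)) ⟨v, h⟩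
      simp only [MonoidHom.comp_apply, Subgroup.coe_subtype, MonoidHom.one_apply] at this
      rw [this, Units.val_one]
  · obtain ⟨φ₀, hφ₀⟩ := CommGroup.exists_apply_ne_one_of_hasEnoughRootsOfUnity (A ⧸ sq A) ℂ
      (a := QuotientGroup.mk' (sq A) v) (fun e => h ((QuotientGroup.eq_one_iff v).mp e))
    set ε₀ : A →* ℂˣ := φ₀.comp (QuotientGroup.mk' (sq A)) with hε₀
    have hm : ε₀ * ε₀ = 1 := by
      rw [sq_eq_one_iff_trivial]
      ext ⟨x, hx⟩
      rw [hε₀, MonoidHom.comp_apply, Subgroup.coe_subtype, MonoidHom.comp_apply,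
        QuotientGroup.mk'_apply, (QuotientGroup.eq_one_iff x).mpr hx, map_one, MonoidHom.one_apply]
    have h1 : ∑ ε ∈ twoHoms A, (ε₀ v : ℂ) * (ε v : ℂ) = ∑ ε ∈ twoHoms A, ((ε v : ℂˣ) : ℂ) := by
      refine Finset.sum_nbij' (fun ε => ε₀ * ε) (fun ε => ε₀ * ε) ?_ ?_ ?_ ?_ ?_
      · intro ε hε
        rw [mem_twoHoms, mul_mul_mul_comm ε₀ ε ε₀ ε, hm, mem_twoHoms.mp hε, one_mul (1 : A →* ℂˣ)]
      · intro ε hε
        rw [mem_twoHoms, mul_mul_mul_comm ε₀ ε ε₀ ε, hm, mem_twoHoms.mp hε, one_mul (1 : A →* ℂˣ)]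
      · intro ε _; show ε₀ * (ε₀ * ε) = ε; rw [← mul_assoc ε₀ ε₀ ε, hm, one_mul ε]
      · intro ε _; show ε₀ * (ε₀ * ε) = ε; rw [← mul_assoc ε₀ ε₀ ε, hm, one_mul ε]
      · intro ε _; simp
    rw [← Finset.mul_sum] at h1
    by_contra hne
    refine hφ₀ (Units.ext ?_)
    exact (mul_left_eq_self₀.mp h1).resolve_right hne

theorem exists_extension (κ : sq A →* ℂˣ) : ∃ φ : A →* ℂˣ, φ.comp (sq A).subtype = κ :=
  MonoidHom.domRestrict_surjective (M := ℂ) (sq A) κ

/-- The form attached to weights one at the identity and a third elsewhere. -/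
noncomputable def qform (K h : A → ℂ) : ℂ :=
  h 1 * K 1 + (3 : ℂ)⁻¹ * ∑ v ∈ @Finset.erase A (Classical.decEq A) Finset.univ 1, h v * K v

open scoped Classical in
theorem qform_eq (K h : A → ℂ) :
    qform K h = (2 / 3 : ℂ) * (h 1 * K 1) + (3 : ℂ)⁻¹ * ∑ v : A, h v * K v := by
  rw [qform, ← Finset.add_sum_erase Finset.univ (fun v => h v * K v) (Finset.mem_univ 1)]
  ring

/-- The average over the automorphism. -/
def trs (σ : A ≃* A) (h : A → ℂ) (v : A) : ℂ := h v + h (σ v) + h (σ (σ v))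

variable {σ : A ≃* A}

theorem trs_stable (h3 : ∀ v, σ (σ (σ v)) = v) (h : A → ℂ) (v : A) :
    trs σ h (σ v) = trs σ h v := by
  simp only [trs, h3]; ring

theorem sum_mul_comp {K : A → ℂ} (hK : ∀ v, K (σ v) = K v) (h : A → ℂ) :
    ∑ v : A, h (σ v) * K v = ∑ v : A, h v * K v :=
  Fintype.sum_equiv σ.toEquiv _ _ fun v => by
    show h (σ v) * K v = h (σ v) * K (σ v)
    rw [hK]

theorem qform_trs {K : A → ℂ} (hK : ∀ v, K (σ v) = K v) (h : A → ℂ) :
    qform K (trs σ h) = 2 * (h 1 * K 1) + ∑ v : A, h v * K v := by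
  rw [qform_eq]
  simp only [trs, map_one, add_mul, Finset.sum_add_distrib]
  rw [sum_mul_comp hK (fun v => h (σ v)), sum_mul_comp hK h]
  ring

theorem qform_trs_sum {K : A → ℂ} (hK : ∀ v, K (σ v) = K v) {ι : Type*} (s : Finset ι) (c : ι → ℂ)
    (h : ι → A → ℂ) :
    ∑ i ∈ s, c i * qform K (trs σ (h i)) =
      2 * ((∑ i ∈ s, c i * h i 1) * K 1) + ∑ v : A, (∑ i ∈ s, c i * h i v) * K v := by
  simp only [qform_trs hK, mul_add, Finset.sum_add_distrib, Finset.mul_sum, Finset.sum_mul]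
  rw [Finset.sum_comm (s := s) (t := Finset.univ)]
  congr 1
  · exact Finset.sum_congr rfl fun i _ => by ring
  · exact Finset.sum_congr rfl fun v _ => Finset.sum_congr rfl fun i _ => by ring

theorem isGen_hom (φ : A →* ℂˣ) : IsGeneralizedCharacter A (fun v => (φ v : ℂ)) :=
  Chars.isGen_of_isCharacter (Chars.isCharacter_hom φ)

theorem isGen_trs (φ : A →* ℂˣ) :
    IsGeneralizedCharacter A (trs σ fun v => (φ v : ℂ)) :=
  Chars.isGen_add (Chars.isGen_add (isGen_hom φ) (isGen_hom (φ.comp σ.toMonoidHom)))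
    (isGen_hom (φ.comp (σ.toMonoidHom.comp σ.toMonoidHom)))

theorem isGen_regular : IsGeneralizedCharacter A
    (fun v => @ite _ (v = 1) (Classical.propDecidable _) (Nat.card A : ℂ) 0) := by
  haveI : Finite (A →* ℂˣ) := Nat.finite_of_card_ne_zero (by rw [card_dual]; exact Nat.card_pos.ne')
  letI := Fintype.ofFinite (A →* ℂˣ)
  have e : (fun v => @ite _ (v = 1) (Classical.propDecidable _) (Nat.card A : ℂ) 0) =
      ∑ φ : A →* ℂˣ, fun v => (φ v : ℂ) := by
    funext v; rw [Finset.sum_apply, sum_dual]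
  rw [e]
  exact Chars.isGen_sum _ _ fun φ _ => isGen_hom φ

/-- Four times the indicator of the elements that are no squares. -/
noncomputable def topFun (v : A) : ℂ := @ite _ (v ∈ sq A) (Classical.propDecidable _) 0 4

theorem Shape.isGen_topFun (hA : Shape A) : IsGeneralizedCharacter A (topFun (A := A)) := by
  haveI : Finite (A →* ℂˣ) := Nat.finite_of_card_ne_zero (by rw [card_dual]; exact Nat.card_pos.ne')
  letI := Fintype.ofFinite (A →* ℂˣ)
  have e : (topFun (A := A)) =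
      ((4 : ℕ) : ℂ) • (fun _ : A => (1 : ℂ)) - ∑ ε ∈ twoHoms A, fun v => (ε v : ℂ) := by
    funext v
    rw [Pi.sub_apply, Pi.smul_apply, Finset.sum_apply, hA.sum_twoHoms, topFun]
    split_ifs <;> simp
  rw [e]
  exact Chars.isGen_sub (Chars.isGen_natCast_smul Chars.isGen_one 4)
    (Chars.isGen_sum _ _ fun ε _ => isGen_hom ε)

theorem mem_sq_map {v : A} : σ v ∈ sq A ↔ v ∈ sq A := by
  constructor
  · rintro ⟨y, hy⟩
    refine ⟨σ.symm y, σ.injective ?_⟩
    rw [powMonoidHom_apply, map_pow, MulEquiv.apply_symm_apply]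
    exact hy
  · rintro ⟨y, rfl⟩
    exact ⟨σ y, by simp⟩

theorem topFun_stable (v : A) : topFun (σ v) = topFun v := by
  unfold topFun
  exact @if_congr _ _ _ (Classical.propDecidable _) (Classical.propDecidable _) _ _ _ _
    mem_sq_map rfl rfl

theorem reg_stable (v : A) :
    @ite _ (σ v = 1) (Classical.propDecidable _) (Nat.card A : ℂ) 0 =
      @ite _ (v = 1) (Classical.propDecidable _) (Nat.card A : ℂ) 0 := by
  classical
  exact if_congr (EmbeddingLike.map_eq_one_iff) rfl rfl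

theorem qform_topFun (K : A → ℂ) [DecidablePred (· ∈ sq A)] :
    qform K (topFun (A := A)) =
      4 / 3 * ∑ v ∈ Finset.univ.filter (fun v : A => v ∉ sq A), K v := by
  rw [qform_eq, topFun, if_pos (one_mem _), zero_mul, mul_zero, zero_add, Finset.sum_filter,
    Finset.mul_sum, Finset.mul_sum]
  refine Finset.sum_congr rfl fun v _ => ?_
  unfold topFun
  split_ifs <;> ring

theorem qform_regular (K : A → ℂ) :
    qform K (fun v => @ite _ (v = 1) (Classical.propDecidable _) (Nat.card A : ℂ) 0) =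
      (Nat.card A : ℂ) * K 1 := by
  classical
  rw [qform_eq, if_pos rfl]
  simp only [ite_mul, zero_mul, Finset.sum_ite_eq', Finset.mem_univ, if_true]
  ring

/-- The two integers of a diagonal and their parity. -/
theorem diag_parity (hA : Shape A) (h3 : ∀ v, σ (σ (σ v)) = v) {K : A → ℂ}
    (hK : ∀ v, K (σ v) = K v) (hpos : ∀ v, 0 < (K v).re ∧ ((K v).re : ℂ) = K v)
    (hint : ∀ h : A → ℂ, IsGeneralizedCharacter A h → (∀ v, h (σ v) = h v) →
      ∃ z : ℤ, qform K h = z)
    (hone : qform K (fun _ => 1) = 1) [DecidablePred (· ∈ sq A)] :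
    ∃ a b : ℤ, (Nat.card A : ℂ) * K 1 = a ∧
      4 / 3 * ∑ v ∈ Finset.univ.filter (fun v : A => v ∉ sq A), K v = b ∧
      0 < b ∧ b < 4 ∧ 2 ∣ a + b := by
  classical
  haveI : Finite (A →* ℂˣ) := Nat.finite_of_card_ne_zero (by rw [card_dual]; exact Nat.card_pos.ne')
  letI := Fintype.ofFinite (A →* ℂˣ)
  obtain ⟨a, ha⟩ := hint _ isGen_regular reg_stable
  obtain ⟨b, hb⟩ := hint _ hA.isGen_topFun topFun_stable
  rw [qform_regular] at ha
  have hbK := hb
  rw [qform_topFun] at hbK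
  set S := Finset.univ.filter (fun v : A => v ∉ sq A) with hS
  have hbre : (b : ℝ) = 4 / 3 * ∑ v ∈ S, (K v).re := by
    apply Complex.ofReal_injective
    push_cast
    rw [← hbK, Finset.sum_congr rfl fun v _ => (hpos v).2]
  have hone' : (K 1).re + 1 / 3 * ∑ v ∈ Finset.univ.erase (1 : A), (K v).re = 1 := by
    apply Complex.ofReal_injective
    push_cast
    rw [(hpos 1).2, Finset.sum_congr rfl fun v _ => (hpos v).2]
    refine Eq.trans ?_ hone
    rw [qform]
    simp only [one_mul, one_div]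
  have hb0 : 0 < b := by
    obtain ⟨v, hv⟩ := hA.exists_top
    have : (0 : ℝ) < b := by
      rw [hbre]
      exact mul_pos (by norm_num) (Finset.sum_pos (fun w _ => (hpos w).1)
        ⟨v, Finset.mem_filter.mpr ⟨Finset.mem_univ _, hv⟩⟩)
    exact_mod_cast this
  have hb4 : b < 4 := by
    have hle : ∑ v ∈ S, (K v).re ≤ ∑ v ∈ Finset.univ.erase (1 : A), (K v).re :=
      Finset.sum_le_sum_of_subset_of_nonneg (fun v hv => Finset.mem_erase.mpr
        ⟨fun e => (Finset.mem_filter.mp hv).2 (e ▸ one_mem _), Finset.mem_univ _⟩)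
        fun v _ _ => (hpos v).1.le
    have : (b : ℝ) < 4 := by rw [hbre]; linarith [(hpos 1).1]
    exact_mod_cast this
  refine ⟨a, b, ha, hbK, hb0, hb4, ?_⟩
  set s := Finset.univ.filter (fun φ : A →* ℂˣ => φ ∉ twoHoms A) with hs
  choose z hz using fun φ : A →* ℂˣ => hint _ (isGen_trs (σ := σ) φ) (trs_stable h3 _)
  have hzinv : ∀ φ, z φ⁻¹ = z φ := fun φ => by
    have e : ((z φ⁻¹ : ℤ) : ℂ) = conj ((z φ : ℤ) : ℂ) := by
      rw [← hz, ← hz, qform_trs hK, qform_trs hK, map_add, map_mul, map_mul, map_sum, map_ofNat,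
        ← (hpos 1).2, Complex.conj_ofReal, hom_norm]
      congr 1
      · simp
      · refine Finset.sum_congr rfl fun v _ => ?_
        rw [map_mul, hom_norm, ← (hpos v).2, Complex.conj_ofReal]
        simp
    rw [map_intCast] at e
    exact_mod_cast e
  have heven : (2 : ℤ) ∣ ∑ φ ∈ s, z φ := by
    refine (ZMod.intCast_zmod_eq_zero_iff_dvd _ 2).mp ?_
    push_cast
    refine Finset.sum_involution (fun φ _ => φ⁻¹) (fun φ _ => ?_) (fun φ hφ _ e => ?_)
      (fun φ hφ => ?_) (fun φ _ => inv_inv φ)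
    · rw [hzinv]; exact CharTwo.add_self_eq_zero _
    · refine (Finset.mem_filter.mp hφ).2 (mem_twoHoms.mpr ?_)
      nth_rw 1 [← e]
      exact inv_mul_cancel φ
    · refine Finset.mem_filter.mpr ⟨Finset.mem_univ _, fun h => (Finset.mem_filter.mp hφ).2 ?_⟩
      rw [mem_twoHoms] at h ⊢
      rw [← mul_inv φ φ, inv_eq_one (α := A →* ℂˣ)] at h
      exact h
  have hsum : ∀ v : A, (@ite _ (v = 1) (Classical.propDecidable _) (Nat.card A : ℂ) 0) +
      topFun v = 4 + ∑ φ ∈ s, (φ v : ℂ) := by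
    intro v
    have h1 := Finset.sum_filter_add_sum_filter_not Finset.univ (fun φ : A →* ℂˣ => φ ∈ twoHoms A)
      (fun φ => (φ v : ℂ))
    rw [Finset.filter_univ_mem, hA.sum_twoHoms, sum_dual] at h1
    rw [← hs] at h1
    unfold topFun
    split_ifs at h1 ⊢ <;> linear_combination -h1
  have hone3 : 2 * K 1 + ∑ v : A, K v = 3 := by
    rw [qform_eq] at hone
    simp only [one_mul] at hone
    linear_combination 3 * hone
  have key : (3 : ℂ) * ((a : ℂ) + b) = 12 + ((∑ φ ∈ s, z φ : ℤ) : ℂ) := by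
    rw [← ha, ← qform_regular K, ← hb, Int.cast_sum]
    simp only [← hz]
    rw [show (∑ φ ∈ s, qform K (trs σ fun v => (φ v : ℂ))) =
      ∑ φ ∈ s, (1 : ℂ) * qform K (trs σ fun v => (φ v : ℂ)) by simp, qform_trs_sum hK]
    simp only [one_mul]
    rw [show ∑ φ ∈ s, ((φ (1 : A) : ℂˣ) : ℂ) = _ from eq_sub_of_add_eq' (hsum 1).symm,
      Finset.sum_congr rfl (g := fun v => ((@ite _ (v = 1) (Classical.propDecidable _)
        (Nat.card A : ℂ) 0) * K v + topFun v * K v) - 4 * K v) fun v _ => by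
          rw [eq_sub_of_add_eq' (hsum v).symm]; ring,
      qform_eq, qform_eq, Finset.sum_sub_distrib, Finset.sum_add_distrib, ← Finset.mul_sum]
    linear_combination 4 * hone3
  have key' : 3 * (a + b) = 12 + ∑ φ ∈ s, z φ := by exact_mod_cast key
  omega

/-- Two is impossible for a constant diagonal away from the squares. -/
theorem no_two (hA : Shape A) (h3 : ∀ v, σ (σ (σ v)) = v) {K : A → ℂ}
    (hK : ∀ v, K (σ v) = K v)
    (hint : ∀ h : A → ℂ, IsGeneralizedCharacter A h → (∀ v, h (σ v) = h v) →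
      ∃ z : ℤ, qform K h = z)
    (htop : ∀ v, v ∉ sq A → (Nat.card A : ℂ) * K v = 2)
    (hsqr : ∀ v, v * v = 1 → v ≠ 1 → ∃ s : ℤ, (Nat.card A : ℂ) * K v = (s : ℂ) * s) : False := by
  classical
  haveI : Finite (sq A →* ℂˣ) :=
    Nat.finite_of_card_ne_zero (by rw [card_dual]; exact Nat.card_pos.ne')
  letI := Fintype.ofFinite (sq A →* ℂˣ)
  obtain ⟨⟨u, hu⟩, hu1⟩ : ∃ u : (powMonoidHom 2 : A →* A).ker, u ≠ 1 := by
    by_contra h
    push Not at h
    haveI : Subsingleton (powMonoidHom 2 : A →* A).ker := ⟨fun x y => (h x).trans (h y).symm⟩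
    have := Finite.card_le_one_iff_subsingleton.mpr this
    rw [hA.card_omega] at this
    omega
  have hu1' : u ≠ 1 := fun e => hu1 (Subtype.ext e)
  have huu : u * u = 1 := by rw [← pow_two]; exact hu
  obtain ⟨s, hs⟩ := hsqr u huu hu1'
  set u' : sq A := ⟨u, hA.omega_le hu⟩ with hu'
  choose E hE using exists_extension (A := A)
  choose z hz using fun κ : sq A →* ℂˣ => hint _ (isGen_trs (σ := σ) (E κ)) (trs_stable h3 _)
  set h0 : A → ℂ := fun v => ∑ κ, ((κ u'⁻¹ : ℂˣ) : ℂ) * (E κ v : ℂ) with hh0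
  have hSq : ∀ w : sq A, h0 w = if w = u' then (Nat.card (sq A) : ℂ) else 0 := by
    intro w
    have : ∀ κ : sq A →* ℂˣ, ((κ u'⁻¹ : ℂˣ) : ℂ) * (E κ (w : A) : ℂ) =
        ((κ (u'⁻¹ * w) : ℂˣ) : ℂ) := fun κ => by
      rw [map_mul, Units.val_mul]
      congr 2
      exact DFunLike.congr_fun (hE κ) w
    simp only [h0, this, sum_dual, inv_mul_eq_one]
    exact if_congr eq_comm rfl rfl
  obtain ⟨c, hc⟩ : ∃ c : ℤ, ∑ v, h0 v = (Nat.card A : ℂ) * c := by
    refine ⟨if E 1 = 1 then 1 else 0, ?_⟩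
    simp only [h0]
    rw [Finset.sum_comm, Finset.sum_eq_single (1 : sq A →* ℂˣ)]
    · rw [← Finset.mul_sum, sum_hom]
      split_ifs <;> simp
    · intro κ _ hne
      rw [← Finset.mul_sum, sum_hom, if_neg fun e => hne ?_, mul_zero]
      rw [← hE κ, e]
      rfl
    · simp
  have hn : (Nat.card A : ℂ) = 4 * (Nat.card (sq A) : ℂ) := by exact_mod_cast hA.card_sq.symm
  have hsum := qform_trs_sum hK Finset.univ (fun κ : sq A →* ℂˣ => ((κ u'⁻¹ : ℂˣ) : ℂ))
    (fun κ v => (E κ v : ℂ))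
  simp only [hz] at hsum
  change _ = 2 * (h0 1 * K 1) + ∑ v, h0 v * K v at hsum
  have h01 : h0 1 = 0 := by
    rw [show (1 : A) = ((1 : sq A) : A) from rfl, hSq, if_neg]
    exact fun e => hu1' (congrArg Subtype.val e).symm
  have hsplit : ∀ F : A → ℂ, ∑ v, h0 v * F v = (Nat.card (sq A) : ℂ) * F u +
      ∑ v ∈ Finset.univ.filter (fun v : A => v ∉ sq A), h0 v * F v := by
    intro F
    rw [← Finset.sum_filter_add_sum_filter_not Finset.univ (fun v : A => v ∈ sq A)]
    congr 1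
    rw [Finset.sum_eq_single u]
    · rw [show h0 u = h0 (u' : A) from rfl, hSq, if_pos rfl]
    · intro v hv hne
      have hv' := (Finset.mem_filter.mp hv).2
      rw [show h0 v = h0 ((⟨v, hv'⟩ : sq A) : A) from rfl, hSq, if_neg, zero_mul]
      exact fun e => hne (congrArg Subtype.val e)
    · exact fun h => absurd (Finset.mem_filter.mpr ⟨Finset.mem_univ _, u'.2⟩) h
  have hn0 : (Nat.card A : ℂ) ≠ 0 := Nat.cast_ne_zero.mpr Nat.card_pos.ne'
  have htop' : ∑ v ∈ Finset.univ.filter (fun v : A => v ∉ sq A), h0 v * K v =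
      2 / (Nat.card A : ℂ) * ∑ v ∈ Finset.univ.filter (fun v : A => v ∉ sq A), h0 v * 1 := by
    rw [Finset.mul_sum]
    refine Finset.sum_congr rfl fun v hv => ?_
    rw [show K v = 2 / (Nat.card A : ℂ) by
      rw [eq_div_iff hn0, mul_comm]; exact htop v (Finset.mem_filter.mp hv).2]
    ring
  have hc' := hsplit (fun _ => 1)
  simp only [mul_one] at hc' htop'
  rw [hc] at hc'
  rw [h01, hsplit, htop'] at hsum
  have key : ∑ κ : sq A →* ℂˣ, ((κ u'⁻¹ : ℂˣ) : ℂ) * (z κ : ℂ) =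
      (((s * s + 8 * c - 2 : ℤ) : ℚ) / 4 : ℚ) := by
    rw [hsum]
    push_cast
    have hq : (Nat.card (sq A) : ℂ) = (Nat.card A : ℂ) / 4 := by rw [hn]; ring
    have hKu : K u = (s : ℂ) * s / (Nat.card A : ℂ) := by rw [← hs]; field_simp
    rw [eq_sub_of_add_eq' hc'.symm, hq, hKu]
    field_simp
    ring
  have hI : IsIntegral ℤ (∑ κ : sq A →* ℂˣ, ((κ u'⁻¹ : ℂˣ) : ℂ) * (z κ : ℂ)) := by
    refine IsIntegral.sum _ fun κ _ => IsIntegral.mul ?_ (isIntegral_algebraMap (x := z κ))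
    refine IsIntegral.of_pow Nat.card_pos (n := Nat.card (sq A)) ?_
    rw [← Units.val_pow_eq_pow_val, ← map_pow, pow_card_eq_one', map_one, Units.val_one]
    exact isIntegral_one
  rw [key, ← eq_ratCast (algebraMap ℚ ℂ), isIntegral_algebraMap_iff (algebraMap ℚ ℂ).injective] at hI
  obtain ⟨w, hw⟩ := IsIntegrallyClosed.isIntegral_iff.mp hI
  have hw' : 4 * w = s * s + 8 * c - 2 := by
    have : ((4 * w : ℤ) : ℚ) = ((s * s + 8 * c - 2 : ℤ) : ℚ) := by
      push_cast at hw ⊢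
      simp only [algebraMap_int_eq, eq_intCast] at hw
      rw [hw]; ring
    exact_mod_cast this
  rcases Int.emod_two_eq_zero_or_one s with h | h
  · obtain ⟨t, rfl⟩ : (2 : ℤ) ∣ s := Int.dvd_of_emod_eq_zero h
    ring_nf at hw'
    omega
  · obtain ⟨t, rfl⟩ : ∃ t, s = 2 * t + 1 := ⟨s / 2, by omega⟩
    ring_nf at hw'
    omega

end Cfsg.Agent.BlockChar.Homocyclic
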