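import Cfsg.Agent.BlockChar.HomocyclicCore

/-!
The bound on the number of characters from functions supported away from the squares.
-/

set_option autoImplicit false
set_option linter.unusedSectionVars false
set_option linter.style.haveILetI false

namespace Cfsg.Agent.BlockChar.Homocyclic

open scoped ComplexConjugate
open Cfsg Cfsg.Agent

universe u v

section vectors

variable {ι : Type v} [Fintype ι]

theorem sq_one_of_sum {c : ι → ℤ} (h : ∑ j, c j * c j = 2) :
    (∀ j, c j ≠ 0 → c j * c j = 1) ∧ (Finset.univ.filter (fun j => c j ≠ 0)).card = 2 := by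
  classical
  have hle : ∀ j, c j * c j ≤ 2 := fun j => h ▸
    Finset.single_le_sum (fun i _ => mul_self_nonneg (c i)) (Finset.mem_univ j)
  have h1 : ∀ j, c j ≠ 0 → c j * c j = 1 := fun j hj => by
    have : c j ≤ 1 ∧ -1 ≤ c j := ⟨by nlinarith [hle j], by nlinarith [hle j]⟩
    rcases (show c j = 1 ∨ c j = -1 by omega) with e | e <;> rw [e] <;> rfl
  refine ⟨h1, ?_⟩
  rw [← Finset.sum_filter_ne_zero] at h
  have e : Finset.univ.filter (fun j => c j * c j ≠ 0) = Finset.univ.filter (fun j => c j ≠ 0) :=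
    Finset.filter_congr fun j _ => by simp
  rw [e, Finset.sum_congr rfl fun j hj => h1 j (Finset.mem_filter.mp hj).2] at h
  simp only [Finset.sum_const, nsmul_eq_mul, mul_one] at h
  exact_mod_cast h

/-- Three vectors of norm two with pairwise product one live on at most four coordinates. -/
theorem card_supp_three {c : Fin 3 → ι → ℤ}
    (h : ∀ a b, ∑ j, c a j * c b j = if a = b then 2 else 1) :
    (Finset.univ.filter (fun j => ∃ a, c a j ≠ 0)).card ≤ 4 := by
  classical
  set S : Fin 3 → Finset ι := fun a => Finset.univ.filter (fun j => c a j ≠ 0) with hS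
  have hcard : ∀ a, (S a).card = 2 := fun a => (sq_one_of_sum (by simpa using h a a)).2
  have h1 : ∀ a j, c a j ≠ 0 → c a j * c a j = 1 := fun a =>
    (sq_one_of_sum (by simpa using h a a)).1
  have hint : ∀ a b, a ≠ b → (S a ∩ S b).card = 1 := by
    intro a b hab
    have hs : ∑ j ∈ S a ∩ S b, c a j * c b j = 1 := by
      rw [Finset.sum_subset (Finset.subset_univ _)]
      · rw [h, if_neg hab]
      · intro j _ hj
        simp only [hS, Finset.mem_inter, Finset.mem_filter, Finset.mem_univ, true_and] at hj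
        by_contra hne
        exact hj ⟨fun e => hne (by rw [e, zero_mul]), fun e => hne (by rw [e, mul_zero])⟩
    have hle : (S a ∩ S b).card ≤ 2 :=
      (Finset.card_le_card Finset.inter_subset_left).trans (hcard a).le
    have hodd : ((S a ∩ S b).card : ZMod 2) = 1 := by
      have e := congrArg (fun z : ℤ => (z : ZMod 2)) hs
      push_cast at e
      rw [← e, Finset.card_eq_sum_ones, Nat.cast_sum]
      refine Finset.sum_congr rfl fun j hj => ?_
      obtain ⟨ha, hb⟩ := Finset.mem_inter.mp hj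
      have hu : ∀ z : ℤ, z * z = 1 → (z : ZMod 2) = 1 := fun z hz => by
        rcases mul_self_eq_one_iff.mp hz with e | e <;> rw [e] <;> decide
      rw [hu _ (h1 a j (Finset.mem_filter.mp ha).2), hu _ (h1 b j (Finset.mem_filter.mp hb).2)]
      simp
    rcases (show (S a ∩ S b).card = 0 ∨ (S a ∩ S b).card = 1 ∨ (S a ∩ S b).card = 2 by omega)
      with e | e | e
    · rw [e] at hodd; exact absurd hodd (by decide)
    · exact e
    · rw [e] at hodd; exact absurd hodd (by decide)
  have hsub : Finset.univ.filter (fun j => ∃ a, c a j ≠ 0) ⊆ S 0 ∪ S 1 ∪ S 2 := by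
    intro j hj
    obtain ⟨a, ha⟩ := (Finset.mem_filter.mp hj).2
    rcases (show a = 0 ∨ a = 1 ∨ a = 2 by omega) with rfl | rfl | rfl <;> simp [hS, ha]
  refine (Finset.card_le_card hsub).trans ?_
  have e01 := Finset.card_union_add_card_inter (S 0) (S 1)
  have e012 := Finset.card_union_add_card_inter (S 0 ∪ S 1) (S 2)
  have hge : (S 0 ∩ S 2).card ≤ ((S 0 ∪ S 1) ∩ S 2).card :=
    Finset.card_le_card (Finset.inter_subset_inter_right Finset.subset_union_left)
  rw [hint 0 1 (by decide), hcard, hcard] at e01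
  rw [hcard] at e012
  rw [hint 0 2 (by decide)] at hge
  omega

end vectors

variable {A : Type u} [CommGroup A] [Fintype A] {σ : A ≃* A}

/-- The restriction to the squares. -/
noncomputable def res (φ : A →* ℂˣ) : sq A →* ℂˣ := φ.comp (sq A).subtype

theorem res_eq_comp {φ ψ : A →* ℂˣ} (h : res φ = res ψ) :
    res (φ.comp σ.toMonoidHom) = res (ψ.comp σ.toMonoidHom) := by
  ext x
  have := DFunLike.congr_fun h ⟨σ x, mem_sq_map.mpr x.2⟩
  simp only [res, MonoidHom.comp_apply, Subgroup.coe_subtype] at this ⊢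
  exact congrArg Units.val this

/-- A free automorphism fixes no nontrivial character of a subgroup. -/
theorem res_comp_ne (hfp : ∀ v, σ v = v → v = 1) {φ : A →* ℂˣ} (hφ : res φ ≠ 1) :
    res (φ.comp σ.toMonoidHom) ≠ res φ := by
  intro h
  refine hφ ?_
  set f : sq A → sq A := fun x => ⟨σ x * (x : A)⁻¹, mul_mem (mem_sq_map.mpr x.2) (inv_mem x.2)⟩
  have hinj : Function.Injective f := by
    intro x y hxy
    have e : σ (x : A) * (x : A)⁻¹ = σ (y : A) * (y : A)⁻¹ := congrArg Subtype.val hxy
    apply Subtype.ext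
    refine div_eq_one.mp (hfp _ ?_)
    rw [map_div]
    rwa [← div_eq_mul_inv, ← div_eq_mul_inv, div_eq_div_iff_div_eq_div] at e
  ext y
  obtain ⟨x, rfl⟩ := (Finite.injective_iff_surjective.mp hinj) y
  have hx := DFunLike.congr_fun h x
  simp only [res, MonoidHom.comp_apply, Subgroup.coe_subtype] at hx
  simp only [res, MonoidHom.comp_apply, Subgroup.coe_subtype, f, map_mul, map_inv,
    MonoidHom.one_apply]
  rw [← show φ (σ (x : A)) = φ (x : A) from hx]
  simp

theorem res_comp_one {φ : A →* ℂˣ} :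
    res (φ.comp σ.toMonoidHom) = 1 ↔ res φ = 1 := by
  constructor <;> intro h <;> ext x
  · have := DFunLike.congr_fun h ⟨σ.symm x, mem_sq_map.mp (by rw [MulEquiv.apply_symm_apply]; exact x.2)⟩
    simp only [res, MonoidHom.comp_apply, Subgroup.coe_subtype, MonoidHom.one_apply,
      MulEquiv.coe_toMonoidHom, MulEquiv.apply_symm_apply] at this ⊢
    exact congrArg Units.val this
  · have := DFunLike.congr_fun h ⟨σ x, mem_sq_map.mpr x.2⟩
    simp only [res, MonoidHom.comp_apply, Subgroup.coe_subtype, MonoidHom.one_apply,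
      MulEquiv.coe_toMonoidHom] at this ⊢
    exact congrArg Units.val this

theorem res_three (h3 : ∀ v, σ (σ (σ v)) = v) (hfp : ∀ v, σ v = v → v = 1) {φ : A →* ℂˣ}
    (hφ : res φ ≠ 1) :
    res φ ≠ res (φ.comp σ.toMonoidHom) ∧
      res φ ≠ res ((φ.comp σ.toMonoidHom).comp σ.toMonoidHom) ∧
      res (φ.comp σ.toMonoidHom) ≠ res ((φ.comp σ.toMonoidHom).comp σ.toMonoidHom) := by
  refine ⟨(res_comp_ne hfp hφ).symm, fun h => ?_,
    (res_comp_ne hfp (fun e => hφ (res_comp_one.mp e))).symm⟩
  have e := res_eq_comp (σ := σ) h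
  refine res_comp_ne hfp hφ (e.trans ?_)
  congr 1
  ext v
  simp [h3]

/-- Products of averages of characters in one fibre. -/
theorem sum_trs_mul (h3 : ∀ v, σ (σ (σ v)) = v) (hfp : ∀ v, σ v = v → v = 1) {φ ψ : A →* ℂˣ}
    (hres : res φ = res ψ) (hφ : res φ ≠ 1) :
    ∑ v : A, trs σ (fun w => (φ w : ℂ)) v * conj (trs σ (fun w => (ψ w : ℂ)) v) =
      @ite _ (φ = ψ) (Classical.propDecidable _) (3 * (Nat.card A : ℂ)) 0 := by
  classical
  set φ1 := φ.comp σ.toMonoidHom with hφ1
  set φ2 := φ1.comp σ.toMonoidHom with hφ2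
  set ψ1 := ψ.comp σ.toMonoidHom with hψ1
  set ψ2 := ψ1.comp σ.toMonoidHom with hψ2
  have r1 : res φ1 = res ψ1 := res_eq_comp hres
  have r2 : res φ2 = res ψ2 := res_eq_comp r1
  obtain ⟨n01, n02, n12⟩ := res_three h3 hfp hφ
  have e : ∀ v, trs σ (fun w => (φ w : ℂ)) v * conj (trs σ (fun w => (ψ w : ℂ)) v) =
      ((φ v : ℂ) * conj (ψ v : ℂ) + (φ v : ℂ) * conj (ψ1 v : ℂ) + (φ v : ℂ) * conj (ψ2 v : ℂ)) +
      ((φ1 v : ℂ) * conj (ψ v : ℂ) + (φ1 v : ℂ) * conj (ψ1 v : ℂ) + (φ1 v : ℂ) * conj (ψ2 v : ℂ)) +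
      ((φ2 v : ℂ) * conj (ψ v : ℂ) + (φ2 v : ℂ) * conj (ψ1 v : ℂ) +
        (φ2 v : ℂ) * conj (ψ2 v : ℂ)) := fun v => by
    simp only [trs, map_add, hφ1, hφ2, hψ1, hψ2, MonoidHom.comp_apply, MulEquiv.coe_toMonoidHom]
    ring
  have hne : ∀ {a b : A →* ℂˣ}, res a ≠ res b → a ≠ b := fun h e => h (e ▸ rfl)
  have inj : ∀ {a b : A →* ℂˣ}, a.comp σ.toMonoidHom = b.comp σ.toMonoidHom → a = b :=
    fun {a b} h => MonoidHom.ext fun v => by
      simpa using DFunLike.congr_fun h (σ.symm v)
  simp only [e, Finset.sum_add_distrib, sum_mul_conj]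
  rw [if_neg (hne (r1 ▸ n01) : ¬ φ = ψ1), if_neg (hne (r2 ▸ n02) : ¬ φ = ψ2),
    if_neg (hne (hres ▸ n01.symm) : ¬ φ1 = ψ), if_neg (hne (r2 ▸ n12) : ¬ φ1 = ψ2),
    if_neg (hne (hres ▸ n02.symm) : ¬ φ2 = ψ), if_neg (hne (r1 ▸ n12.symm) : ¬ φ2 = ψ1)]
  by_cases h : φ = ψ
  · subst h
    simp only [hφ1, hφ2, hψ1, hψ2, if_true]
    ring
  · rw [if_neg h, if_neg (fun he => h (inj he)), if_neg (fun he => h (inj (inj he))), if_neg h]
    ring

open scoped Classical in
/-- The bound `3 k ≤ n + 8`. -/
theorem count_bound (hA : Shape A) (h3 : ∀ v, σ (σ (σ v)) = v) (hfp : ∀ v, σ v = v → v = 1)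
    {ι : Type v} [Fintype ι] (I : Finset ι) {Kd : A → ℂ} (Kc : ι → A → ℂ)
    (hKd : ∀ v, v ∉ sq A → (Nat.card A : ℂ) * Kd v = 1)
    (hKc : ∀ j ∈ I, ∀ v, Kc j (σ v) = Kc j v)
    (hne : ∀ j ∈ I, ∀ v, v ≠ 1 → Kc j v ≠ 0)
    (L : (A → ℂ) → ι → ℂ)
    (hint : ∀ h : A → ℂ, IsGeneralizedCharacter A h → (∀ v, h (σ v) = h v) →
      ∀ j, ∃ z : ℤ, L h j = z)
    (hinner : ∀ h h' : A → ℂ, IsGeneralizedCharacter A h → IsGeneralizedCharacter A h' →
      (∀ v, h (σ v) = h v) → (∀ v, h' (σ v) = h' v) →
      ∑ j, L h j * conj (L h' j) = qform Kd (fun v => h v * conj (h' v)))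
    (hform : ∀ h : A → ℂ, IsGeneralizedCharacter A h → (∀ v, h (σ v) = h v) →
      ∀ j ∈ I, L h j = qform (Kc j) h) :
    3 * I.card ≤ Nat.card A + 8 := by
  haveI : Finite (A →* ℂˣ) := Nat.finite_of_card_ne_zero (by rw [card_dual]; exact Nat.card_pos.ne')
  letI := Fintype.ofFinite (A →* ℂˣ)
  haveI : Finite (sq A →* ℂˣ) :=
    Nat.finite_of_card_ne_zero (by rw [card_dual]; exact Nat.card_pos.ne')
  letI := Fintype.ofFinite (sq A →* ℂˣ)
  have hn0 : (Nat.card A : ℂ) ≠ 0 := Nat.cast_ne_zero.mpr Nat.card_pos.ne'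
  -- products of functions supported away from the squares
  have hprod : ∀ h h' : A → ℂ, (∀ v ∈ sq A, h v = 0) →
      qform Kd (fun v => h v * conj (h' v)) =
        (3 * (Nat.card A : ℂ))⁻¹ * ∑ v : A, h v * conj (h' v) := by
    intro h h' h0
    rw [qform_eq, h0 1 (one_mem _), zero_mul, zero_mul, mul_zero, zero_add, Finset.mul_sum,
      Finset.mul_sum]
    refine Finset.sum_congr rfl fun v _ => ?_
    by_cases hv : v ∈ sq A
    · rw [h0 v hv]; simp
    · rw [show Kd v = (Nat.card A : ℂ)⁻¹ from eq_inv_of_mul_eq_one_right (hKd v hv)]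
      field_simp
  -- the differences inside a fibre
  set D : (A →* ℂˣ) → (A →* ℂˣ) → A → ℂ :=
    fun φ ψ => trs σ (fun w => (φ w : ℂ)) - trs σ (fun w => (ψ w : ℂ)) with hD
  have hDgen : ∀ φ ψ, IsGeneralizedCharacter A (D φ ψ) := fun φ ψ =>
    Chars.isGen_sub (isGen_trs φ) (isGen_trs ψ)
  have hDst : ∀ φ ψ v, D φ ψ (σ v) = D φ ψ v := fun φ ψ v => by
    simp only [hD, Pi.sub_apply, trs_stable h3]
  have hD0 : ∀ φ ψ, res φ = res ψ → ∀ v ∈ sq A, D φ ψ v = 0 := by
    intro φ ψ h v hv
    have e : ∀ w : sq A, (φ w : ℂ) = (ψ w : ℂ) := fun w =>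
      congrArg Units.val (DFunLike.congr_fun h w)
    simp only [hD, Pi.sub_apply, trs, e ⟨v, hv⟩, e ⟨σ v, mem_sq_map.mpr hv⟩,
      e ⟨σ (σ v), mem_sq_map.mpr (mem_sq_map.mpr hv)⟩, sub_self]
  -- membership of a character in the set attached to a fibre
  set S : (sq A →* ℂˣ) → Finset ι := fun κ => I.filter fun j =>
    ∃ φ ψ, res φ = κ ∧ res ψ = κ ∧ qform (Kc j) (D φ ψ) ≠ 0 with hS
  have hbound : ∀ κ, κ ≠ 1 → (S κ).card ≤ 4 := by
    intro κ hκ
    obtain ⟨φ₀, hφ₀⟩ := exists_extension κ
    have hc : ((twoHoms A).erase 1).card = 3 := by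
      rw [Finset.card_erase_of_mem (mem_twoHoms.mpr (one_mul (1 : A →* ℂˣ))), hA.card_twoHoms]
    set E := (Finset.equivFinOfCardEq hc).symm with hE
    set ψs : Fin 3 → A →* ℂˣ := fun a => φ₀ * (E a : A →* ℂˣ) with hψs
    have hψres : ∀ a, res (ψs a) = κ := fun a => by
      have h2 := (sq_eq_one_iff_trivial _).mp
        (mem_twoHoms.mp (Finset.mem_of_mem_erase (E a).2))
      ext x
      have h2' := DFunLike.congr_fun h2 x
      have h0' := DFunLike.congr_fun hφ₀ x
      simp only [MonoidHom.comp_apply, Subgroup.coe_subtype, MonoidHom.one_apply] at h2' h0'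
      simp [res, hψs, h2', h0']
    have hψne : ∀ a, ψs a ≠ φ₀ := fun a e =>
      Finset.ne_of_mem_erase (E a).2 (by
        refine MonoidHom.ext fun v => ?_
        have := DFunLike.congr_fun e v
        simpa [hψs] using this)
    have hψinj : Function.Injective ψs := fun a b e => E.injective (Subtype.ext (by
      refine MonoidHom.ext fun v => ?_
      have := DFunLike.congr_fun e v
      simpa [hψs] using this))
    have hres0 : res φ₀ = κ := hφ₀
    choose z hz using fun a => hint _ (hDgen φ₀ (ψs a)) (hDst φ₀ (ψs a))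
    have hzz : ∀ a b, ∑ j, z a j * z b j = if a = b then 2 else 1 := by
      intro a b
      have h := hinner _ _ (hDgen φ₀ (ψs a)) (hDgen φ₀ (ψs b)) (hDst _ _) (hDst _ _)
      rw [hprod _ _ (hD0 _ _ (hres0.trans (hψres a).symm))] at h
      simp only [hz, map_intCast] at h
      simp only [hD, Pi.sub_apply, map_sub, sub_mul, mul_sub, Finset.sum_sub_distrib] at h
      rw [sum_trs_mul h3 hfp rfl (hres0 ▸ hκ),
        sum_trs_mul h3 hfp (hres0.trans (hψres b).symm) (hres0 ▸ hκ),
        sum_trs_mul h3 hfp ((hψres a).trans hres0.symm) (hψres a ▸ hκ),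
        sum_trs_mul h3 hfp ((hψres a).trans (hψres b).symm) (hψres a ▸ hκ),
        if_pos rfl, if_neg (hψne b).symm, if_neg (hψne a)] at h
      simp only [hψinj.eq_iff] at h
      apply Int.cast_injective (α := ℂ)
      push_cast
      rw [h]
      split_ifs <;> (field_simp; norm_num) <;> ring
    refine (Finset.card_le_card ?_).trans (card_supp_three hzz)
    intro j hj
    obtain ⟨hjI, φ, ψ, hφ, hψ, hne'⟩ := Finset.mem_filter.mp hj
    refine Finset.mem_filter.mpr ⟨Finset.mem_univ _, ?_⟩
    by_contra hall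
    push Not at hall
    have hcase : ∀ χ, res χ = κ → qform (Kc j) (D φ₀ χ) = 0 := by
      intro χ hχ
      by_cases e : χ = φ₀
      · subst e; simp [hD, qform_eq]
      · have hmem : φ₀⁻¹ * χ ∈ (twoHoms A).erase 1 := by
          refine Finset.mem_erase.mpr ⟨fun h1 => e ((inv_mul_eq_one (G := A →* ℂˣ)).mp h1).symm,
            mem_twoHoms.mpr ((sq_eq_one_iff_trivial _).mpr ?_)⟩
          ext x
          have h0' := DFunLike.congr_fun hφ₀ x
          have h1' := DFunLike.congr_fun hχ x
          simp only [res, MonoidHom.comp_apply, Subgroup.coe_subtype] at h0' h1'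
          simp [h0', h1']
        obtain ⟨a, ha⟩ := E.surjective ⟨_, hmem⟩
        have : ψs a = χ := by
          simp only [hψs, ha]
          exact mul_inv_cancel_left φ₀ χ
        rw [← this, ← hform _ (hDgen _ _) (hDst _ _) j hjI, hz, hall a, Int.cast_zero]
    refine hne' ?_
    have h1 := hcase φ hφ
    have h2 := hcase ψ hψ
    simp only [hD, qform_eq, Pi.sub_apply, sub_mul, Finset.sum_sub_distrib] at h1 h2 ⊢
    linear_combination h2 - h1
  -- the set of the function constant away from the squares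
  set S0 := I.filter fun j => qform (Kc j) (topFun (A := A)) ≠ 0 with hS0
  have hS0card : S0.card ≤ 4 := by
    choose z hz using hint _ hA.isGen_topFun topFun_stable
    have h := hinner _ _ hA.isGen_topFun hA.isGen_topFun topFun_stable topFun_stable
    rw [hprod (topFun (A := A)) (topFun (A := A)) (fun v hv => if_pos hv)] at h
    have e : ∑ v : A, topFun v * conj (topFun v) = 12 * (Nat.card A : ℂ) := by
      have hsum : ∀ v : A, topFun v * conj (topFun v) = if v ∉ sq A then (16 : ℂ) else 0 :=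
        fun v => by unfold topFun; split_ifs <;> norm_num [map_ofNat]
      rw [Finset.sum_congr rfl fun v _ => hsum v, ← Finset.sum_filter, Finset.sum_const,
        nsmul_eq_mul]
      have := congrArg (fun k : ℕ => (k : ℂ)) hA.card_top
      push_cast at this
      linear_combination 4 * this
    rw [e] at h
    simp only [hz, map_intCast] at h
    have h' : ∑ j, z j * z j = 4 := by
      apply Int.cast_injective (α := ℂ)
      push_cast
      rw [h]; field_simp; norm_num
    have : (S0.card : ℤ) ≤ 4 := by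
      rw [← h', Finset.card_eq_sum_ones, Nat.cast_sum]
      refine (Finset.sum_le_sum fun j hj => ?_).trans
        (Finset.sum_le_sum_of_subset_of_nonneg (Finset.subset_univ S0) fun j _ _ =>
          mul_self_nonneg _)
      obtain ⟨hjI, hj0⟩ := Finset.mem_filter.mp hj
      rw [← hform _ hA.isGen_topFun topFun_stable j hjI, hz, Int.cast_ne_zero] at hj0
      rw [Nat.cast_one]
      exact Int.add_one_le_iff.mpr (mul_self_pos.mpr hj0)
    exact_mod_cast this
  -- every character is in one of the sets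
  set T := Finset.univ.filter (fun κ : sq A →* ℂˣ => κ ≠ 1) with hT
  have hcover : ∀ j ∈ I, j ∈ S0 ∨ 3 ≤ (T.filter fun κ => j ∈ S κ).card := by
    intro j hj
    by_cases hj0 : j ∈ S0
    · exact Or.inl hj0
    right
    have hinv := hKc j hj
    set W : (A →* ℂˣ) → ℂ := fun φ =>
      ∑ v ∈ Finset.univ.filter (fun v : A => v ∉ sq A), (φ v : ℂ) * Kc j v with hW
    have hWD : ∀ φ ψ, res φ = res ψ → qform (Kc j) (D φ ψ) = W φ - W ψ := by
      intro φ ψ h
      have e : ∀ w ∈ sq A, (φ w : ℂ) = (ψ w : ℂ) := fun w hw =>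
        congrArg Units.val (DFunLike.congr_fun h ⟨w, hw⟩)
      have h1 : qform (Kc j) (D φ ψ) = qform (Kc j) (trs σ fun w => (φ w : ℂ)) -
          qform (Kc j) (trs σ fun w => (ψ w : ℂ)) := by
        simp only [hD, qform_eq, Pi.sub_apply, sub_mul, mul_sub, Finset.sum_sub_distrib]
        ring
      rw [h1, qform_trs hinv, qform_trs hinv, e 1 (one_mem _), add_sub_add_left_eq_sub, hW]
      simp only [Finset.sum_filter, ← Finset.sum_sub_distrib]
      refine Finset.sum_congr rfl fun v _ => ?_
      split_ifs with hv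
      · rw [e v hv]; ring
      · rfl
    by_contra hlt
    push Not at hlt
    have hconst : ∀ φ ψ, res φ = res ψ → res φ ≠ 1 → W φ = W ψ := by
      intro φ ψ h hne1
      by_contra hWne
      have hmem : ∀ φ' ψ', res φ' = res ψ' → res φ' ≠ 1 → W φ' ≠ W ψ' →
          res φ' ∈ T.filter fun κ => j ∈ S κ := fun φ' ψ' e e1 e2 =>
        Finset.mem_filter.mpr ⟨Finset.mem_filter.mpr ⟨Finset.mem_univ _, e1⟩,
          Finset.mem_filter.mpr ⟨hj, φ', ψ', rfl, e.symm, by rw [hWD _ _ e]; exact sub_ne_zero.mpr e2⟩⟩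
      have hWs : ∀ χ : A →* ℂˣ, W (χ.comp σ.toMonoidHom) = W χ := fun χ => by
        simp only [hW, Finset.sum_filter]
        refine Fintype.sum_equiv σ.toEquiv _ _ fun v => ?_
        show _ = if σ v ∉ sq A then (χ (σ v) : ℂ) * Kc j (σ v) else 0
        rw [hinv]
        exact if_congr (not_congr mem_sq_map.symm) rfl rfl
      obtain ⟨n01, n02, n12⟩ := res_three h3 hfp hne1
      have r1 := res_eq_comp (σ := σ) h
      have m0 := hmem φ ψ h hne1 hWne
      have m1 := hmem _ _ r1 (fun e => hne1 (res_comp_one.mp e)) (by rw [hWs, hWs]; exact hWne)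
      have m2 := hmem _ _ (res_eq_comp (σ := σ) r1)
        (fun e => hne1 (res_comp_one.mp (res_comp_one.mp e)))
        (by rw [hWs, hWs, hWs, hWs]; exact hWne)
      have : (3 : ℕ) ≤ (T.filter fun κ => j ∈ S κ).card := by
        refine le_trans ?_ (Finset.card_le_card (s := {res φ, res (φ.comp σ.toMonoidHom),
          res ((φ.comp σ.toMonoidHom).comp σ.toMonoidHom)}) ?_)
        · rw [Finset.card_eq_three.mpr ⟨_, _, _, n01, n02, n12, rfl⟩]
        · intro x hx
          simp only [Finset.mem_insert, Finset.mem_singleton] at hx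
          rcases hx with rfl | rfl | rfl <;> assumption
      omega
    have hWs : ∀ χ : A →* ℂˣ, W (χ.comp σ.toMonoidHom) = W χ := fun χ => by
      simp only [hW, Finset.sum_filter]
      refine Fintype.sum_equiv σ.toEquiv _ _ fun v => ?_
      show _ = if σ v ∉ sq A then (χ (σ v) : ℂ) * Kc j (σ v) else 0
      rw [hinv]
      exact if_congr (not_congr mem_sq_map.symm) rfl rfl
    -- the sums over a fibre vanish
    have hfib : ∀ φ, ∑ ε ∈ twoHoms A, W (φ * ε) = 0 := by
      intro φ
      simp only [hW]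
      rw [Finset.sum_comm]
      refine Finset.sum_eq_zero fun v hv => ?_
      rw [Finset.sum_congr rfl fun ε _ => (show ((φ * ε) v : ℂ) * Kc j v =
        ((φ v : ℂ) * Kc j v) * (ε v : ℂ) by
          rw [MonoidHom.mul_apply, Units.val_mul]; ring), ← Finset.mul_sum, hA.sum_twoHoms,
        if_neg (Finset.mem_filter.mp hv).2, mul_zero]
    have hW1 : W 1 = 0 := by
      have h : qform (Kc j) (topFun (A := A)) = 0 := by
        by_contra h; exact hj0 (Finset.mem_filter.mpr ⟨hj, h⟩)
      rw [qform_topFun] at h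
      simpa [hW] using h
    have hWall : ∀ φ, W φ = 0 := by
      intro φ
      by_cases hφ : res φ = 1
      · by_cases hφ1 : φ = 1
        · rw [hφ1]; exact hW1
        set φ1 := φ.comp σ.toMonoidHom with hφ1def
        set φ2 := φ1.comp σ.toMonoidHom with hφ2def
        have hcomp : ∀ χ : A →* ℂˣ, χ ≠ 1 → χ.comp σ.toMonoidHom ≠ χ := by
          intro χ hχ e
          refine hχ (MonoidHom.ext fun y => ?_)
          have hinj : Function.Injective fun x : A => σ x / x := fun x y hxy => by
            refine div_eq_one.mp (hfp _ ?_)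
            rw [map_div]
            exact div_eq_div_iff_div_eq_div.mp hxy
          obtain ⟨x, rfl⟩ := (Finite.injective_iff_surjective.mp hinj) y
          have hx := DFunLike.congr_fun e x
          simp only [MonoidHom.comp_apply, MulEquiv.coe_toMonoidHom] at hx
          simp [hx]
        have hne1 : ∀ {χ : A →* ℂˣ}, χ ≠ 1 → χ.comp σ.toMonoidHom ≠ 1 := fun {χ} hχ e =>
          hχ (MonoidHom.ext fun v => by simpa using DFunLike.congr_fun e (σ.symm v))
        have hcyc : φ2.comp σ.toMonoidHom = φ := MonoidHom.ext fun v => by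
          simp [hφ1def, hφ2def, h3]
        have d01 : φ ≠ φ1 := (hcomp φ hφ1).symm
        have d12 : φ1 ≠ φ2 := (hcomp φ1 (hne1 hφ1)).symm
        have d20 : φ2 ≠ φ := fun e => (hcomp φ2 (hne1 (hne1 hφ1))) (hcyc.trans e.symm)
        have hm : ∀ χ : A →* ℂˣ, res χ = 1 → χ ∈ twoHoms A := fun χ h =>
          mem_twoHoms.mpr ((sq_eq_one_iff_trivial χ).mpr h)
        have hset : twoHoms A = {1, φ, φ1, φ2} := by
          symm
          refine Finset.eq_of_subset_of_card_le ?_ ?_
          · intro x hx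
            simp only [Finset.mem_insert, Finset.mem_singleton] at hx
            rcases hx with rfl | rfl | rfl | rfl
            · exact mem_twoHoms.mpr (one_mul (1 : A →* ℂˣ))
            · exact hm _ hφ
            · exact hm _ (res_comp_one.mpr hφ)
            · exact hm _ (res_comp_one.mpr (res_comp_one.mpr hφ))
          · rw [hA.card_twoHoms, Finset.card_insert_of_notMem, Finset.card_eq_three.mpr
              ⟨_, _, _, d01, d20.symm, d12, rfl⟩]
            simp only [Finset.mem_insert, Finset.mem_singleton, not_or]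
            exact ⟨Ne.symm hφ1, (hne1 hφ1).symm, (hne1 (hne1 hφ1)).symm⟩
        have h := hfib 1
        rw [Finset.sum_congr rfl (g := W) fun ε _ => by rw [one_mul ε], hset,
          Finset.sum_insert (by
            simp only [Finset.mem_insert, Finset.mem_singleton, not_or]
            exact ⟨Ne.symm hφ1, (hne1 hφ1).symm, (hne1 (hne1 hφ1)).symm⟩),
          Finset.sum_insert (by simp [d01, d20.symm]), Finset.sum_pair d12] at h
        have h' : W 1 + (W φ + (W φ1 + W φ2)) = 0 := h
        rw [hW1, show W φ2 = W φ1 from hWs φ1, show W φ1 = W φ from hWs φ] at h'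
        linear_combination h' / 3
      · have h := hfib φ
        rw [Finset.sum_congr rfl (g := fun _ => W φ) fun ε hε => ?_, Finset.sum_const,
          hA.card_twoHoms] at h
        · simpa using h
        · refine (hconst _ _ ?_ hφ).symm
          ext x
          have h2' := DFunLike.congr_fun ((sq_eq_one_iff_trivial _).mp (mem_twoHoms.mp hε)) x
          simp only [MonoidHom.comp_apply, Subgroup.coe_subtype, MonoidHom.one_apply] at h2'
          simp [res, h2']
    obtain ⟨t, ht⟩ := hA.exists_top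
    have hinvF : (Nat.card A : ℂ) * Kc j t = ∑ φ : A →* ℂˣ, ((φ t⁻¹ : ℂˣ) : ℂ) * W φ := by
      simp only [hW, Finset.mul_sum]
      rw [Finset.sum_comm, Finset.sum_eq_single t]
      · have e : ∀ φ : A →* ℂˣ, ((φ t⁻¹ : ℂˣ) : ℂ) * ((φ t : ℂ) * Kc j t) = Kc j t := fun φ => by
          rw [← mul_assoc, ← Units.val_mul, ← map_mul, inv_mul_cancel, map_one, Units.val_one,
            one_mul]
        rw [Finset.sum_congr rfl fun φ _ => e φ, Finset.sum_const, Finset.card_univ,
          ← Nat.card_eq_fintype_card, card_dual, nsmul_eq_mul]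
      · intro v _ hv
        rw [Finset.sum_congr rfl fun φ _ => (show ((φ t⁻¹ : ℂˣ) : ℂ) * ((φ v : ℂ) * Kc j v) =
          ((φ (t⁻¹ * v) : ℂˣ) : ℂ) * Kc j v by rw [map_mul, Units.val_mul]; ring),
          ← Finset.sum_mul, sum_dual, if_neg (fun e => hv (inv_mul_eq_one.mp e).symm), zero_mul]
      · exact fun h => absurd ((Finset.mem_filter (p := fun v : A => v ∉ sq A)).mpr
          ⟨Finset.mem_univ _, ht⟩) h
    simp only [hWall, mul_zero, Finset.sum_const_zero, mul_eq_zero, hn0, false_or] at hinvF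
    exact hne j hj t (fun e => ht (e ▸ one_mem _)) hinvF
  -- counting
  set U := I.filter fun j => j ∉ S0 with hU
  have hUS : 3 * U.card ≤ ∑ κ ∈ T, (S κ).card := by
    calc 3 * U.card = ∑ _j ∈ U, 3 := by rw [Finset.sum_const, smul_eq_mul, mul_comm]
      _ ≤ ∑ j ∈ U, (T.filter fun κ => j ∈ S κ).card := Finset.sum_le_sum fun j hj => by
          obtain ⟨h1, h2⟩ := Finset.mem_filter.mp hj
          exact (hcover j h1).resolve_left h2
      _ = ∑ κ ∈ T, (U.filter fun j => j ∈ S κ).card := by
          simp only [Finset.card_filter]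
          exact Finset.sum_comm
      _ ≤ _ := Finset.sum_le_sum fun κ _ => Finset.card_le_card fun j hj =>
          (Finset.mem_filter.mp hj).2
  have hTS : ∑ κ ∈ T, (S κ).card ≤ T.card * 4 :=
    (Finset.sum_le_sum fun κ hκ => hbound κ (Finset.mem_filter.mp hκ).2).trans
      (by rw [Finset.sum_const, smul_eq_mul])
  have hTc : T.card + 1 = Nat.card (sq A) := by
    rw [← card_dual (A := sq A), Nat.card_eq_fintype_card, ← Finset.card_univ,
      hT, Finset.filter_ne', Finset.card_erase_add_one (Finset.mem_univ _)]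
  have hIc : I.card ≤ S0.card + U.card := by
    rw [hU, ← Finset.card_filter_add_card_filter_not (s := I) (fun j => j ∈ S0)]
    exact Nat.add_le_add_right (Finset.card_le_card fun j hj => (Finset.mem_filter.mp hj).2) _
  have := hA.card_sq
  omega

end Cfsg.Agent.BlockChar.Homocyclic
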