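import Cfsg.Agent.BlockChar.VanishDiv
import Cfsg.Agent.BlockChar.DefectTwo
import Cfsg.Agent.BlockChar.AbelianContrib
import Cfsg.Agent.S4637

/-!
The generalized decomposition data of a block with Klein four defect group.
-/

set_option autoImplicit false
set_option linter.unusedSectionVars false
set_option linter.style.haveILetI false
set_option maxHeartbeats 800000

namespace Cfsg.Agent.BlockChar

open MonoidAlgebra
open scoped MonoidAlgebra ComplexConjugate
open Cfsg Cfsg.Agent Cfsg.Agent.Blocks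

universe u

variable {G : Type u} [Group G] [Fintype G] {M : Ideal AlgInt} [M.IsMaximal]

theorem centralizer_invol_mul {v s : G} (hv : v * v = 1) (hs : s ∈ cz v) (hsr : ¬ 2 ∣ orderOf s) :
    Subgroup.centralizer ({v * s} : Set G) = cz v ⊓ Subgroup.centralizer ({s} : Set G) := by
  have hc : Commute v s := mem_cz.mp hs
  have h2 : (v * s) ^ 2 = s ^ 2 := by rw [hc.mul_pow, pow_two v, hv, one_mul]
  obtain ⟨k, hk⟩ := exists_pow_eq_self_of_coprime
    (Nat.prime_two.coprime_iff_not_dvd.mpr hsr : Nat.Coprime 2 (orderOf s))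
  ext x
  simp only [Subgroup.mem_inf, Subgroup.mem_centralizer_iff, Set.mem_singleton_iff, forall_eq]
  constructor
  · intro hx
    have hxs : Commute s x := by
      have := (show Commute (v * s) x from hx).pow_left (2 * k)
      rwa [pow_mul, h2, hk] at this
    refine ⟨mem_cz.mpr ?_, hxs⟩
    have := (show Commute (v * s) x from hx).mul_left hxs.inv_left
    rwa [mul_inv_cancel_right] at this
  · rintro ⟨hxv, hxs⟩
    exact (Commute.mul_left (mem_cz.mp hxv) (show Commute s x from hxs)).eq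

/-- A section of rank one at an involution of the defect group. -/
theorem sec_rank_one (hpM : ((2 : ℕ) : AlgInt) ∈ M) {B : Set (IrrCharacter G)} {P : Subgroup G}
    {e : (Res M)[G]} (D : MaxData 2 B P e) (hab : ∀ x ∈ P, ∀ y ∈ P, x * y = y * x) {v : G}
    (hv : v ∈ P) (hvv : v * v = 1) [Fintype (cz v)]
    (hl : blockRank 2 (blkSet (M := M) v (locB 2 P e v)) = 1) :
    ∃ (a : IrrCharacter G → ℤ) (f : G → ℂ),
      (∀ χ : IrrCharacter G, ∀ s ∈ cz v, ¬ 2 ∣ orderOf s →
        sec (χ : G → ℂ) v (locB 2 P e v) s = (a χ : ℂ) * f s) ∧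
      (∀ s ∈ cz v, ¬ 2 ∣ orderOf s → MemLocalRing M (f s) ∧
        MemLocalRing M ((Nat.card P : ℂ) * f s /
          (Nat.card (Subgroup.centralizer ({v * s} : Set G)) : ℂ))) ∧
      (∀ χ ψ : IrrCharacter G,
        (Nat.card P : ℂ) * conP 2 P e (χ : G → ℂ) (ψ : G → ℂ) v = (a χ : ℂ) * (a ψ : ℂ)) ∧
      ∀ χ ∈ B, a χ ≠ 0 := by
  classical
  haveI : Fact (Nat.Prime 2) := ⟨Nat.prime_two⟩
  haveI := charP_res (p := 2) hpM
  set β := locB 2 P e v with hβdef
  have hle := locB_spec hpM D hv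
  have hβ : IsBlk (cz v) β := (hle.isPair_left D.pmax.pair).blk
  have hPC : P ≤ cz v := fun w hw => mem_cz.mpr (hab v hv w hw)
  obtain ⟨hbs, -⟩ := blkSet_spec hpM hβ
  set b := blkSet (M := M) v β with hbdef
  have hDG := isDefectGroup_locB hpM D hab hv
  obtain ⟨f₀, d, ⟨m, hm⟩, hd, hsum⟩ := rank_one_cartan hpM hbs hDG hl
  rw [Nat.card_congr (Subgroup.subgroupOfEquivOfLe hPC).toEquiv, finsum_mem_bf] at hsum
  have hvH : v ∈ cz v := zpowers_le_cz v (Subgroup.mem_zpowers v)
  have hc : ∀ c : cz v, (⟨v, hvH⟩ : cz v) * c = c * ⟨v, hvH⟩ := fun c =>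
    Subtype.ext (mem_cz.mp c.2).eq
  have hk : v ^ 2 ^ 1 = 1 := by rw [pow_one, pow_two]; exact hvv
  choose ζ hζk hζ using fun φ : IrrCharacter (cz v) =>
    exists_central_scalar hpM (z := (⟨v, hvH⟩ : cz v)) (k := 1) (Subtype.ext hk) hc φ
  choose n hn using fun (χ : IrrCharacter G) (φ : IrrCharacter (cz v)) =>
    Chars.exists_classInner_eq_nat (Chars.isCharacter_restrict (Chars.irr_isCharacter χ) (cz v))
      (Chars.irr_isCharacter φ)
  have hsign : ∀ φ, ∃ z : ℤ, ζ φ = z := fun φ => by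
    have h := hζk φ
    rw [pow_one, pow_two] at h
    rcases mul_self_eq_one_iff.mp h with h | h
    · exact ⟨1, by rw [h, Int.cast_one]⟩
    · exact ⟨-1, by rw [h, Int.cast_neg, Int.cast_one]⟩
  choose z hz using hsign
  have hζ0 : ∀ φ, ζ φ ≠ 0 := fun φ h => by simpa [h] using hζk φ
  have ha : ∀ (χ : IrrCharacter G) (φ : IrrCharacter (cz v)),
      classInner (fun c : cz v => (χ : G → ℂ) (v * (c : G))) (φ : cz v → ℂ) =
        (n χ φ : ℂ) * ζ φ := by
    intro χ φ
    rw [← hn χ φ, Chars.classInner_def, Chars.classInner_def, mul_assoc, Finset.sum_mul]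
    congr 1
    refine Fintype.sum_equiv (Equiv.mulLeft (⟨v, hvH⟩ : cz v)) _ _ fun c => ?_
    show (χ : G → ℂ) (v * (c : G)) * conj ((φ : cz v → ℂ) c) =
      (χ : G → ℂ) (v * (c : G)) * conj ((φ : cz v → ℂ) ((⟨v, hvH⟩ : cz v) * c)) * ζ φ
    rw [hζ φ, map_mul, hz φ, map_intCast]
    have h := hζk φ
    rw [pow_one, pow_two, hz φ] at h
    linear_combination -((χ : G → ℂ) (v * (c : G)) * conj ((φ : cz v → ℂ) c)) * h
  set a : IrrCharacter G → ℤ := fun χ => ∑ φ ∈ bf b, (n χ φ : ℤ) * z φ * d φ with hadef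
  have hacast : ∀ χ, (a χ : ℂ) = ∑ φ ∈ bf b, (n χ φ : ℂ) * ζ φ * (d φ : ℂ) := fun χ => by
    simp only [a, Int.cast_sum, Int.cast_mul, Int.cast_natCast, hz]
  let f : G → ℂ := fun s => if h : s ∈ cz v then f₀ ⟨s, h⟩ else 0
  have hsec : ∀ (χ : IrrCharacter G) (s : cz v), ¬ 2 ∣ orderOf s →
      secPart v b χ s = (a χ : ℂ) * f₀ s := fun χ s hs => by
    rw [secPart, blockPart, finsum_mem_bf, hacast, Finset.sum_mul]
    refine Finset.sum_congr rfl fun φ hφ => ?_
    rw [hd φ (mem_bf.mp hφ) s hs]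
    refine (congrArg (· * _) (?_ : _ = (n χ φ : ℂ) * ζ φ)).trans (by ring)
    rw [← ha χ φ]
    exact congrArg (fun i => @classInner _ _ i _ _) (Subsingleton.elim _ _)
  have hnorm : (Nat.card P : ℂ) * ∑ s ∈ regs 2 (cz v), f₀ s * conj (f₀ s) =
      (Nat.card (cz v) : ℂ) := by
    have h := card_mul_blockRank hpM hbs
    rw [hl, Nat.cast_one, mul_one] at h
    rw [h, ← hsum, Nat.cast_sum, Finset.mul_sum]
    refine Finset.sum_congr rfl fun s hs => ?_
    rw [kerB, Finset.sum_mul]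
    refine Finset.sum_congr rfl fun φ hφ => ?_
    rw [hd φ (mem_bf.mp hφ) s (mem_regs.mp hs), map_mul, map_natCast]
    push_cast
    ring
  refine ⟨a, f, ?_, ?_, ?_, ?_⟩
  · intro χ s hs hsr
    rw [show s = ((⟨s, hs⟩ : cz v) : G) from rfl, sec_eq_secPart hpM χ hβ,
      hsec χ _ (by rwa [← Subgroup.orderOf_coe])]
    simp only [f, dif_pos hs]
  · intro s hs hsr
    have hs' : IsPRegular 2 (⟨s, hs⟩ : cz v) := by
      show ¬ 2 ∣ orderOf (⟨s, hs⟩ : cz v)
      rwa [← Subgroup.orderOf_coe]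
    have hf : f s = f₀ ⟨s, hs⟩ := dif_pos hs
    refine ⟨?_, ?_⟩
    · rw [hf, hm _ hs', finsum_mem_bf]
      exact memR_sum _ _ fun φ _ => memR_mul (memR_intCast _) (irr_memR φ _)
    · set c : IrrCharacter (cz v) → ℂ := fun φ => if φ ∈ b then (d φ : ℂ) else 0 with hc'
      have hsplit : ∀ x : cz v, ∑ φ : IrrCharacter (cz v), c φ * (φ : cz v → ℂ) x =
          ∑ φ ∈ bf b, (d φ : ℂ) * (φ : cz v → ℂ) x := fun x => by
        rw [← Finset.sum_subset (Finset.subset_univ (bf b))
          fun φ _ hφ => by simp only [c, if_neg (fun h => hφ (mem_bf.mpr h)), zero_mul]]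
        exact Finset.sum_congr rfl fun φ hφ => by simp only [c, if_pos (mem_bf.mp hφ)]
      have h1r : IsPRegular 2 (1 : cz v) := by
        show ¬ 2 ∣ orderOf (1 : cz v)
        rw [orderOf_one]; decide
      have hf1 : f₀ 1 ≠ 0 := by
        obtain ⟨φ, hφ⟩ := block_nonempty hbs
        intro h
        exact Chars.irr_apply_one_ne_zero φ.2 (by rw [hd φ hφ 1 h1r, h, mul_zero])
      have hvan : ∀ x : cz v, 2 ∣ orderOf x →
          ∑ φ : IrrCharacter (cz v), c φ * (φ : cz v → ℂ) x = 0 := by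
        intro x hx
        rw [hsplit]
        have h := block_orth_weak hpM hbs (x := (1 : cz v)) h1r hx
        have e1 : ∀ φ ∈ bf b, (φ : cz v → ℂ) (1 : cz v) * conj ((φ : cz v → ℂ) x) =
            f₀ 1 * conj ((d φ : ℂ) * (φ : cz v → ℂ) x) := fun φ hφ => by
          rw [hd φ (mem_bf.mp hφ) 1 h1r, map_mul, map_natCast]; ring
        rw [show (Finset.univ.filter (· ∈ b)) = bf b by ext; simp, Finset.sum_congr rfl e1,
          ← Finset.mul_sum, ← map_sum, mul_eq_zero] at h
        have h' := congrArg conj (h.resolve_left hf1)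
        rwa [Complex.conj_conj, map_zero] at h'
      have hloc := local_div_of_vanish hpM c
        (fun φ => by simp only [c]; split_ifs <;> [exact memR_natCast _; exact memR_zero])
        hvan (t := (⟨s, hs⟩ : cz v)) hs'
      have hval : ∑ φ : IrrCharacter (cz v), c φ * (φ : cz v → ℂ) ⟨s, hs⟩ =
          (Nat.card P : ℂ) * f s := by
        rw [hsplit, hf, ← hsum, Nat.cast_sum, Finset.sum_mul]
        refine Finset.sum_congr rfl fun φ hφ => ?_
        rw [hd φ (mem_bf.mp hφ) _ hs', Nat.cast_pow]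
        ring
      have hcard : Nat.card (Subgroup.centralizer ({(⟨s, hs⟩ : cz v)} : Set (cz v))) =
          Nat.card (Subgroup.centralizer ({v * s} : Set G)) := by
        have e : Subgroup.centralizer ({(⟨s, hs⟩ : cz v)} : Set (cz v)) =
            (Subgroup.centralizer ({s} : Set G)).subgroupOf (cz v) := by
          ext x
          rw [Subgroup.mem_subgroupOf, Subgroup.mem_centralizer_singleton_iff,
            Subgroup.mem_centralizer_singleton_iff]
          exact ⟨fun h => congrArg Subtype.val h, fun h => Subtype.ext h⟩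
        rw [e, centralizer_invol_mul hvv hs hsr, ← Subgroup.inf_subgroupOf_left,
          Nat.card_congr (Subgroup.subgroupOfEquivOfLe inf_le_left).toEquiv]
      rw [hval, hcard] at hloc
      exact hloc
  · intro χ ψ
    have hm2 : m2 2 (χ : G → ℂ) (ψ : G → ℂ) v β =
        (a χ : ℂ) * (a ψ : ℂ) * ∑ s ∈ regs 2 (cz v), f₀ s * conj (f₀ s) := by
      rw [m2, Finset.mul_sum]
      refine Finset.sum_congr (by congr! 1) fun s hs => ?_
      rw [sec_eq_secPart hpM χ hβ, sec_eq_secPart hpM ψ hβ, hsec χ s (mem_regs.mp hs),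
        hsec ψ s (mem_regs.mp hs), map_mul, map_intCast]
      ring
    rw [conP, hm2, ← hnorm]
    have hn0 : ∑ s ∈ regs 2 (cz v), f₀ s * conj (f₀ s) ≠ 0 := fun h => by
      rw [h, mul_zero] at hnorm
      exact Chars.card_ne_zero hnorm.symm
    have hP0 : (Nat.card P : ℂ) ≠ 0 := Chars.card_ne_zero
    field_simp
  · intro χ hχ h0
    obtain ⟨s, hs, hsr, hne⟩ := exists_sec_ne_zero_of_central hpM D hv
      (fun w hw => hab v hv w hw) hle hχ
    apply hne
    rw [show s = ((⟨s, hs⟩ : cz v) : G) from rfl, sec_eq_secPart hpM χ hβ,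
      hsec χ _ (by rwa [← Subgroup.orderOf_coe]), h0, Int.cast_zero, zero_mul]

/-- The section of a character of the block at the identity. -/
theorem sec_one_locB {p : ℕ} [Fact p.Prime] (hpM : (p : AlgInt) ∈ M) {B : Set (IrrCharacter G)}
    {P : Subgroup G} {e : (Res M)[G]} (D : MaxData p B P e) {χ : IrrCharacter G} (hχ : χ ∈ B)
    {s : G} (hs : ¬ p ∣ orderOf s) :
    sec (χ : G → ℂ) 1 (locB p P e 1) s = (χ : G → ℂ) s := by
  classical
  haveI := charP_res (p := p) hpM
  have hle := locB_spec hpM D (one_mem P)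
  have hβ : IsBlk (cz (1 : G)) (locB p P e 1) := (hle.isPair_left D.pmax.pair).blk
  have hu : ∃ k : ℕ, orderOf (1 : G) = p ^ k := ⟨0, by simp⟩
  have hsum := sum_sec hpM (χ : G → ℂ) 1 s
  rw [one_mul] at hsum
  rw [← hsum]
  symm
  refine Finset.sum_eq_single_of_mem _ (mem_blks.mpr hβ) fun β hβm hne => ?_
  refine sec_eq_zero hpM D.blk hχ hu (mem_blks.mp hβm) (fun ho => ?_)
    (mem_cz.mpr (Commute.one_left s)) hs
  obtain ⟨x, hx⟩ := (below_iff_ofBlock hpM D hu (mem_blks.mp hβm)).mpr ho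
  have hx1 := eq_locB hpM D (show x * 1 * x⁻¹ ∈ P by rw [mul_one, mul_inv_cancel]; exact one_mem P)
    hx
  rw [mul_one, mul_inv_cancel,
    (mem_blks.mp hβm).fixed x (mem_cz.mpr (Commute.one_left x))] at hx1
  exact hne hx1

/-- The regular part of the orthogonality relations, paired with coefficients. -/
theorem conP_one_eq {p : ℕ} [Fact p.Prime] (hpM : (p : AlgInt) ∈ M) {B : Set (IrrCharacter G)}
    {P : Subgroup G} {e : (Res M)[G]} (D : MaxData p B P e) {χ ψ : IrrCharacter G} (hχ : χ ∈ B)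
    (hψ : ψ ∈ B) :
    conP p P e (χ : G → ℂ) (ψ : G → ℂ) 1 =
      regInner p (χ : G → ℂ) (ψ : G → ℂ) := by
  classical
  have hcz : cz (1 : G) = ⊤ := top_le_iff.mp fun x _ => mem_cz.mpr (Commute.one_left x)
  letI := Fintype.ofFinite (cz (1 : G))
  rw [conP, m2, regInner]
  have hc : Nat.card (cz (1 : G)) = Nat.card G := by rw [hcz, Subgroup.card_top]
  rw [hc]
  congr 1
  refine Finset.sum_nbij' (fun (s : cz (1 : G)) => (s : G))
    (fun g => (⟨g, mem_cz.mpr (Commute.one_left g)⟩ : cz (1 : G))) ?_ ?_ ?_ ?_ ?_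
  · intro s hs; rw [mem_regs] at hs ⊢; rwa [Subgroup.orderOf_coe]
  · intro g hg; rw [mem_regs] at hg ⊢; rwa [← Subgroup.orderOf_coe]
  · exact fun s _ => rfl
  · exact fun g _ => rfl
  · intro s hs
    have hr : ¬ p ∣ orderOf (s : G) := by rw [Subgroup.orderOf_coe]; exact mem_regs.mp hs
    rw [sec_one_locB hpM D hχ hr, sec_one_locB hpM D hψ hr]

end Cfsg.Agent.BlockChar
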