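import Cfsg.Agent.BlockChar.HomocyclicCount
import Cfsg.Agent.BlockChar.AbelianPairing
import Cfsg.Agent.BlockChar.KleinFourData
import Cfsg.Agent.BlockChar.Watanabe
import Cfsg.Agent.BlockChar.AbelianRegular

/-!
`2`-blocks with homocyclic defect groups of rank two.
-/

set_option autoImplicit false
set_option linter.unusedSectionVars false
set_option linter.style.haveILetI false
set_option maxHeartbeats 800000

namespace Cfsg.Agent.BlockChar

open MonoidAlgebra
open scoped MonoidAlgebra ComplexConjugate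
open Cfsg Cfsg.Agent Cfsg.Agent.Blocks

universe u

theorem shape_of_iso {A : Type u} [CommGroup A] [Finite A] {m : ℕ} (hm : 2 ≤ m)
    (φ : A ≃* Multiplicative (ZMod (2 ^ m) × ZMod (2 ^ m))) : Homocyclic.Shape A := by
  classical
  obtain ⟨m', rfl⟩ : ∃ m', m = m' + 1 := ⟨m - 1, by omega⟩
  haveI : NeZero (2 ^ (m' + 1)) := ⟨pow_ne_zero _ two_ne_zero⟩
  set h : ZMod (2 ^ (m' + 1)) := ((2 ^ m' : ℕ) : ZMod (2 ^ (m' + 1))) with hh
  have hchar : ∀ x : ZMod (2 ^ (m' + 1)), x + x = 0 ↔ x = 0 ∨ x = h := by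
    intro x
    constructor
    · intro hx
      have hv : ((2 * x.val : ℕ) : ZMod (2 ^ (m' + 1))) = 0 := by
        push_cast; rw [ZMod.natCast_zmod_val]; linear_combination hx
      have hd' : 2 ^ m' ∣ x.val := by
        have h' := (ZMod.natCast_eq_zero_iff _ _).mp hv
        generalize x.val = w at h' ⊢
        rw [pow_succ, mul_comm] at h'
        exact Nat.dvd_of_mul_dvd_mul_left two_pos h'
      obtain ⟨c, hc⟩ := hd'
      have hc2 : c < 2 := Nat.lt_of_mul_lt_mul_left (a := 2 ^ m')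
        (by rw [← hc, ← pow_succ]; exact ZMod.val_lt x)
      interval_cases c
      · left; rw [← ZMod.natCast_zmod_val x, hc]; simp
      · right; rw [← ZMod.natCast_zmod_val x, hc, hh, mul_one]
    · rintro (rfl | rfl)
      · simp
      · rw [hh, ← Nat.cast_add, ← two_mul, ← pow_succ', ZMod.natCast_self]
  have h0 : h ≠ 0 := by
    rw [hh, Ne, ZMod.natCast_eq_zero_iff]
    intro hd
    have := Nat.le_of_dvd (pow_pos two_pos m') hd
    have : 2 ^ m' < 2 ^ (m' + 1) := Nat.pow_lt_pow_right one_lt_two (Nat.lt_succ_self m')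
    omega
  have hmem : ∀ a : A, a ∈ (powMonoidHom 2 : A →* A).ker ↔
      (φ a).toAdd.1 + (φ a).toAdd.1 = 0 ∧ (φ a).toAdd.2 + (φ a).toAdd.2 = 0 := by
    intro a
    rw [MonoidHom.mem_ker, powMonoidHom_apply, ← φ.map_eq_one_iff, map_pow, pow_two]
    rw [← toAdd_eq_zero, toAdd_mul, Prod.ext_iff]
    rfl
  constructor
  · let S : Finset A := (({0, h} : Finset (ZMod (2 ^ (m' + 1)))) ×ˢ {0, h}).map
      ⟨fun x => φ.symm (Multiplicative.ofAdd x),
        fun x y e => Multiplicative.ofAdd.injective (φ.symm.injective e)⟩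
    have hS : ∀ a, a ∈ S ↔ a ∈ (powMonoidHom 2 : A →* A).ker := by
      intro a
      rw [hmem, hchar, hchar]
      simp only [S, Finset.mem_map, Finset.mem_product, Finset.mem_insert, Finset.mem_singleton,
        Function.Embedding.coeFn_mk]
      constructor
      · rintro ⟨x, hx, rfl⟩
        erw [φ.apply_symm_apply]
        exact hx
      · intro hx
        exact ⟨(φ a).toAdd, hx, (congrArg φ.symm (ofAdd_toAdd (φ a))).trans (φ.symm_apply_apply a)⟩
    rw [← Nat.card_congr (Equiv.subtypeEquivRight hS), Nat.card_eq_fintype_card, Fintype.card_coe,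
      Finset.card_map, Finset.card_product, Finset.card_pair h0.symm]
  · intro a ha
    rw [hmem, hchar, hchar] at ha
    have hhalf : ∀ x : ZMod (2 ^ (m' + 1)), (x = 0 ∨ x = h) → ∃ y, y + y = x := by
      rintro x (rfl | rfl)
      · exact ⟨0, add_zero 0⟩
      · refine ⟨((2 ^ (m' - 1) : ℕ) : ZMod _), ?_⟩
        rw [← Nat.cast_add, ← two_mul, ← pow_succ', show m' - 1 + 1 = m' by omega]
    obtain ⟨y1, hy1⟩ := hhalf _ ha.1
    obtain ⟨y2, hy2⟩ := hhalf _ ha.2
    refine ⟨φ.symm (Multiplicative.ofAdd (y1, y2)), φ.injective ?_⟩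
    rw [powMonoidHom_apply, map_pow, MulEquiv.apply_symm_apply, ← ofAdd_nsmul, two_nsmul,
      Prod.mk_add_mk, hy1, hy2]
    rfl

variable {G : Type u} [Group G] [Fintype G] {M : Ideal AlgInt} [M.IsMaximal]

open scoped Classical in
/-- The inertial quotient acts freely and has order one or three. -/
theorem homocyclic_inertia (hpM : ((2 : ℕ) : AlgInt) ∈ M) {P : Subgroup G} {e : (Res M)[G]}
    (hmax : IsMaxPair 2 P e) (hab : ∀ x ∈ P, ∀ y ∈ P, x * y = y * x)
    (hΩ : (Finset.univ.filter (fun x : G => x ∈ P ∧ x ^ 2 = 1)).card = 4) :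
    ((Subgroup.centralizer (P : Set G)).relIndex (stab P e) = 1 ∨
      (Subgroup.centralizer (P : Set G)).relIndex (stab P e) = 3) ∧
    ∀ t ∈ stab P e, ∀ x ∈ P, x ≠ 1 → t * x * t⁻¹ = x →
      t ∈ Subgroup.centralizer (P : Set G) := by
  haveI : Fact (Nat.Prime 2) := ⟨Nat.prime_two⟩
  haveI := charP_res (p := 2) hpM
  set C := Subgroup.centralizer (P : Set G) with hC
  set T := stab P e with hT
  have hodd : ¬ 2 ∣ C.relIndex T := relIndex_stab_prime_to hpM hmax hab le_rfl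
  haveI : (C.subgroupOf T).Normal := Subgroup.normal_subgroupOf_of_le_normalizer
    fun t ht => normalizer_le_normalizer_centralizer P ht.1
  have hpow : ∀ t ∈ T, t ^ C.relIndex T ∈ C := fun t ht =>
    Subgroup.mem_subgroupOf.mp (Subgroup.pow_index_mem (C.subgroupOf T) ⟨t, ht⟩)
  have hnorm : ∀ t ∈ T, ∀ x ∈ P, t * x * t⁻¹ ∈ P := fun t ht x hx =>
    (Subgroup.mem_normalizer_iff.mp ht.1 x).mp hx
  set Ω := Finset.univ.filter (fun x : G => x ∈ P ∧ x ^ 2 = 1) with hΩdef
  have hmem : ∀ t ∈ T, ∀ x ∈ Ω, t * x * t⁻¹ ∈ Ω := fun t ht x hx => by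
    obtain ⟨hxP, hx2⟩ := (Finset.mem_filter.mp hx).2
    exact Finset.mem_filter.mpr ⟨Finset.mem_univ _, hnorm t ht x hxP,
      by rw [conj_pow, hx2, mul_one, mul_inv_cancel]⟩
  have hfixall : ∀ t ∈ T, (∀ x ∈ Ω, t * x * t⁻¹ = x) → t ∈ C := by
    intro t ht hfix
    have h := conj_fix_of_fix_omega (p := 2) hmax.pair.pgroup hab (hnorm t ht) hodd
      (fun x hx => by rw [← Subgroup.mem_centralizer_iff.mp (hpow t ht) x hx, mul_inv_cancel_right])
      (fun x hx h2 => hfix x (Finset.mem_filter.mpr ⟨Finset.mem_univ _, hx, h2⟩))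
    exact Subgroup.mem_centralizer_iff.mpr fun x hx => (mul_inv_eq_iff_eq_mul.mp (h x hx)).symm
  have hfree : ∀ t ∈ T, ∀ x ∈ P, x ≠ 1 → t * x * t⁻¹ = x → t ∈ C := by
    intro t ht v hv hv1 htv
    obtain ⟨k, hk⟩ := orderOf_of_mem hmax.pair.pgroup hv
    have hk0 : k ≠ 0 := by rintro rfl; exact hv1 (orderOf_eq_one_iff.mp (by rw [hk, pow_zero]))
    set u := v ^ 2 ^ (k - 1) with hu
    have hu2 : u ^ 2 = 1 := by
      rw [hu, ← pow_mul, ← pow_succ, show k - 1 + 1 = k by omega, ← hk, pow_orderOf_eq_one]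
    have hu1 : u ≠ 1 := pow_ne_one_of_lt_orderOf (pow_ne_zero _ two_ne_zero)
      (by rw [hk]; exact Nat.pow_lt_pow_right one_lt_two (by omega))
    have huΩ : u ∈ Ω := Finset.mem_filter.mpr ⟨Finset.mem_univ _, P.pow_mem hv _, hu2⟩
    have htu : t * u * t⁻¹ = u := by rw [hu, ← conj_pow, htv]
    have hinj : Function.Injective fun x : G => t * x * t⁻¹ := fun a b h => by simpa using h
    have hsq : t ^ 2 ∈ C := by
      refine hfixall _ (T.pow_mem ht 2) fun a ha => ?_
      rw [pow_two, show t * t * a * (t * t)⁻¹ = t * (t * a * t⁻¹) * t⁻¹ by group]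
      by_cases ha1 : a = 1
      · simp [ha1]
      by_cases hau : a = u
      · rw [hau, htu, htu]
      set a' := t * a * t⁻¹ with ha'
      by_cases haa : a' = a
      · rw [haa]; exact haa
      by_contra hne
      set a'' := t * a' * t⁻¹ with ha''
      have m1 := hmem t ht a ha
      have m2 := hmem t ht a' m1
      have n1 : a' ≠ 1 := fun h => ha1 (conj_eq_one_iff.mp h)
      have n2 : a' ≠ u := fun h => hau (hinj (h.trans htu.symm))
      have n3 : a'' ≠ 1 := fun h => n1 (conj_eq_one_iff.mp h)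
      have n4 : a'' ≠ u := fun h => n2 (hinj (h.trans htu.symm))
      have n5 : a'' ≠ a' := fun h => haa (hinj h)
      have hsub : ({1, u, a, a', a''} : Finset G) ⊆ Ω := by
        intro w hw
        simp only [Finset.mem_insert, Finset.mem_singleton] at hw
        rcases hw with rfl | rfl | rfl | rfl | rfl
        exacts [Finset.mem_filter.mpr ⟨Finset.mem_univ _, one_mem P, one_pow 2⟩, huΩ, ha, m1, m2]
      have h5 : ({1, u, a, a', a''} : Finset G).card = 5 := by
        simp [Ne.symm hu1, Ne.symm ha1, Ne.symm hau, n1.symm, n2.symm, n3.symm, n4.symm,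
          Ne.symm haa, Ne.symm hne, n5.symm]
      have := Finset.card_le_card hsub
      rw [h5, hΩ] at this
      omega
    have hN := hpow t ht
    obtain ⟨i, hi⟩ : Odd (C.relIndex T) := Nat.not_even_iff_odd.mp (fun h => hodd h.two_dvd)
    rw [hi, pow_succ, pow_mul] at hN
    simpa using C.mul_mem (C.inv_mem (C.pow_mem hsq i)) hN
  refine ⟨?_, hfree⟩
  obtain ⟨u, hu, hu1⟩ : ∃ u ∈ Ω, u ≠ 1 := by
    by_contra h
    push Not at h
    have : Ω.card ≤ 1 := Finset.card_le_one.mpr fun a ha b hb => (h a ha).trans (h b hb).symm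
    omega
  have huP := (Finset.mem_filter.mp hu).2.1
  have hcard := card_orbP_of_free hmax.pair huP fun t ht htu => hfree t ht u huP hu1 htu
  have hle : Nat.card (orbP P e u) ≤ 3 := by
    have h1 : (1 : G) ∈ Ω := Finset.mem_filter.mpr ⟨Finset.mem_univ _, one_mem P, one_pow 2⟩
    have : (orbP P e u).toFinset ⊆ Ω.erase 1 := by
      intro w hw
      obtain ⟨t, ht, rfl⟩ := Set.mem_toFinset.mp hw
      exact Finset.mem_erase.mpr ⟨fun h => hu1 (conj_eq_one_iff.mp h), hmem t ht u hu⟩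
    have h := Finset.card_le_card this
    rw [Finset.card_erase_of_mem h1, hΩ, Set.toFinset_card, ← Nat.card_eq_fintype_card] at h
    exact h
  rw [hcard, ← hC, ← hT] at hle
  omega

/-- The squares of numbers congruent to one modulo two. -/
theorem sq_mod_eight {d : ℕ} (h : ¬ 2 ∣ d) : d ^ 2 % 8 = 1 := by
  obtain ⟨i, rfl⟩ : Odd d := Nat.not_even_iff_odd.mp (fun h' => h h'.two_dvd)
  obtain ⟨j, hj⟩ := (Nat.even_mul_succ_self i).two_dvd
  rw [show (2 * i + 1) ^ 2 = 4 * (i * (i + 1)) + 1 by ring, hj]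
  omega

open scoped Classical in
/-- The count. -/
theorem homocyclic_two_count (hpM : ((2 : ℕ) : AlgInt) ∈ M) {B : Set (IrrCharacter G)}
    (hB : IsPBlock M B) {P : Subgroup G} (hPD : IsDefectGroup 2 M B P) {m : ℕ} (hm : 2 ≤ m)
    (hiso : Nonempty (P ≃* Multiplicative (ZMod (2 ^ m) × ZMod (2 ^ m)))) :
    (blockRank 2 B = 1 ∧ Nat.card B = 4 ^ m) ∨
      (blockRank 2 B = 3 ∧ 3 * Nat.card B = 4 ^ m + 8) := by
  haveI : Fact (Nat.Prime 2) := ⟨Nat.prime_two⟩
  haveI := charP_res (p := 2) hpM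
  obtain ⟨φ⟩ := hiso
  have hab : ∀ x ∈ P, ∀ y ∈ P, x * y = y * x := fun x hx y hy =>
    congrArg Subtype.val (φ.injective (show φ (⟨x, hx⟩ * ⟨y, hy⟩) = φ (⟨y, hy⟩ * ⟨x, hx⟩) by
      rw [map_mul, map_mul, mul_comm]))
  letI : CommGroup P :=
    { (inferInstance : Group P) with
      mul_comm := fun x y => Subtype.ext (hab x x.2 y y.2) }
  have hA : Homocyclic.Shape P := shape_of_iso hm φ
  have hcardP : Nat.card P = 4 ^ m := by
    rw [Nat.card_congr φ.toEquiv, Nat.card_congr Multiplicative.toAdd, Nat.card_prod, Nat.card_zmod,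
      ← mul_pow]
    norm_num
  have hd : Nat.card P = 2 ^ (2 * m) := by rw [hcardP, pow_mul]; norm_num
  obtain ⟨e₀, hD₀⟩ := exists_maxData_of_defect hpM hB hPD
  obtain ⟨c, hc', rfl⟩ := exists_idemS_eq hpM hD₀.pmax.pair.blk
  have D := hD₀
  have hmax := D.pmax
  have hPC : P ≤ Subgroup.centralizer (P : Set G) := fun x hx =>
    Subgroup.mem_centralizer_iff.mpr fun y hy => hab y hy x hx
  have hde : OfBlock (idemS M c) P (idemS M c) := by
    show br P (idemS M c) * idemS M c = idemS M c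
    rw [br_eq_self hmax.pair.blk.supp, hmax.pair.blk.idem]
  have hc : IsInducedBlock M (Subgroup.centralizer (P : Set G)) c B :=
    (isInducedBlock_iff hpM hc' hB).mpr ((inducesIn_iff_ofBlock le_top hmax.pair hPC le_rfl
      hmax.pair.blk hde (isBlk_idemG hpM hB)).mpr D.ofB)
  have hΩ : (Finset.univ.filter (fun x : G => x ∈ P ∧ x ^ 2 = 1)).card = 4 := by
    rw [← Fintype.card_subtype, ← Nat.card_eq_fintype_card, ← hA.card_omega]
    exact Nat.card_congr
      { toFun := fun x => ⟨⟨x.1, x.2.1⟩, Subtype.ext (by simpa using x.2.2)⟩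
        invFun := fun x => ⟨((x : P) : G), (x : P).2,
          by simpa using congrArg Subtype.val (show (x : P) ^ 2 = 1 from x.2)⟩
        left_inv := fun x => rfl
        right_inv := fun x => rfl }
  obtain ⟨hE, hfree⟩ := homocyclic_inertia hpM hmax hab hΩ
  obtain ⟨hrank, hcount⟩ := card_eq_of_free hpM hPD hab hc hfree
  letI : ∀ v : G, Fintype (cz v) := fun v => Fintype.ofFinite _
  have hn1 : 1 ≤ 4 ^ m := Nat.one_le_pow _ _ (by norm_num)
  rcases hE with hE | hE <;> rw [hE, hcardP] at hcount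
  · left
    have hl : blockRank 2 B = 1 := by
      rw [← locB_one hpM D]
      exact rank_one_of_free hpM D hab (one_mem P) fun t ht =>
        Subgroup.relIndex_eq_one.mp hE ht.1
    exact ⟨hl, by omega⟩
  right
  -- the automorphism of order three
  obtain ⟨t₀, ht₀, ht₀C⟩ : ∃ t ∈ (stab P (idemS M c)), t ∉ (Subgroup.centralizer (P : Set G)) := by
    by_contra h
    push Not at h
    rw [Subgroup.relIndex_eq_one.mpr h] at hE
    omega
  let σ : P ≃* P :=
    { toFun := fun x => ⟨t₀ * x * t₀⁻¹, (Subgroup.mem_normalizer_iff.mp ht₀.1 x).mp x.2⟩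
      invFun := fun x => ⟨t₀⁻¹ * x * t₀, by
        simpa using (Subgroup.mem_normalizer_iff.mp (Subgroup.inv_mem _ ht₀.1) x).mp x.2⟩
      left_inv := fun x => Subtype.ext (by simp [mul_assoc])
      right_inv := fun x => Subtype.ext (by simp [mul_assoc])
      map_mul' := fun x y => Subtype.ext (by simp [mul_assoc]) }
  have hσ : ∀ x : P, ((σ x : P) : G) = t₀ * x * t₀⁻¹ := fun x => rfl
  haveI hNorm : ((Subgroup.centralizer (P : Set G)).subgroupOf (stab P (idemS M c))).Normal := Subgroup.normal_subgroupOf_of_le_normalizer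
    fun t ht => normalizer_le_normalizer_centralizer P ht.1
  have hidx : ((Subgroup.centralizer (P : Set G)).subgroupOf (stab P (idemS M c))).index = 3 := hE
  have hpow3 : t₀ ^ 3 ∈ (Subgroup.centralizer (P : Set G)) := by
    have h := Subgroup.pow_index_mem ((Subgroup.centralizer (P : Set G)).subgroupOf (stab P (idemS M c))) ⟨t₀, ht₀⟩
    rw [hidx, Subgroup.mem_subgroupOf] at h
    exact h
  have h3 : ∀ x : P, σ (σ (σ x)) = x := fun x => Subtype.ext (by
    rw [hσ, hσ, hσ, show t₀ * (t₀ * (t₀ * x * t₀⁻¹) * t₀⁻¹) * t₀⁻¹ = t₀ ^ 3 * x * (t₀ ^ 3)⁻¹ by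
      simp only [pow_succ, pow_zero, one_mul, mul_inv_rev, mul_assoc], ← Subgroup.mem_centralizer_iff.mp hpow3 x x.2, mul_inv_cancel_right])
  have hfp : ∀ x : P, σ x = x → x = 1 := fun x hx => by
    by_contra hx1
    exact ht₀C (hfree t₀ ht₀ x x.2 (fun h => hx1 (Subtype.ext h)) (congrArg Subtype.val hx))
  -- functions invariant under `σ` are invariant under the inertial group
  have hstab : ∀ h : P → ℂ, (∀ x, h (σ x) = h x) →
      ∀ t ∈ (stab P (idemS M c)), ∀ v ∈ P, extP P h (t * v * t⁻¹) = extP P h v := by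
    intro h hh
    have hstep : ∀ v ∈ P, extP P h (t₀ * v * t₀⁻¹) = extP P h v := fun v hv => by
      rw [show t₀ * v * t₀⁻¹ = ((σ ⟨v, hv⟩ : P) : G) from rfl, extP_coe, hh, extP_mem h hv]
    have hi : ∀ (i : ℕ), ∀ v ∈ P, extP P h (t₀ ^ i * v * (t₀ ^ i)⁻¹) = extP P h v := by
      intro i
      induction i with
      | zero => intro v _; simp
      | succ i ih =>
        intro v hv
        rw [pow_succ, show t₀ ^ i * t₀ * v * (t₀ ^ i * t₀)⁻¹ =
          t₀ ^ i * (t₀ * v * t₀⁻¹) * (t₀ ^ i)⁻¹ by group,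
          ih _ ((Subgroup.mem_normalizer_iff.mp ht₀.1 v).mp hv), hstep v hv]
    intro t ht v hv
    haveI : Fact (Nat.Prime 3) := ⟨Nat.prime_three⟩
    have hne : (QuotientGroup.mk' ((Subgroup.centralizer (P : Set G)).subgroupOf (stab P (idemS M c))) ⟨t₀, ht₀⟩) ≠ 1 := fun h =>
      ht₀C (Subgroup.mem_subgroupOf.mp ((QuotientGroup.eq_one_iff (⟨t₀, ht₀⟩ : (stab P (idemS M c)))).mp h))
    obtain ⟨i, hi'⟩ := (mem_powers_iff_mem_zpowers).mpr
      (mem_zpowers_of_prime_card (G := (stab P (idemS M c)) ⧸ (Subgroup.centralizer (P : Set G)).subgroupOf (stab P (idemS M c)))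
        (g' := QuotientGroup.mk' ((Subgroup.centralizer (P : Set G)).subgroupOf (stab P (idemS M c))) ⟨t, ht⟩) (p := 3) hidx hne)
    have hq : (⟨t₀, ht₀⟩ : (stab P (idemS M c))) ^ i = _ := rfl
    rw [show (fun n : ℕ => QuotientGroup.mk' ((Subgroup.centralizer (P : Set G)).subgroupOf (stab P (idemS M c))) ⟨t₀, ht₀⟩ ^ n) i =
      QuotientGroup.mk' ((Subgroup.centralizer (P : Set G)).subgroupOf (stab P (idemS M c))) ((⟨t₀, ht₀⟩ : (stab P (idemS M c))) ^ i) from (map_pow _ _ _).symm,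
      QuotientGroup.mk'_eq_mk'] at hi'
    obtain ⟨z, hz, hzt⟩ := hi'
    have hzC : (z : G) ∈ (Subgroup.centralizer (P : Set G)) := Subgroup.mem_subgroupOf.mp hz
    have htt : t = t₀ ^ i * (z : G) := (congrArg Subtype.val hzt).symm
    rw [htt, show t₀ ^ i * (z : G) * v * (t₀ ^ i * (z : G))⁻¹ =
      t₀ ^ i * ((z : G) * v * (z : G)⁻¹) * (t₀ ^ i)⁻¹ by group,
      ← Subgroup.mem_centralizer_iff.mp hzC v hv, mul_inv_cancel_right, hi i v hv]
  have horb : ∀ v : P, v ≠ 1 → Nat.card (orbP P (idemS M c) (v : G)) = 3 := fun v hv => by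
    rw [card_orbP_of_free hmax.pair v.2
      (fun t ht h => hfree t ht v v.2 (fun e => hv (Subtype.ext e)) h)]
    exact hE
  -- the forms
  set K : IrrCharacter G → IrrCharacter G → P → ℂ :=
    fun χ ψ v => conP 2 P (idemS M c) (χ : G → ℂ) (ψ : G → ℂ) (v : G) with hK
  set L : IrrCharacter G → (P → ℂ) → IrrCharacter G → ℂ := fun χ h ψ =>
    classInner (starP 2 P (idemS M c) (χ : G → ℂ) (extP P h)) (ψ : G → ℂ) with hL
  have hKσ : ∀ χ ψ v, K χ ψ (σ v) = K χ ψ v := fun χ ψ v => conP_stab hpM D χ ψ ht₀ v.2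
  have hform : ∀ (χ ψ : IrrCharacter G) (h : P → ℂ), (∀ x, h (σ x) = h x) →
      L χ h ψ = Homocyclic.qform (K χ ψ) h := by
    intro χ ψ h hh
    simp only [hL]
    rw [classInner_starP_eq_sum hpM D hab (hstab h hh)]
    rw [Finset.sum_subtype (F := inferInstance) (Finset.univ.filter (· ∈ P))
      (p := fun x => x ∈ P) (fun x => by simp)]
    rw [← Finset.add_sum_erase _ _ (Finset.mem_univ (1 : P)), Homocyclic.qform]
    simp only [extP_coe, OneMemClass.coe_one, card_orbP_one, Nat.cast_one, inv_one, one_mul,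
      hK, Finset.mul_sum]
    rw [show extP P h (1 : G) = h 1 from extP_coe h 1]
    refine congrArg₂ _ rfl (Finset.sum_congr (by congr!) fun v hv => ?_)
    rw [horb v ((@Finset.mem_erase P (Classical.decEq P) _ _ _).mp hv).1, Nat.cast_ofNat]
    ring
  have hgen : ∀ (χ : IrrCharacter G) (h : P → ℂ), IsGeneralizedCharacter P h →
      (∀ x, h (σ x) = h x) →
      IsGeneralizedCharacter G (starP 2 P (idemS M c) (χ : G → ℂ) (extP P h)) := fun χ h hg hh =>
    isGen_starP hpM D χ (isStable_of_stab hpM D hab (hstab h hh)) (isGen_extP hg)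
  have hint : ∀ (χ : IrrCharacter G) (h : P → ℂ), IsGeneralizedCharacter P h →
      (∀ x, h (σ x) = h x) → ∀ ψ, ∃ z : ℤ, L χ h ψ = z := fun χ h hg hh ψ =>
    Chars.exists_classInner_eq_int (hgen χ h hg hh)
      (Chars.isGen_of_isCharacter (Chars.irr_isCharacter ψ))
  have hinner : ∀ (χ : IrrCharacter G) (h h' : P → ℂ), IsGeneralizedCharacter P h →
      IsGeneralizedCharacter P h' → (∀ x, h (σ x) = h x) → (∀ x, h' (σ x) = h' x) →
      ∑ ψ, L χ h ψ * conj (L χ h' ψ) =
        Homocyclic.qform (K χ χ) (fun v => h v * conj (h' v)) := by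
    intro χ h h' hg hg' hh hh'
    rw [← hform χ χ _ (fun x => by rw [hh, hh'])]
    simp only [hL]
    rw [← extP_mul, ← classInner_starP_mul hpM,
      Chars.classInner_eq_sum (Chars.isClassFunction_of_isGen (hgen χ h hg hh))]
    exact Finset.sum_congr rfl fun ψ _ => by rw [Chars.classInner_conj_symm]
  have hone : ∀ χ ∈ B, Homocyclic.qform (K χ χ) (fun _ => 1) = 1 := by
    intro χ hχ
    rw [← hform χ χ (fun _ => 1) (fun _ => rfl)]
    simp only [hL]
    rw [starP_congr (g := fun _ => 1) (fun v hv => extP_mem _ hv), starP_one hpM D hχ,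
      Chars.classInner_irrCharacter, if_pos rfl]
  have hdiagint : ∀ (χ : IrrCharacter G) (h : P → ℂ), IsGeneralizedCharacter P h →
      (∀ x, h (σ x) = h x) → ∃ z : ℤ, Homocyclic.qform (K χ χ) h = z := fun χ h hg hh => by
    obtain ⟨z, hz⟩ := hint χ h hg hh χ
    exact ⟨z, by rw [← hform χ χ h hh, hz]⟩
  have hpos : ∀ χ ∈ B, ∀ v : P, 0 < (K χ χ v).re ∧ ((K χ χ v).re : ℂ) = K χ χ v := fun χ hχ v =>
    ⟨conP_pos hpM D v.2 (fun w hw => hab v v.2 w hw) hχ, (conP_self _ _).2⟩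
  have hne : ∀ χ ∈ B, ∀ ψ ∈ B, ∀ v : P, v ≠ 1 → K χ ψ v ≠ 0 := by
    intro χ hχ ψ hψ v hv h0
    have hv' : (v : G) ≠ 1 := fun e => hv (Subtype.ext e)
    obtain ⟨k, hk⟩ := orderOf_of_mem hmax.pair.pgroup v.2
    obtain ⟨w, ζ, -, hw⟩ := exists_conP_eq hpM D hab v.2 (hrank v v.2 hv')
      (k := k) (hk ▸ pow_orderOf_eq_one (v : G))
    obtain ⟨ha, hax⟩ := hw χ hχ
    have h := hax ψ hψ
    rw [show conP 2 P (idemS M c) (χ : G → ℂ) (ψ : G → ℂ) (v : G) = 0 from h0, mul_zero] at h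
    rcases mul_eq_zero.mp h.symm with h' | h'
    · exact ha h'
    · exact (hw ψ hψ).1 ((map_eq_zero _).mp h')
  -- the top of the group
  set n := Nat.card P with hn
  have hn0 : (n : ℂ) ≠ 0 := Nat.cast_ne_zero.mpr Nat.card_pos.ne'
  set top := Finset.univ.filter (fun v : P => v ∉ Homocyclic.sq P) with htop
  have h2G : 2 ∣ Nat.card G := by
    refine dvd_trans ?_ (Subgroup.card_subgroup_dvd_card P)
    rw [← hn, hd]; exact dvd_pow_self 2 (by omega)
  have hclosed : ∀ v ∈ top.map (Function.Embedding.subtype _), ∀ j : ℕ,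
      j.Coprime (Nat.card G) → v ^ j ∈ top.map (Function.Embedding.subtype (fun x => x ∈ P)) := by
    intro v hv j hj
    obtain ⟨⟨x, hx⟩, hxt, rfl⟩ := Finset.mem_map.mp hv
    refine Finset.mem_map.mpr ⟨(⟨x, hx⟩ : P) ^ j, Finset.mem_filter.mpr ⟨Finset.mem_univ _, ?_⟩,
      rfl⟩
    rintro ⟨y, hy⟩
    refine (Finset.mem_filter.mp hxt).2 ?_
    obtain ⟨i, hi⟩ : Odd j := Nat.coprime_two_right.mp (Nat.Coprime.coprime_dvd_right h2G hj)
    refine ⟨y * ((⟨x, hx⟩ : P) ^ i)⁻¹, ?_⟩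
    rw [powMonoidHom_apply] at hy ⊢
    rw [mul_pow, inv_pow, ← pow_mul, hy, hi, pow_succ, mul_comm 2 i, mul_assoc]
    group
  have hgalois : ∀ χ ∈ B, ∀ q : ℕ, 0 < q →
      (∀ v ∈ top, IsIntegral ℤ ((q : ℂ) * K χ χ v)) →
      ∑ v ∈ top, (q : ℂ) * K χ χ v = (top.card : ℂ) → ∀ v ∈ top, (q : ℂ) * K χ χ v = 1 := by
    intro χ hχ q hq hi hs v hv
    refine mul_conP_eq_one_of_galois hpM D hab h2G hχ (top.map (Function.Embedding.subtype _))
      (fun w hw => ?_) hclosed hq (fun w hw => ?_) ?_ (v : G) (Finset.mem_map_of_mem _ hv)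
    · obtain ⟨x, -, rfl⟩ := Finset.mem_map.mp hw; exact x.2
    · obtain ⟨x, hx, rfl⟩ := Finset.mem_map.mp hw; exact hi x hx
    · rw [Finset.sum_map, Finset.card_map]; exact hs
  have htopcard : (4 : ℂ) * (top.card : ℂ) = 3 * (n : ℂ) := by exact_mod_cast hA.card_top
  have hbd : 2 ^ blockDefect 2 B = n := (card_pair_group hpM D).symm
  have hdata : ∀ χ ∈ B, ∃ a b : ℤ, (n : ℂ) * regInner 2 (χ : G → ℂ) (χ : G → ℂ) = a ∧
      4 / 3 * ∑ v ∈ top, K χ χ v = b ∧ (b = 1 ∨ b = 3) ∧ ¬ 2 ∣ a := by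
    intro χ hχ
    obtain ⟨a, b, ha, hb, hb0, hb4, hpar⟩ := Homocyclic.diag_parity hA h3 (hKσ χ χ)
      (hpos χ hχ) (hdiagint χ) (hone χ hχ)
    have ha' : (n : ℂ) * regInner 2 (χ : G → ℂ) (χ : G → ℂ) = a := by
      rw [← ha, ← conP_one_eq hpM D hχ hχ]; rfl
    obtain ⟨hdiv, hz0, hz1⟩ := contribution_row hpM hB hχ hχ (z := a) (by
      rw [← ha', ← hbd]; push_cast; rfl)
    by_cases hh : blockHeight 2 B (χ : G → ℂ) = 0
    · have := hz0 hh
      rw [hh, zero_add, pow_one] at this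
      exact ⟨a, b, ha', hb, by omega, by omega⟩
    exfalso
    have h2a : (2 : ℤ) ∣ a := (dvd_pow_self 2 hh).trans (by exact_mod_cast hdiv)
    have hb2 : b = 2 := by omega
    rw [hb2] at hb
    have htwo := hgalois χ hχ (2 ^ (2 * m - 1)) (pow_pos two_pos _) (fun v _ => by
      obtain ⟨hle, hI⟩ := isIntegral_pow_conP hpM D hd v.2 (fun w hw => hab v v.2 w hw) hχ
      have e : ((2 ^ (2 * m - 1) : ℕ) : ℂ) = (2 : ℂ) ^ (blockHeight 2 B (χ : G → ℂ) - 1) *
          (2 : ℂ) ^ (2 * m - blockHeight 2 B (χ : G → ℂ)) := by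
        push_cast
        rw [← pow_add]
        congr 1
        omega
      rw [e, mul_assoc]
      exact ((isIntegral_natCast (R := ℤ) (B := ℂ) 2).pow _).mul (by exact_mod_cast hI)) (by
      rw [← Finset.mul_sum]
      have : (n : ℂ) = 2 * ((2 ^ (2 * m - 1) : ℕ) : ℂ) := by
        rw [hd]; push_cast; rw [← pow_succ']; congr 1; omega
      push_cast at hb
      linear_combination 3 / 4 * ((2 ^ (2 * m - 1) : ℕ) : ℂ) * hb - 3 / 4 * this - htopcard / 4)
    refine Homocyclic.no_two hA h3 (hKσ χ χ) (hdiagint χ) (fun v hv => ?_) (fun v hvv hv1 => ?_)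
    · have h1 := htwo v (Finset.mem_filter.mpr ⟨Finset.mem_univ _, hv⟩)
      rw [← hn, hd, show (2 : ℕ) ^ (2 * m) = 2 * 2 ^ (2 * m - 1) by rw [← pow_succ']; congr 1; omega,
        Nat.cast_mul, mul_assoc, h1, mul_one, Nat.cast_ofNat]
    · have hv' : (v : G) ≠ 1 := fun e => hv1 (Subtype.ext e)
      obtain ⟨af, ff, -, -, hval, -⟩ := sec_rank_one hpM D hab v.2 (congrArg Subtype.val hvv)
        (hrank v v.2 hv')
      exact ⟨af χ, hval χ χ⟩
  choose! a b ha hb hb13 hodd using hdata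
  have hNsum : ∑ χ ∈ bf B, b χ = n := by
    apply Int.cast_injective (α := ℂ)
    push_cast
    rw [Finset.sum_congr rfl fun χ hχ => (hb χ (mem_bf.mp hχ)).symm, ← Finset.mul_sum,
      Finset.sum_comm, Finset.sum_congr rfl fun (v : P) (hv : v ∈ top) => (show
        ∑ χ ∈ bf B, K χ χ v = 1 by
          simp only [hK]
          rw [sum_conP_diag hpM D v.2, hrank (v : G) v.2 fun e =>
            (Finset.mem_filter.mp hv).2 ((Subtype.ext e : v = 1) ▸ one_mem _), Nat.cast_one]),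
      Finset.sum_const, nsmul_eq_mul, mul_one]
    linear_combination htopcard / 3
  have hkcard : (bf B).card = Nat.card B := (card_bf B).symm
  have h8 : (4 : ℕ) ^ m % 8 = 0 := by
    obtain ⟨m', rfl⟩ : ∃ m', m = m' + 2 := ⟨m - 2, by omega⟩
    rw [pow_add]; omega
  have hmod : ∀ (s : Finset (IrrCharacter G)), (∀ χ ∈ s, b χ % 2 = 1) →
      (∑ χ ∈ s, b χ) % 2 = (s.card : ℤ) % 2 := fun s hs => by
    rw [Finset.sum_int_mod, Finset.sum_congr rfl hs, Finset.sum_const, nsmul_eq_mul, mul_one]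
  have hkeven : Nat.card B % 2 = 0 := by
    have h := hmod (bf B) fun χ hχ => by rcases hb13 χ (mem_bf.mp hχ) with e | e <;> omega
    rw [hNsum, hkcard, hcardP] at h
    omega
  -- a character with the value one
  obtain ⟨χ₀, hχ₀, hb1⟩ : ∃ χ ∈ B, b χ = 1 := by
    by_contra h
    push Not at h
    have h3' : ∑ χ ∈ bf B, b χ = ∑ χ ∈ bf B, (3 : ℤ) := Finset.sum_congr rfl fun χ hχ =>
      (hb13 χ (mem_bf.mp hχ)).resolve_left (h χ (mem_bf.mp hχ))
    rw [hNsum, Finset.sum_const, nsmul_eq_mul, hkcard, hcardP] at h3'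
    omega
  -- the rank is not one
  have hl1 : blockRank 2 B ≠ 1 := by
    intro hl
    obtain ⟨f, d, -, hdf, hsum⟩ := rank_one_cartan hpM hB hPD hl
    rw [finsum_mem_bf] at hsum
    have hnorm : (n : ℂ) * ∑ s ∈ regs 2 G, f s * conj (f s) = (Nat.card G : ℂ) := by
      have h := card_mul_blockRank (p := 2) hpM hB
      rw [hl, Nat.cast_one, mul_one] at h
      rw [h, hn, ← hsum, Nat.cast_sum, Finset.mul_sum]
      refine Finset.sum_congr rfl fun s hs => ?_
      rw [kerB, Finset.sum_mul]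
      refine Finset.sum_congr rfl fun χ hχ => ?_
      rw [hdf χ (mem_bf.mp hχ) s (mem_regs.mp hs), map_mul, map_natCast]
      push_cast
      ring
    have hsq : ∀ χ ∈ bf B, d χ ^ 2 % 8 = 1 := by
      intro χ hχ
      refine sq_mod_eight fun h2 => hodd χ (mem_bf.mp hχ) ?_
      have : (a χ : ℂ) = ((d χ * d χ : ℕ) : ℂ) := by
        rw [← ha χ (mem_bf.mp hχ), regInner]
        rw [Finset.sum_congr rfl fun s hs => (show (χ : G → ℂ) s * conj ((χ : G → ℂ) s) =
          (d χ : ℂ) * d χ * (f s * conj (f s)) by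
            rw [hdf χ (mem_bf.mp hχ) s (mem_regs.mp hs), map_mul, map_natCast]; ring),
          ← Finset.mul_sum, ← hnorm]
        have hs0 : ∑ s ∈ regs 2 G, f s * conj (f s) ≠ 0 := fun h0 => by
          rw [h0, mul_zero] at hnorm
          exact Chars.card_ne_zero hnorm.symm
        field_simp
        push_cast
        ring
      have e : a χ = ((d χ * d χ : ℕ) : ℤ) := by exact_mod_cast this
      rw [e]
      exact_mod_cast h2.mul_right _
    have h : (∑ χ ∈ bf B, d χ ^ 2) % 8 = n % 8 := congrArg (· % 8) hsum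
    rw [Finset.sum_nat_mod, Finset.sum_congr rfl hsq, Finset.sum_const, smul_eq_mul, mul_one,
      hkcard, hcardP] at h
    omega
  -- the upper bound
  have hKd : ∀ v : P, v ∉ Homocyclic.sq P → (n : ℂ) * K χ₀ χ₀ v = 1 := by
    intro v hv
    refine hgalois χ₀ hχ₀ n Nat.card_pos (fun w _ => ?_) ?_ v
      (Finset.mem_filter.mpr ⟨Finset.mem_univ _, hv⟩)
    · obtain ⟨hle, hI⟩ := isIntegral_pow_conP hpM D hd w.2 (fun y hy => hab w w.2 y hy) hχ₀
      have e : (n : ℂ) = (2 : ℂ) ^ blockHeight 2 B (χ₀ : G → ℂ) *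
          (2 : ℂ) ^ (2 * m - blockHeight 2 B (χ₀ : G → ℂ)) := by
        rw [hd, ← pow_add, Nat.add_sub_cancel' hle]; norm_num
      rw [e, mul_assoc]
      exact ((isIntegral_natCast (R := ℤ) (B := ℂ) 2).pow _).mul (by exact_mod_cast hI)
    · rw [← Finset.mul_sum]
      have h := hb χ₀ hχ₀
      rw [hb1, Int.cast_one] at h
      linear_combination 3 / 4 * (n : ℂ) * h - htopcard / 4
  have hbound := Homocyclic.count_bound hA h3 hfp (bf B) (Kd := K χ₀ χ₀) (fun j => K χ₀ j) hKd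
    (fun j _ v => hKσ χ₀ j v) (fun j hj v hv => hne χ₀ hχ₀ j (mem_bf.mp hj) v hv)
    (fun h j => L χ₀ h j) (fun h hg hh j => hint χ₀ h hg hh j)
    (fun h h' hg hg' hh hh' => hinner χ₀ h h' hg hg' hh hh')
    (fun h hg hh j _ => hform χ₀ j h hh)
  rw [hkcard, ← hn, hcardP] at hbound
  have hl0 := blockRank_pos (p := 2) hpM hB
  have hm4 : (4 : ℕ) ^ m % 2 = 0 := by omega
  omega

end Cfsg.Agent.BlockChar
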