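import Cfsg.Agent.BlockChar.CharCount
import Cfsg.Agent.BlockChar.EqualDegree
import Cfsg.Agent.Chars.RegularPart
import Cfsg.Agent.Chars.Linear
import Cfsg.Agent.Core.CoprimeAction
import Cfsg.Agent.PermGroups.ZassenhausNotSimple

/-!
Groups whose irreducible characters are multiplicative on pairs of elements of coprime prime
power orders.
-/

set_option autoImplicit false
set_option linter.unusedSectionVars false
set_option linter.style.haveILetI false

namespace Cfsg.Agent.BlockChar.Mult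

open scoped ComplexConjugate commutatorElement

variable {G : Type*} [Group G] [Finite G]

/-- Number of linear characters plus the squares of the others. -/
theorem centralizer_card_eq [Fintype G] (g : G) :
    (Nat.card (Subgroup.centralizer ({g} : Set G)) : ℝ) = ((commutator G).index : ℝ) +
      ∑ χ ∈ Finset.univ.filter (fun χ : IrrCharacter G => (χ : G → ℂ) 1 ≠ 1),
        Complex.normSq ((χ : G → ℂ) g) := by
  classical
  have h := Chars.column_orth g g
  rw [if_pos (IsConj.refl g)] at h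
  simp only [Complex.mul_conj] at h
  rw [← Complex.ofReal_sum] at h
  have h' : (∑ χ : IrrCharacter G, Complex.normSq ((χ : G → ℂ) g)) =
      (Nat.card (Subgroup.centralizer ({g} : Set G)) : ℝ) := by
    exact_mod_cast h
  rw [← h', ← Finset.sum_filter_add_sum_filter_not Finset.univ
    (fun χ : IrrCharacter G => (χ : G → ℂ) 1 = 1)]
  congr 1
  rw [← Chars.card_linear, Nat.card_eq_fintype_card, Fintype.card_subtype,
    Finset.card_eq_sum_ones, Nat.cast_sum]
  refine Finset.sum_congr rfl fun χ hχ => ?_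
  obtain ⟨φ, hφ⟩ := Chars.exists_hom_of_degree_one (Chars.irr_isCharacter χ)
    (Finset.mem_filter.mp hχ).2
  rw [hφ, Nat.cast_one, Complex.normSq_eq_norm_sq, Complex.norm_eq_one_of_pow_eq_one
    (n := orderOf g) ?_ (orderOf_pos g).ne', one_pow]
  rw [← Units.val_pow_eq_pow_val, ← map_pow, pow_orderOf_eq_one, map_one, Units.val_one]

/-- A small centralizer forces the nonlinear characters to vanish. -/
theorem vanish_of_centralizer_le (g : G)
    (hle : Nat.card (Subgroup.centralizer ({g} : Set G)) ≤ (commutator G).index)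
    {χ : IrrCharacter G} (hχ : (χ : G → ℂ) 1 ≠ 1) : (χ : G → ℂ) g = 0 := by
  classical
  haveI := Fintype.ofFinite G
  have h := centralizer_card_eq g
  have hle' : (Nat.card (Subgroup.centralizer ({g} : Set G)) : ℝ) ≤ ((commutator G).index : ℝ) := by
    exact_mod_cast hle
  have h0 := Finset.sum_eq_zero_iff_of_nonneg
    (s := Finset.univ.filter (fun χ : IrrCharacter G => (χ : G → ℂ) 1 ≠ 1))
    (f := fun χ : IrrCharacter G => Complex.normSq ((χ : G → ℂ) g))
    (fun _ _ => Complex.normSq_nonneg _)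
  have hs : ∑ χ ∈ Finset.univ.filter (fun χ : IrrCharacter G => (χ : G → ℂ) 1 ≠ 1),
      Complex.normSq ((χ : G → ℂ) g) = 0 :=
    le_antisymm (by linarith) (Finset.sum_nonneg fun _ _ => Complex.normSq_nonneg _)
  exact Complex.normSq_eq_zero.mp
    (h0.mp hs χ (Finset.mem_filter.mpr ⟨Finset.mem_univ _, hχ⟩))

/-- Vanishing of all nonlinear characters determines the centralizer. -/
theorem centralizer_card_of_vanish (g : G)
    (h : ∀ χ : IrrCharacter G, (χ : G → ℂ) 1 ≠ 1 → (χ : G → ℂ) g = 0) :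
    Nat.card (Subgroup.centralizer ({g} : Set G)) = (commutator G).index := by
  classical
  haveI := Fintype.ofFinite G
  have h1 := centralizer_card_eq g
  rw [Finset.sum_eq_zero (fun χ hχ => by
    rw [h χ (Finset.mem_filter.mp hχ).2, map_zero]), add_zero] at h1
  exact_mod_cast h1

/-- The degrees. -/
theorem card_eq_sum_sq :
    ∃ (_ : Fintype G), Nat.card G = (commutator G).index +
      ∑ χ ∈ Finset.univ.filter (fun χ : IrrCharacter G => (χ : G → ℂ) 1 ≠ 1),
        charDegree (χ : G → ℂ) ^ 2 := by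
  classical
  haveI := Fintype.ofFinite G
  refine ⟨inferInstance, ?_⟩
  have h := centralizer_card_eq (1 : G)
  have hc : Subgroup.centralizer ({1} : Set G) = ⊤ := by
    refine eq_top_iff.mpr fun x _ => Subgroup.mem_centralizer_singleton_iff.mpr ?_
    simp
  rw [hc, Subgroup.card_top] at h
  have hd : ∀ χ : IrrCharacter G, Complex.normSq ((χ : G → ℂ) 1) =
      (charDegree (χ : G → ℂ) : ℝ) ^ 2 := fun χ => by
    rw [← EqualDegree.charDegree_eq' χ.2, Complex.normSq_natCast, sq]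
  simp only [hd] at h
  have : (Nat.card G : ℝ) = (((commutator G).index +
      ∑ χ ∈ Finset.univ.filter (fun χ : IrrCharacter G => (χ : G → ℂ) 1 ≠ 1),
        charDegree (χ : G → ℂ) ^ 2 : ℕ) : ℝ) := by
    push_cast
    exact h
  exact_mod_cast this

/-- The hypothesis. -/
def IsMult (G : Type*) [Group G] : Prop :=
  ∀ (x y : G) (χ : IrrCharacter G), x ≠ 1 → y ≠ 1 →
    (∃ p q a b : ℕ, p.Prime ∧ q.Prime ∧ p ≠ q ∧ orderOf x = p ^ a ∧ orderOf y = q ^ b) →
    (χ : G → ℂ) (x * y) = (χ : G → ℂ) x * (χ : G → ℂ) y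

/-- A nonlinear character vanishes on all but one prime. -/
theorem mul_eq_zero_of_isMult (H : IsMult G) {χ : IrrCharacter G} (hχ : (χ : G → ℂ) 1 ≠ 1)
    {x y : G} (hx : x ≠ 1) (hy : y ≠ 1)
    (hxy : ∃ p q a b : ℕ, p.Prime ∧ q.Prime ∧ p ≠ q ∧ orderOf x = p ^ a ∧ orderOf y = q ^ b) :
    (χ : G → ℂ) x * (χ : G → ℂ) y = 0 := by
  haveI := Fintype.ofFinite G
  have h1 := sum_conj_mul χ.2 x y
  have h2 : ∀ a : G, (χ : G → ℂ) (a * x * a⁻¹ * y) = (χ : G → ℂ) x * (χ : G → ℂ) y := by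
    intro a
    obtain ⟨p, q, i, j, hp, hq, hpq, ho, ho'⟩ := hxy
    rw [H (a * x * a⁻¹) y χ (by simpa using hx) hy ⟨p, q, i, j, hp, hq, hpq, ?_, ho'⟩,
      Chars.isCharacter_conj_apply (Chars.irr_isCharacter χ)]
    rw [← ho]
    exact (MulAut.conj a).orderOf_eq x
  simp only [h2, Finset.sum_const, Finset.card_univ, nsmul_eq_mul] at h1
  rw [← Nat.card_eq_fintype_card, eq_div_iff (Chars.irr_apply_one_ne_zero χ.2)] at h1
  have h3 : (Nat.card G : ℂ) * ((χ : G → ℂ) x * (χ : G → ℂ) y) *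
      ((χ : G → ℂ) 1 - 1) = 0 := by linear_combination h1
  rcases mul_eq_zero.mp h3 with h4 | h4
  · exact (mul_eq_zero.mp h4).resolve_left Chars.card_ne_zero
  · exact absurd (sub_eq_zero.mp h4) hχ

/-- All nonlinear characters vanish at the non-trivial `q`-elements for `q` different from one
fixed prime `p`, and the commutator subgroup is a `p`-group. -/
theorem exists_prime_of_isMult (H : IsMult G) (hna : ¬ ∀ a b : G, a * b = b * a) :
    ∃ p : ℕ, p.Prime ∧ IsPGroup p (commutator G) ∧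
      ∀ χ : IrrCharacter G, (χ : G → ℂ) 1 ≠ 1 → ∀ q : ℕ, q.Prime → q ≠ p →
        ∀ g : G, g ≠ 1 → ∀ a : ℕ, orderOf g = q ^ a → (χ : G → ℂ) g = 0 := by
  classical
  obtain ⟨_, hsum⟩ := card_eq_sum_sq (G := G)
  set V : IrrCharacter G → ℕ → Prop := fun χ q =>
    ∀ g : G, g ≠ 1 → ∀ a : ℕ, orderOf g = q ^ a → (χ : G → ℂ) g = 0 with hVdef
  -- a vanishing prime divides the degree fully
  have hdvd : ∀ χ : IrrCharacter G, ∀ q : ℕ, q.Prime → V χ q →
      ∀ k, q ^ k ∣ Nat.card G → q ^ k ∣ charDegree (χ : G → ℂ) := by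
    intro χ q hq hv k hk
    haveI := Fact.mk hq
    obtain ⟨P⟩ := (inferInstance : Nonempty (Sylow q G))
    obtain ⟨c, hc⟩ := Chars.gen_degree_dvd_of_vanish
      (Chars.isGen_of_isCharacter (Chars.irr_isCharacter χ)) P (fun g hg hg1 => by
        obtain ⟨a, ha⟩ := IsPGroup.iff_orderOf.mp P.2 ⟨g, hg⟩
        rw [Subgroup.orderOf_mk] at ha
        exact hv g hg1 a ha)
    rw [← EqualDegree.charDegree_eq' χ.2] at hc
    have hc' : (charDegree (χ : G → ℂ) : ℤ) = (Nat.card P : ℤ) * c := by exact_mod_cast hc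
    exact (P.pow_dvd_card_of_pow_dvd_card hk).trans (Int.natCast_dvd_natCast.mp ⟨c, hc'⟩)
  -- the degree is small
  have hsmall : ∀ χ : IrrCharacter G, (χ : G → ℂ) 1 ≠ 1 →
      charDegree (χ : G → ℂ) ^ 2 < Nat.card G ∧ 0 < charDegree (χ : G → ℂ) := by
    intro χ hχ
    refine ⟨?_, Nat.pos_of_ne_zero fun h0 => Chars.irr_apply_one_ne_zero χ.2
      (by rw [← EqualDegree.charDegree_eq' χ.2, h0, Nat.cast_zero])⟩
    rw [hsum]
    have h1 : 0 < (commutator G).index := Nat.pos_of_ne_zero Subgroup.index_ne_zero_of_finite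
    have h2 := Finset.single_le_sum
      (s := Finset.univ.filter (fun ψ : IrrCharacter G => (ψ : G → ℂ) 1 ≠ 1)) (f := fun ψ : IrrCharacter G => charDegree (ψ : G → ℂ) ^ 2)
      (fun _ _ => Nat.zero_le _) (a := χ) (Finset.mem_filter.mpr ⟨Finset.mem_univ χ, hχ⟩)
    omega
  -- the prime of a character
  have hex : ∀ χ : IrrCharacter G, (χ : G → ℂ) 1 ≠ 1 → ∃ p, p.Prime ∧ ¬ V χ p := by
    intro χ hχ
    by_contra hall
    push Not at hall
    have h1 : Nat.card G ∣ charDegree (χ : G → ℂ) :=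
      (Nat.dvd_iff_prime_pow_dvd_dvd _ _).mpr fun q k hq hk => hdvd χ q hq (hall q hq) k hk
    obtain ⟨h2, h3⟩ := hsmall χ hχ
    have h4 := Nat.le_of_dvd h3 h1
    nlinarith
  have hother : ∀ χ : IrrCharacter G, (χ : G → ℂ) 1 ≠ 1 → ∀ p, p.Prime → ¬ V χ p →
      ∀ q, q.Prime → q ≠ p → V χ q := by
    intro χ hχ p hp hnv q hq hne g hg a ha
    simp only [hVdef, not_forall] at hnv
    obtain ⟨x, hx, b, hb, hx0⟩ := hnv
    exact (mul_eq_zero.mp (mul_eq_zero_of_isMult H hχ hx hg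
      ⟨p, q, b, a, hp, hq, Ne.symm hne, hb, ha⟩)).resolve_left hx0
  have hmul : ∀ χ : IrrCharacter G, (χ : G → ℂ) 1 ≠ 1 → ∀ (p : ℕ) [Fact p.Prime]
      (P : Sylow p G), ¬ V χ p → Nat.card G ∣ charDegree (χ : G → ℂ) * Nat.card P := by
    intro χ hχ p hp P hnv
    refine (Nat.dvd_iff_prime_pow_dvd_dvd _ _).mpr fun q k hq hk => ?_
    by_cases hqp : q = p
    · subst hqp
      exact (P.pow_dvd_card_of_pow_dvd_card hk).trans (dvd_mul_left _ _)
    · exact (hdvd χ q hq (hother χ hχ p hp.out hnv q hq hqp) k hk).trans (dvd_mul_right _ _)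
  obtain ⟨χ₀, hχ₀⟩ := EqualDegree.exists_nonlinear hna
  obtain ⟨p, hp, hpv⟩ := hex χ₀ hχ₀
  haveI := Fact.mk hp
  obtain ⟨P⟩ := (inferInstance : Nonempty (Sylow p G))
  have hsame : ∀ χ : IrrCharacter G, (χ : G → ℂ) 1 ≠ 1 → ¬ V χ p := by
    intro χ hχ
    obtain ⟨r, hr, hrv⟩ := hex χ hχ
    by_cases hrp : r = p
    · exact hrp ▸ hrv
    exfalso
    haveI := Fact.mk hr
    obtain ⟨R⟩ := (inferInstance : Nonempty (Sylow r G))
    have h1 := Nat.le_of_dvd (Nat.mul_pos (hsmall χ₀ hχ₀).2 Nat.card_pos) (hmul χ₀ hχ₀ p P hpv)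
    have h2 := Nat.le_of_dvd (Nat.mul_pos (hsmall χ hχ).2 Nat.card_pos) (hmul χ hχ r R hrv)
    have hcop : (Nat.card P).Coprime (Nat.card R) := by
      rw [P.card_eq_multiplicity, R.card_eq_multiplicity]
      exact Nat.Coprime.pow _ _ ((Nat.coprime_primes hp hr).mpr (Ne.symm hrp))
    have h3 : Nat.card P * Nat.card R ≤ Nat.card G := Nat.le_of_dvd Nat.card_pos
      (hcop.mul_dvd_of_dvd_of_dvd P.1.card_subgroup_dvd_card R.1.card_subgroup_dvd_card)
    obtain ⟨h4, h4'⟩ := hsmall χ₀ hχ₀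
    obtain ⟨h5, h5'⟩ := hsmall χ hχ
    have hn : 0 < Nat.card G := Nat.card_pos
    have h6 : Nat.card G * Nat.card G ≤
        charDegree (χ₀ : G → ℂ) * charDegree (χ : G → ℂ) * Nat.card G := by
      calc Nat.card G * Nat.card G ≤ (charDegree (χ₀ : G → ℂ) * Nat.card P) *
            (charDegree (χ : G → ℂ) * Nat.card R) := Nat.mul_le_mul h1 h2
        _ = charDegree (χ₀ : G → ℂ) * charDegree (χ : G → ℂ) * (Nat.card P * Nat.card R) := by ring
        _ ≤ _ := Nat.mul_le_mul_left _ h3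
    have h7 := Nat.le_of_mul_le_mul_right h6 hn
    nlinarith
  refine ⟨p, hp, ?_, fun χ hχ q hq hne => hother χ hχ p hp (hsame χ hχ) q hq hne⟩
  -- the index divides the number of linear characters
  have hidx : P.1.index ∣ (commutator G).index := by
    refine (Nat.dvd_add_left ?_).mp (hsum ▸ Subgroup.index_dvd_card _)
    refine Finset.dvd_sum fun χ hχ => ?_
    have h1 := hmul χ (Finset.mem_filter.mp hχ).2 p P (hsame χ (Finset.mem_filter.mp hχ).2)
    rw [← Subgroup.card_mul_index P.1, mul_comm (charDegree _)] at h1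
    exact (Nat.dvd_of_mul_dvd_mul_left Nat.card_pos h1).trans (dvd_pow_self _ two_ne_zero)
  obtain ⟨t, ht⟩ := hidx
  have h1 := Subgroup.card_mul_index (commutator G)
  rw [ht, ← Subgroup.card_mul_index P.1, ← mul_assoc, mul_right_comm] at h1
  have h2 := Nat.eq_of_mul_eq_mul_right (Nat.pos_of_ne_zero P.1.index_ne_zero_of_finite) h1
  obtain ⟨k, hk⟩ := IsPGroup.iff_card.mp P.2
  obtain ⟨i, -, hi⟩ := (Nat.dvd_prime_pow hp).mp (hk ▸ ⟨t, h2.symm⟩ : Nat.card (commutator G) ∣ p ^ k)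
  exact IsPGroup.of_card hi

/-- An injection showing a product inequality. -/
theorem card_mul_card_le {A D C : Subgroup G} (hA : A ≤ C) (hD : D ≤ C) (h : A ⊓ D = ⊥) :
    Nat.card A * Nat.card D ≤ Nat.card C := by
  rw [← Nat.card_prod]
  refine Nat.card_le_card_of_injective
    (fun x : A × D => (⟨(x.1 : G) * x.2, C.mul_mem (hA x.1.2) (hD x.2.2)⟩ : C)) ?_
  rintro ⟨a, d⟩ ⟨a', d'⟩ e
  have e' : (a : G) * d = a' * d' := congrArg Subtype.val e
  have h1 : (a' : G)⁻¹ * a = d' * (d : G)⁻¹ := by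
    rw [eq_mul_inv_iff_mul_eq, mul_assoc, e', inv_mul_cancel_left]
  have h2 : (a' : G)⁻¹ * a ∈ A ⊓ D :=
    ⟨A.mul_mem (A.inv_mem a'.2) a.2, h1 ▸ D.mul_mem d'.2 (D.inv_mem d.2)⟩
  rw [h, Subgroup.mem_bot, inv_mul_eq_one] at h2
  rw [h2] at e'
  exact Prod.ext (Subtype.ext h2.symm) (Subtype.ext (mul_left_cancel e'))

/-- The structure. -/
def HasStructure (G : Type*) [Group G] : Prop :=
  ∃ (p : ℕ) (_ : Fact p.Prime) (P : Sylow p G) (A : Subgroup G), (P : Subgroup G).Normal ∧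
    IsCyclic ↥A ∧ A ≠ ⊥ ∧ (Nat.card ↥A).Coprime p ∧ A ⊔ (P : Subgroup G) = ⊤ ∧
    IsMulCommutative ↥((P : Subgroup G) ⊓ Subgroup.centralizer (A : Set G)) ∧
    (⁅A, (P : Subgroup G)⁆).Normal ∧
    ((P : Subgroup G) ⊓ Subgroup.centralizer (A : Set G)) ⊔ ⁅A, (P : Subgroup G)⁆ = (P : Subgroup G) ∧
    ((P : Subgroup G) ⊓ Subgroup.centralizer (A : Set G)) ⊓ ⁅A, (P : Subgroup G)⁆ = ⊥ ∧
    ∀ a ∈ A, a ≠ 1 → ∀ d ∈ ⁅A, (P : Subgroup G)⁆, a * d = d * a → d = 1

/-- Multiplicativity forces the structure. -/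
theorem hasStructure_of_isMult (H : IsMult G) (hna : ¬ ∀ a b : G, a * b = b * a)
    (hnp : ¬ ∃ p : ℕ, p.Prime ∧ IsPGroup p G) : HasStructure G := by
  classical
  obtain ⟨p, hp, hG', hv⟩ := exists_prime_of_isMult H hna
  haveI := Fact.mk hp
  obtain ⟨P⟩ := (inferInstance : Nonempty (Sylow p G))
  have hG'P : commutator G ≤ (P : Subgroup G) := hG'.le_sylow_of_normal P
  haveI hPn : (P : Subgroup G).Normal := ⟨fun n hn g => by
    have : g * n * g⁻¹ = ⁅g, n⁆ * n := by rw [commutatorElement_def]; group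
    rw [this]
    exact P.1.mul_mem (hG'P (Subgroup.commutator_mem_commutator (Subgroup.mem_top g)
      (Subgroup.mem_top n))) hn⟩
  obtain ⟨A, hA⟩ := Subgroup.exists_right_complement'_of_coprime (N := (P : Subgroup G))
    P.card_coprime_index
  have hAP : A ⊓ (P : Subgroup G) = ⊥ := disjoint_iff.mp hA.disjoint.symm
  have hAc : ∀ x ∈ A, ∀ y ∈ A, x * y = y * x := fun x hx y hy => by
    have h1 : ⁅x, y⁆ ∈ A ⊓ (P : Subgroup G) :=
      ⟨A.mul_mem (A.mul_mem (A.mul_mem hx hy) (A.inv_mem hx)) (A.inv_mem hy),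
        hG'P (Subgroup.commutator_mem_commutator (Subgroup.mem_top x) (Subgroup.mem_top y))⟩
    rw [hAP, Subgroup.mem_bot] at h1
    exact commutatorElement_eq_one_iff_mul_comm.mp h1
  have hAindex : Nat.card A = (P : Subgroup G).index := by
    refine Nat.eq_of_mul_eq_mul_left (Nat.card_pos (α := P)) ?_
    rw [Subgroup.card_mul_index, hA.card_mul]
  have hcopA : (Nat.card A).Coprime p := by
    rw [hAindex, Nat.coprime_comm, hp.coprime_iff_not_dvd]
    exact P.not_dvd_index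
  have hAne : A ≠ ⊥ := by
    intro h
    refine hnp ⟨p, hp, ?_⟩
    have h1 := hA.card_mul
    rw [h, Subgroup.card_bot, mul_one] at h1
    obtain ⟨k, hk⟩ := IsPGroup.iff_card.mp P.2
    exact IsPGroup.of_card (h1 ▸ hk)
  have hcop : (Nat.card A).Coprime (Nat.card (P : Subgroup G)) := hAindex ▸ P.card_coprime_index.symm
  have hAN : A ≤ Subgroup.normalizer ((P : Subgroup G) : Set G) := by
    rw [Subgroup.normalizer_eq_top_iff.mpr hPn]; exact le_top
  set D := (P : Subgroup G) ⊓ Subgroup.centralizer (A : Set G) with hD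
  set K := ⁅A, (P : Subgroup G)⁆ with hK
  have hsolv : Group.IsSolvable (P : Subgroup G) := by
    haveI := P.2.isNilpotent
    infer_instance
  have hPeq : (P : Subgroup G) = K ⊔ D := by
    rw [hK, Subgroup.commutator_comm]
    exact Core.eq_commutator_sup_centralizer hAN (Or.inr hsolv) hcop
  have hKn : K.Normal := by
    rw [← Subgroup.normalizer_eq_top_iff, eq_top_iff, ← hA.sup_eq_top, sup_comm]
    exact sup_le (Subgroup.normalizer_commutator_ge_left _ _)
      (Subgroup.normalizer_commutator_ge_right _ _)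
  haveI := hKn
  have hKG' : K ≤ commutator G := by
    rw [commutator_def]
    exact Subgroup.commutator_mono le_top le_top
  have hKP : K ≤ (P : Subgroup G) := hKG'.trans hG'P
  have hdec : ∀ u ∈ (P : Subgroup G), ∃ d ∈ D, ∃ k ∈ K, d * k = u := fun u hu => by
    rw [hPeq, sup_comm, Subgroup.mem_sup_of_normal_right] at hu
    exact hu
  have hPle : Nat.card (P : Subgroup G) ≤ Nat.card D * Nat.card K := by
    rw [← Nat.card_prod]
    refine Nat.card_le_card_of_surjective
      (fun x : D × K => (⟨(x.1 : G) * x.2, P.1.mul_mem x.1.2.1 (hKP x.2.2)⟩ : (P : Subgroup G))) ?_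
    rintro ⟨u, hu⟩
    obtain ⟨d, hd, k, hk, e⟩ := hdec u hu
    exact ⟨(⟨d, hd⟩, ⟨k, hk⟩), Subtype.ext e⟩
  have hAD : A ⊓ D = ⊥ := le_bot_iff.mp ((inf_le_inf_left A inf_le_left).trans hAP.le)
  -- an element of prime order of the complement
  have hmain : ∀ z ∈ A, (orderOf z).Prime →
      K ⊓ D = ⊥ ∧ commutator G = K ∧ ∀ k ∈ K, z * k = k * z → k = 1 := by
    intro z hz hzp
    have hz1 : z ≠ 1 := fun h => hzp.ne_one (h ▸ orderOf_one)
    have hzp' : orderOf z ≠ p := fun h => by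
      have h1 : p ∣ Nat.card A := h ▸ Subgroup.orderOf_mk z hz ▸ orderOf_dvd_natCard (⟨z, hz⟩ : A)
      exact (hp.coprime_iff_not_dvd.mp hcopA.symm) h1
    set C := Subgroup.centralizer ({z} : Set G) with hC
    have hCcard : Nat.card C = (commutator G).index := centralizer_card_of_vanish z
      fun χ hχ => hv χ hχ (orderOf z) hzp hzp' z hz1 1 (pow_one _).symm
    have hAC : A ≤ C := fun a ha => Subgroup.mem_centralizer_singleton_iff.mpr (hAc a ha z hz)
    have hDC : D ≤ C := fun d hd =>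
      Subgroup.mem_centralizer_singleton_iff.mpr ((Subgroup.mem_centralizer_iff.mp hd.2) z hz).symm
    have h1 : Nat.card A * Nat.card D ≤ Nat.card C := card_mul_card_le hAC hDC hAD
    have h2 : Nat.card (commutator G) * Nat.card C = Nat.card A * Nat.card (P : Subgroup G) := by
      rw [hCcard, Subgroup.card_mul_index, ← hA.card_mul, mul_comm]
    have h3 : Nat.card K ≤ Nat.card (commutator G) := Subgroup.card_le_of_le hKG'
    have hKpos : 0 < Nat.card K := Nat.card_pos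
    have hCpos : 0 < Nat.card C := Nat.card_pos
    have hApos : 0 < Nat.card A := Nat.card_pos
    have h4 : Nat.card K * (Nat.card A * Nat.card D) ≤
        Nat.card A * Nat.card (P : Subgroup G) :=
      h2 ▸ Nat.mul_le_mul h3 h1
    have h5 : Nat.card A * Nat.card (P : Subgroup G) ≤ Nat.card K * (Nat.card A * Nat.card D) := by
      calc Nat.card A * Nat.card (P : Subgroup G) ≤ Nat.card A * (Nat.card D * Nat.card K) :=
            Nat.mul_le_mul_left _ hPle
        _ = _ := by ring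
    have h6 := le_antisymm h4 h5
    have hP2 : Nat.card (P : Subgroup G) = Nat.card D * Nat.card K :=
      Nat.eq_of_mul_eq_mul_left hApos (by rw [← h6]; ring)
    have hC2 : Nat.card C = Nat.card A * Nat.card D := by
      refine le_antisymm (Nat.le_of_mul_le_mul_left ?_ hKpos) h1
      rw [h6, ← h2]
      exact Nat.mul_le_mul_right _ h3
    have hG2 : commutator G = K := by
      refine (Subgroup.eq_of_le_of_card_ge hKG' ?_).symm
      refine Nat.le_of_mul_le_mul_right ?_ hCpos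
      rw [h2, ← h6, ← hC2]
    have hKD : K ⊓ D = ⊥ := by
      have hs : Function.Surjective
          (fun x : D × K => (⟨(x.1 : G) * x.2, P.1.mul_mem x.1.2.1 (hKP x.2.2)⟩ :
            (P : Subgroup G))) := by
        rintro ⟨u, hu⟩
        obtain ⟨d, hd, k, hk, e⟩ := hdec u hu
        exact ⟨(⟨d, hd⟩, ⟨k, hk⟩), Subtype.ext e⟩
      have hb := (Nat.bijective_iff_surjective_and_card _).mpr
        ⟨hs, by rw [Nat.card_prod, hP2]⟩
      refine (Subgroup.eq_bot_iff_forall _).mpr fun c hc => ?_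
      have e := @hb.1 (⟨c, hc.2⟩, 1) (1, ⟨c, hc.1⟩) (Subtype.ext (by simp))
      exact congrArg Subtype.val (congrArg Prod.fst e)
    refine ⟨hKD, hG2, fun k hk hzk => ?_⟩
    have hb : Function.Bijective
        (fun x : A × D => (⟨(x.1 : G) * x.2, C.mul_mem (hAC x.1.2) (hDC x.2.2)⟩ : C)) := by
      refine (Nat.bijective_iff_injective_and_card _).mpr ⟨?_, by rw [Nat.card_prod, hC2]⟩
      rintro ⟨a, d⟩ ⟨a', d'⟩ e
      have e' : (a : G) * d = a' * d' := congrArg Subtype.val e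
      have h7 : (a' : G)⁻¹ * a = d' * (d : G)⁻¹ := by
        rw [eq_mul_inv_iff_mul_eq, mul_assoc, e', inv_mul_cancel_left]
      have h8 : (a' : G)⁻¹ * a ∈ A ⊓ D :=
        ⟨A.mul_mem (A.inv_mem a'.2) a.2, h7 ▸ D.mul_mem d'.2 (D.inv_mem d.2)⟩
      rw [hAD, Subgroup.mem_bot, inv_mul_eq_one] at h8
      rw [h8] at e'
      exact Prod.ext (Subtype.ext h8.symm) (Subtype.ext (mul_left_cancel e'))
    obtain ⟨⟨a, d⟩, e⟩ := hb.2 ⟨k, Subgroup.mem_centralizer_singleton_iff.mpr hzk.symm⟩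
    have e' : (a : G) * d = k := congrArg Subtype.val e
    have ha : (a : G) ∈ A ⊓ (P : Subgroup G) :=
      ⟨a.2, (eq_mul_inv_of_mul_eq e') ▸ P.1.mul_mem (hKP hk) (P.1.inv_mem d.2.1)⟩
    rw [hAP, Subgroup.mem_bot] at ha
    rw [ha, one_mul] at e'
    have : k ∈ K ⊓ D := ⟨hk, e' ▸ d.2⟩
    rwa [hKD, Subgroup.mem_bot] at this
  have hred : ∀ a ∈ A, a ≠ 1 → ∃ z ∈ A, (orderOf z).Prime ∧ ∀ k : G, a * k = k * a → z * k = k * z := by
    intro a ha ha1
    obtain ⟨q, hq, hqd⟩ := Nat.exists_prime_and_dvd (mt orderOf_eq_one_iff.mp ha1)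
    refine ⟨a ^ (orderOf a / q), A.pow_mem ha _, ?_, fun k hk => ?_⟩
    · rw [orderOf_pow_orderOf_div (orderOf_pos a).ne' hqd]
      exact hq
    · exact (Commute.pow_left (show Commute a k from hk) _).eq
  obtain ⟨a₀, ha₀, ha₀1⟩ : ∃ a ∈ A, a ≠ (1 : G) := by
    by_contra h
    push Not at h
    exact hAne ((Subgroup.eq_bot_iff_forall _).mpr h)
  obtain ⟨z₀, hz₀, hz₀p, -⟩ := hred a₀ ha₀ ha₀1
  obtain ⟨hKD, hG2, -⟩ := hmain z₀ hz₀ hz₀p
  have hfpf : ∀ a ∈ A, a ≠ 1 → ∀ d ∈ K, a * d = d * a → d = 1 := by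
    intro a ha ha1 d hd hcomm
    obtain ⟨z, hz, hzp, hzc⟩ := hred a ha ha1
    exact (hmain z hz hzp).2.2 d hd (hzc d hcomm)
  have hKne : K ≠ ⊥ := by
    intro h
    refine hna fun a b => commutatorElement_eq_one_iff_mul_comm.mp ?_
    have h1 : ⁅a, b⁆ ∈ commutator G :=
      Subgroup.commutator_mem_commutator (Subgroup.mem_top a) (Subgroup.mem_top b)
    rwa [hG2, h, Subgroup.mem_bot] at h1
  refine ⟨p, ⟨hp⟩, P, A, hPn, ?_, hAne, hcopA, ?_, ?_, hKn, ?_, ?_, hfpf⟩
  · exact PermGroups.isCyclic_of_fpf_comm (K := K) (H := A) (fun a ha ha1 d hd hc => hfpf a ha ha1 d hd hc)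
      hKne (by rw [Subgroup.normalizer_eq_top_iff.mpr hKn]; exact le_top) hAc
  · rw [sup_comm]; exact hA.sup_eq_top
  · refine ⟨⟨fun x y => Subtype.ext (commutatorElement_eq_one_iff_mul_comm.mp ?_)⟩⟩
    have h1 : ⁅(x : G), (y : G)⁆ ∈ K ⊓ D := by
      refine ⟨hG2 ▸ Subgroup.commutator_mem_commutator (Subgroup.mem_top _) (Subgroup.mem_top _), ?_⟩
      exact D.mul_mem (D.mul_mem (D.mul_mem x.2 y.2) (D.inv_mem x.2)) (D.inv_mem y.2)
    rwa [hKD, Subgroup.mem_bot] at h1
  · rw [sup_comm]; exact hPeq.symm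
  · rw [inf_comm]; exact hKD

/-- The nonlinear characters vanish outside the normal Sylow subgroup. -/
theorem vanish_of_structure {p : ℕ} [Fact p.Prime] (P : Sylow p G) (A D K : Subgroup G)
    [(P : Subgroup G).Normal] [K.Normal] (hAc : ∀ x ∈ A, ∀ y ∈ A, x * y = y * x)
    (hcop : (Nat.card A).Coprime p) (hAP : A ⊔ (P : Subgroup G) = ⊤)
    (hDc : ∀ x ∈ D, ∀ y ∈ D, x * y = y * x) (hDA : ∀ d ∈ D, ∀ a ∈ A, a * d = d * a)
    (hDK : D ⊔ K = (P : Subgroup G)) (hinf : D ⊓ K = ⊥)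
    (hfpf : ∀ a ∈ A, a ≠ 1 → ∀ d ∈ K, a * d = d * a → d = 1)
    {g : G} (hg : g ∉ (P : Subgroup G)) {χ : IrrCharacter G} (hχ : (χ : G → ℂ) 1 ≠ 1) :
    (χ : G → ℂ) g = 0 := by
  classical
  have hp : p.Prime := Fact.out
  obtain ⟨n, hn⟩ := IsPGroup.iff_card.mp P.2
  have hcopP : (Nat.card A).Coprime (Nat.card (P : Subgroup G)) := hn ▸ hcop.pow_right n
  have hAinf : A ⊓ (P : Subgroup G) = ⊥ := Subgroup.inf_eq_bot_of_coprime hcopP
  have hDP : D ≤ (P : Subgroup G) := hDK ▸ le_sup_left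
  have hKP : K ≤ (P : Subgroup G) := hDK ▸ le_sup_right
  have hdec : ∀ x : G, ∃ a ∈ A, ∃ d ∈ D, ∃ k ∈ K, a * (d * k) = x := by
    intro x
    have hx : x ∈ A ⊔ (P : Subgroup G) := hAP ▸ Subgroup.mem_top x
    obtain ⟨a, ha, u, hu, e⟩ := Subgroup.mem_sup_of_normal_right.mp hx
    rw [← hDK] at hu
    obtain ⟨d, hd, k, hk, e'⟩ := Subgroup.mem_sup_of_normal_right.mp hu
    exact ⟨a, ha, d, hd, k, hk, by rw [e', e]⟩
  -- the quotient is commutative
  have hG'K : commutator G ≤ K := by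
    rw [commutator_def, Subgroup.commutator_le]
    intro x _ y _
    obtain ⟨a, ha, d, hd, k, hk, rfl⟩ := hdec x
    obtain ⟨b, hb, e, he, l, hl, rfl⟩ := hdec y
    rw [← QuotientGroup.eq_one_iff, ← QuotientGroup.mk'_apply, map_commutatorElement,
      commutatorElement_eq_one_iff_commute]
    simp only [map_mul, QuotientGroup.mk'_apply, (QuotientGroup.eq_one_iff k).mpr hk,
      (QuotientGroup.eq_one_iff l).mpr hl, mul_one]
    have c1 : Commute a b := hAc a ha b hb
    have c2 : Commute d e := hDc d hd e he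
    have c3 : Commute a e := hDA e he a ha
    have c4 : Commute d b := (hDA d hd b hb).symm
    exact ((c1.mul_right c3).mul_left (c4.mul_right c2)).map (QuotientGroup.mk' K)
  have hcardP : Nat.card D * Nat.card K ≤ Nat.card (P : Subgroup G) :=
    card_mul_card_le hDP hKP hinf
  have hcardG : Nat.card A * Nat.card (P : Subgroup G) ≤ Nat.card G := by
    have := card_mul_card_le (C := (⊤ : Subgroup G)) (A := A) (D := (P : Subgroup G)) le_top le_top hAinf
    rwa [Subgroup.card_top] at this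
  have hL : Nat.card A * Nat.card D ≤ (commutator G).index := by
    refine Nat.le_of_mul_le_mul_left ?_ (Nat.card_pos (α := K))
    calc Nat.card K * (Nat.card A * Nat.card D) = Nat.card A * (Nat.card D * Nat.card K) := by ring
      _ ≤ Nat.card A * Nat.card (P : Subgroup G) := Nat.mul_le_mul_left _ hcardP
      _ ≤ Nat.card G := hcardG
      _ = Nat.card (commutator G) * (commutator G).index := (Subgroup.card_mul_index _).symm
      _ ≤ _ := Nat.mul_le_mul_right _ (Subgroup.card_le_of_le hG'K)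
  -- centralizers in the complement
  have hCa : ∀ a ∈ A, a ≠ 1 →
      Nat.card (Subgroup.centralizer ({a} : Set G)) ≤ Nat.card A * Nat.card D := by
    intro a ha ha1
    have hAD : ∀ x : A × D, (x.1 : G) * x.2 ∈ Subgroup.centralizer ({a} : Set G) := by
      rintro ⟨⟨b, hb⟩, ⟨d, hd⟩⟩
      refine Subgroup.mem_centralizer_singleton_iff.mpr ?_
      have c1 : Commute b a := hAc b hb a ha
      have c2 : Commute d a := (hDA d hd a ha).symm
      exact (c1.mul_left c2).eq
    rw [← Nat.card_prod]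
    refine Nat.card_le_card_of_surjective (fun x : A × D => ⟨_, hAD x⟩) ?_
    rintro ⟨c, hc⟩
    obtain ⟨b, hb, d, hd, k, hk, e⟩ := hdec c
    have c0 : Commute c a := (Subgroup.mem_centralizer_singleton_iff.mp hc)
    have c1 : Commute (b * d) a :=
      Subgroup.mem_centralizer_singleton_iff.mp (hAD (⟨b, hb⟩, ⟨d, hd⟩))
    have ek : k = (b * d)⁻¹ * c := by rw [← e]; group
    have c2 : Commute k a := ek ▸ (c1.inv_left.mul_left c0)
    have hk1 := hfpf a ha ha1 k hk c2.symm.eq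
    refine ⟨(⟨b, hb⟩, ⟨d, hd⟩), Subtype.ext ?_⟩
    show b * d = c
    rw [← e, hk1, mul_one]
  -- the prime-to-p part of g
  set v := (orderOf g).factorization p with hv
  set z := g ^ p ^ v with hz
  have hord : orderOf z = orderOf g / p ^ v := orderOf_pow_of_dvd (pow_ne_zero _ hp.ne_zero)
    (Nat.ordProj_dvd _ _)
  have hz1 : z ≠ 1 := by
    intro h
    refine hg ?_
    have h1 : IsPGroup p (Subgroup.zpowers g) := by
      obtain ⟨w, -, hw⟩ := (Nat.dvd_prime_pow hp).mp (orderOf_dvd_of_pow_eq_one h)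
      exact IsPGroup.of_card (n := w) (by rw [Nat.card_zpowers, hw])
    obtain ⟨Q, hQ⟩ := h1.exists_le_sylow
    have hQP : Q = P := by
      obtain ⟨x, hx⟩ := MulAction.exists_smul_eq G P Q
      rw [← hx]
      exact Sylow.smul_eq_of_normal
    exact hQP ▸ hQ (Subgroup.mem_zpowers g)
  have hzcop : (Nat.card (Subgroup.zpowers z)).Coprime (Nat.card (P : Subgroup G)) := by
    rw [Nat.card_zpowers, hn, hord]
    exact (Nat.coprime_ordCompl hp (orderOf_pos g).ne').symm.pow_right n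
  obtain ⟨x, -, hxA⟩ := Coprime.exists_conj_le (N := (P : Subgroup G)) (A := Subgroup.zpowers z)
    (S := A) (by rw [Subgroup.normalizer_eq_top_iff.mpr inferInstance]; exact le_top) hzcop
    (fun w _ => by
      have hw : w ∈ (P : Subgroup G) ⊔ A := by rw [sup_comm, hAP]; trivial
      obtain ⟨u, hu, b, hb, e⟩ := Subgroup.mem_sup_of_normal_left.mp hw
      exact ⟨u⁻¹, P.1.inv_mem hu, by rwa [← e, inv_mul_cancel_left]⟩)
  have hzA := hxA z (Subgroup.mem_zpowers z)
  refine vanish_of_centralizer_le g (le_trans ?_ ((hCa _ hzA (by simpa using hz1)).trans hL)) hχ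
  refine Nat.card_le_card_of_injective
    (fun c : Subgroup.centralizer ({g} : Set G) =>
      (⟨x * c * x⁻¹, ?_⟩ : Subgroup.centralizer ({x * z * x⁻¹} : Set G))) ?_
  · have hc : Commute (c : G) g := Subgroup.mem_centralizer_singleton_iff.mp c.2
    have hc' : Commute (c : G) z := hc.pow_right _
    refine Subgroup.mem_centralizer_singleton_iff.mpr ?_
    exact (hc'.map (MulAut.conj x).toMonoidHom).eq
  · intro c d e
    exact Subtype.ext (mul_left_cancel (mul_right_cancel (congrArg Subtype.val e)))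

/-- The structure forces multiplicativity. -/
theorem isMult_of_hasStructure (h : HasStructure G) : IsMult G := by
  obtain ⟨p, hp, P, A, hPn, hcyc, -, hcop, hAP, hDc, hKn, hDK, hinf, hfpf⟩ := h
  have hAc : ∀ x ∈ A, ∀ y ∈ A, x * y = y * x := fun x hx y hy => by
    letI := IsCyclic.commGroup (α := A)
    exact congrArg Subtype.val (mul_comm (⟨x, hx⟩ : A) ⟨y, hy⟩)
  intro x y χ hx hy hxy
  by_cases hχ : (χ : G → ℂ) 1 = 1
  · obtain ⟨φ, hφ⟩ := Chars.exists_hom_of_degree_one (Chars.irr_isCharacter χ) hχ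
    rw [hφ]
    simp
  have hvan : ∀ g ∉ (P : Subgroup G), (χ : G → ℂ) g = 0 := fun g hg =>
    vanish_of_structure P A _ _ hAc hcop hAP
      (fun u hu v hv => congrArg Subtype.val (hDc.is_comm.comm ⟨u, hu⟩ ⟨v, hv⟩))
      (fun d hd a ha => (Subgroup.mem_centralizer_iff.mp hd.2) a ha) hDK hinf hfpf hg hχ
  obtain ⟨q, r, a, b, hq, hr, hqr, hox, hoy⟩ := hxy
  have hnot : ∀ (z : G) (s i : ℕ), s.Prime → z ≠ 1 → orderOf z = s ^ i → z ∈ (P : Subgroup G) →
      s = p := by
    intro z s i hs hz ho hzP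
    obtain ⟨k, hk⟩ := IsPGroup.iff_orderOf.mp P.2 ⟨z, hzP⟩
    rw [Subgroup.orderOf_mk, ho] at hk
    have hi : i ≠ 0 := fun h0 => hz (orderOf_eq_one_iff.mp (by rw [ho, h0, pow_zero]))
    have hdvd : s ∣ p ^ k := hk ▸ dvd_pow_self s hi
    exact (Nat.prime_dvd_prime_iff_eq hs hp.out).mp (hs.dvd_of_dvd_pow hdvd)
  have hor : x ∉ (P : Subgroup G) ∨ y ∉ (P : Subgroup G) := by
    by_contra h
    push Not at h
    exact hqr ((hnot x q a hq hx hox h.1).trans (hnot y r b hr hy hoy h.2).symm)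
  have hxyP : x * y ∉ (P : Subgroup G) := by
    intro h
    have hd : orderOf ((x : G) : G ⧸ (P : Subgroup G)) ∣ q ^ a := hox ▸ orderOf_map_dvd
      (QuotientGroup.mk' (P : Subgroup G)) x
    have hd' : orderOf ((y : G) : G ⧸ (P : Subgroup G)) ∣ r ^ b := hoy ▸ orderOf_map_dvd
      (QuotientGroup.mk' (P : Subgroup G)) y
    have e : ((x : G) : G ⧸ (P : Subgroup G)) = ((y : G) : G ⧸ (P : Subgroup G))⁻¹ := by
      rw [eq_inv_iff_mul_eq_one, ← QuotientGroup.mk_mul, QuotientGroup.eq_one_iff]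
      exact h
    rw [e, orderOf_inv] at hd
    have h1 : orderOf ((y : G) : G ⧸ (P : Subgroup G)) = 1 :=
      Nat.eq_one_of_dvd_coprimes (Nat.Coprime.pow _ _ ((Nat.coprime_primes hq hr).mpr hqr)) hd hd'
    rw [orderOf_eq_one_iff] at h1
    rw [h1, inv_one] at e
    rw [QuotientGroup.eq_one_iff] at e h1
    exact hor.elim (fun h => h e) (fun h => h h1)
  rw [hvan _ hxyP]
  rcases hor with h | h
  · rw [hvan x h, zero_mul]
  · rw [hvan y h, mul_zero]

/-- The two trivial cases. -/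
theorem isMult_of_isPGroup {p : ℕ} (hp : p.Prime) (h : IsPGroup p G) : IsMult G := by
  intro x y χ hx hy hxy
  obtain ⟨q, r, a, b, hq, hr, hqr, hox, hoy⟩ := hxy
  haveI := Fact.mk hp
  have hs : ∀ (z : G) (s i : ℕ), s.Prime → z ≠ 1 → orderOf z = s ^ i → s = p := by
    intro z s i hs hz ho
    obtain ⟨k, hk⟩ := IsPGroup.iff_orderOf.mp h z
    have hi : i ≠ 0 := fun h0 => hz (orderOf_eq_one_iff.mp (by rw [ho, h0, pow_zero]))
    have hdvd : s ∣ p ^ k := by rw [← hk, ho]; exact dvd_pow_self s hi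
    exact (Nat.prime_dvd_prime_iff_eq hs hp).mp (hs.dvd_of_dvd_pow hdvd)
  exact absurd ((hs x q a hq hx hox).trans (hs y r b hr hy hoy).symm) hqr

/-- The commutative case. -/
theorem isMult_of_comm (h : ∀ a b : G, a * b = b * a) : IsMult G := by
  intro x y χ _ _ _
  obtain ⟨φ, hφ⟩ := Chars.exists_hom_of_degree_one (Chars.irr_isCharacter χ)
    (Chars.irr_apply_one_of_comm h χ.2)
  rw [hφ]
  simp

/-- The characterisation. -/
theorem isMult_iff : IsMult G ↔
    ((∃ p : ℕ, p.Prime ∧ IsPGroup p G) ∨ IsMulCommutative G ∨ HasStructure G) := by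
  constructor
  · intro H
    by_cases hnp : ∃ p : ℕ, p.Prime ∧ IsPGroup p G
    · exact Or.inl hnp
    by_cases hna : ∀ a b : G, a * b = b * a
    · exact Or.inr (Or.inl ⟨⟨hna⟩⟩)
    exact Or.inr (Or.inr (hasStructure_of_isMult H hna hnp))
  · rintro (⟨p, hp, h⟩ | h | h)
    · exact isMult_of_isPGroup hp h
    · exact isMult_of_comm h.is_comm.comm
    · exact isMult_of_hasStructure h

end Cfsg.Agent.BlockChar.Mult
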