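import Cfsg.Agent.KnownA.GL2.SLTable
import Cfsg.Agent.DegreeGraph.ModFixBase
import Cfsg.Agent.Linear.Torus
import Cfsg.Agent.S2434
import Cfsg.Prelude.Def_DegreeGraph

/-!
# The degree graphs of `SL₂` and `PSL₂`
-/

set_option autoImplicit false
set_option linter.unusedSectionVars false
set_option linter.style.haveILetI false

namespace Cfsg.Agent.BlockChar.PSL2Graph

open Matrix Cfsg Cfsg.Agent Cfsg.Agent.KnownA.GL2
open scoped MatrixGroups

universe v

variable {F : Type*} [Field F] [Fintype F] [DecidableEq F]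


/-- A surjection from `SL₂` with central kernel onto both groups. -/
theorem exists_proj {S : Type v} [Group S]
    (hS : Nonempty (S ≃* Matrix.ProjectiveSpecialLinearGroup (Fin 2) F) ∨ Nonempty (S ≃* (Matrix.SpecialLinearGroup (Fin 2) F))) :
    ∃ π : (Matrix.SpecialLinearGroup (Fin 2) F) →* S, Function.Surjective π ∧ π.ker ≤ Subgroup.center (Matrix.SpecialLinearGroup (Fin 2) F) := by
  rcases hS with ⟨⟨e⟩⟩ | ⟨⟨e⟩⟩
  · refine ⟨e.symm.toMonoidHom.comp (QuotientGroup.mk' _),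
      e.symm.surjective.comp (QuotientGroup.mk'_surjective _), fun x hx => ?_⟩
    rw [MonoidHom.mem_ker, MonoidHom.comp_apply, MulEquiv.coe_toMonoidHom,
      MulEquiv.map_eq_one_iff] at hx
    exact (QuotientGroup.eq_one_iff x).mp hx
  · refine ⟨e.symm.toMonoidHom, e.symm.surjective, fun x hx => ?_⟩
    rw [MonoidHom.mem_ker, MulEquiv.coe_toMonoidHom, MulEquiv.map_eq_one_iff] at hx
    rw [hx]; exact Subgroup.one_mem _

theorem center_entries {z : (Matrix.SpecialLinearGroup (Fin 2) F)} (hz : z ∈ Subgroup.center (Matrix.SpecialLinearGroup (Fin 2) F)) :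
    z.1 0 1 = 0 ∧ z.1 1 0 = 0 ∧ z.1 0 0 = z.1 1 1 ∧ z.1 0 0 ^ 2 = 1 := by
  obtain ⟨r, hr, hrz⟩ := Matrix.SpecialLinearGroup.mem_center_iff.1 hz
  rw [← hrz]
  simp only [Fintype.card_fin] at hr
  refine ⟨by simp, by simp, by simp, ?_⟩
  simpa using hr

variable {S : Type v} [Group S] [Finite S] {π : (Matrix.SpecialLinearGroup (Fin 2) F) →* S}
  (hπ : Function.Surjective π) (hker : π.ker ≤ Subgroup.center (Matrix.SpecialLinearGroup (Fin 2) F))

include hπ in
theorem exists_pullback_degree (χ : IrrCharacter S) :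
    charDegree (χ : S → ℂ) = 1 ∨ charDegree (χ : S → ℂ) = Fintype.card F ∨
      charDegree (χ : S → ℂ) = Fintype.card F + 1 ∨ 2 * charDegree (χ : S → ℂ) = Fintype.card F + 1 ∨
      charDegree (χ : S → ℂ) + 1 = Fintype.card F ∨ 2 * charDegree (χ : S → ℂ) + 1 = Fintype.card F := by
  obtain ⟨d, hd, h⟩ := kinds (Chars.isIrrCharacter_comp_surjective χ.2 π hπ)
  simp only [Function.comp_apply, map_one] at hd
  have hdeg : charDegree (χ : S → ℂ) = d := by simp [charDegree, hd]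
  rw [hdeg]
  rcases h with h | h | h | h | h | h <;> obtain ⟨-, -, -, -, -, -, e⟩ := h <;> tauto

include hπ hker in
theorem mem_of_central {β : (Matrix.SpecialLinearGroup (Fin 2) F) → ℂ} (hβ : IsIrrCharacter (Matrix.SpecialLinearGroup (Fin 2) F) β) {n : ℕ} (hn : β 1 = n)
    (h : ∀ z ∈ Subgroup.center (Matrix.SpecialLinearGroup (Fin 2) F), β z = β 1) : n ∈ charDegrees S := by
  obtain ⟨γ, hγ⟩ := DegreeGraph.ModFix.exists_deflate π hπ hβ (fun z hz => h z (hker hz))
  refine ⟨γ, ?_⟩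
  have := hγ 1
  rw [map_one, hn] at this
  simp [charDegree, this]

include hπ hker in
theorem card_mem : Fintype.card F ∈ charDegrees S := by
  refine mem_of_central hπ hker isIrr_stS stS_one fun z hz => ?_
  obtain ⟨h01, h10, h00, hsq⟩ := center_entries hz
  have hne : z.1 0 0 ≠ 0 := fun h => by rw [h] at hsq; simp at hsq
  rw [stS, Pi.sub_apply, Pi.sub_apply, RS_one_apply, RS_eq, Rval_scalar _ h01 h10 h00,
    MulChar.one_apply hne.isUnit, mul_one]

include hπ hker in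
theorem succ_mem_odd (hodd : Odd (Fintype.card F)) (h5 : 5 < Fintype.card F) :
    Fintype.card F + 1 ∈ charDegrees S := by
  obtain ⟨β, hβ⟩ : ∃ β : MulChar F ℂ, β ^ 4 ≠ 1 := by
    by_contra hno
    push Not at hno
    obtain ⟨β, hβ⟩ := MulChar.exists_mulChar_orderOf F (R := ℂ) (n := Fintype.card F - 1) dvd_rfl
      (Complex.isPrimitiveRoot_exp _ (by omega))
    have h := Nat.le_of_dvd (by norm_num) (orderOf_dvd_of_pow_eq_one (hno β))
    rw [hβ] at h
    obtain ⟨k, hk⟩ := hodd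
    omega
  refine mem_of_central hπ hker ((isIrr_RS_iff (β ^ 2)).2 (by rwa [← pow_mul]))
    (by rw [RS_one_apply]; push_cast; rfl) fun z hz => ?_
  obtain ⟨h01, h10, h00, hsq⟩ := center_entries hz
  rw [RS_one_apply, RS_eq, Rval_scalar _ h01 h10 h00, MulChar.pow_apply' _ two_ne_zero, ← map_pow,
    hsq, map_one, mul_one]

include hπ hker in
theorem pred_mem_odd (hodd : Odd (Fintype.card F)) (h5 : 5 < Fintype.card F) :
    Fintype.card F - 1 ∈ charDegrees S := by
  obtain ⟨C, hC, hcard⟩ := Linear.exists_cyclic_SL2 (F := F) true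
  simp only [if_true] at hcard
  haveI := hC
  obtain ⟨g, hg⟩ := IsCyclic.exists_generator (α := C)
  have hgo : orderOf g = Fintype.card F + 1 := by
    rw [← hcard, orderOf_eq_card_of_forall_mem_zpowers hg]
  have hex : ∃ ψ : C →* ℂˣ, ∃ c : C, ψ c ^ 4 ≠ 1 := by
    letI : CommGroup C := IsCyclic.commGroup
    obtain ⟨ψ, hψ⟩ := CommGroup.exists_apply_ne_one_of_hasEnoughRootsOfUnity C ℂ
      (show g ^ 4 ≠ 1 from fun h => by
        have := Nat.le_of_dvd (by norm_num) (orderOf_dvd_of_pow_eq_one h)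
        omega)
    exact ⟨ψ, g, by rwa [← map_pow]⟩
  obtain ⟨ψ, c, hψ⟩ := hex
  let θ : C →* ℂˣ := (powMonoidHom 2).comp ψ
  obtain ⟨χ, hχ, hdeg, -, hcen, -⟩ := (S2434.result hodd C hC hcard).1 θ
    ⟨c, by simp only [θ, MonoidHom.comp_apply, powMonoidHom_apply, ← pow_mul]; exact hψ⟩
  refine mem_of_central hπ hker hχ (by rw [hdeg, Nat.cast_sub (by omega), Nat.cast_one]) fun z hz => ?_
  have hzC : z ∈ C := by
    rcases (scalar_iff z).1 ((mem_center_iff_scalar z).1 hz) with rfl | rfl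
    · exact C.one_mem
    · exact neg_one_mem hodd hcard
  have hz2 : (⟨z, hzC⟩ : C) ^ 2 = 1 := by
    refine Subtype.ext ?_
    rcases (scalar_iff z).1 ((mem_center_iff_scalar z).1 hz) with rfl | rfl <;> simp
  have h := hcen ⟨z, hzC⟩ hz 1
  rw [mul_one] at h
  rw [h]
  simp only [θ, MonoidHom.comp_apply, powMonoidHom_apply, ← map_pow, hz2, map_one, Units.val_one,
    one_mul]

include hπ hker in
theorem mem_even (h2 : (2 : F) = 0) {n : ℕ} {P : ((Matrix.SpecialLinearGroup (Fin 2) F) → ℂ) → Prop} (hP : 0 < nK (F := F) P)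
    (hdeg : ∀ {χ : (Matrix.SpecialLinearGroup (Fin 2) F) → ℂ}, P χ → ∀ {d : ℕ}, χ 1 = d → d = n) : n ∈ charDegrees S := by
  obtain ⟨⟨⟨χ, hχ⟩⟩⟩ : Nonempty {χ : IrrCharacter (Matrix.SpecialLinearGroup (Fin 2) F) // P (χ : (Matrix.SpecialLinearGroup (Fin 2) F) → ℂ)} ∧ True :=
    ⟨(Nat.card_pos_iff.mp hP).1, trivial⟩
  obtain ⟨d, hd⟩ := Chars.exists_apply_one_eq (Chars.irr_isCharacter χ)
  refine mem_of_central hπ hker χ.2 (n := n) (by rw [hd, hdeg hχ hd]) fun z hz => ?_
  have hone : (-1 : F) = 1 := by linear_combination -h2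
  rcases (scalar_iff z).1 ((mem_center_iff_scalar z).1 hz) with rfl | rfl
  · rfl
  · rw [show (-1 : Matrix.SpecialLinearGroup (Fin 2) F) = 1 from Subtype.ext (by
      ext i j
      simp only [Matrix.SpecialLinearGroup.coe_neg, Matrix.SpecialLinearGroup.coe_one, Matrix.neg_apply, Matrix.one_apply]
      split_ifs <;> simp [hone])]

include hπ in
theorem degree_dvd {d : ℕ} (hd : d ∈ charDegrees S) :
    d = 1 ∨ d = Fintype.card F ∨ d ∣ Fintype.card F + 1 ∨ d ∣ Fintype.card F - 1 := by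
  obtain ⟨χ, rfl⟩ := hd
  rcases exists_pullback_degree hπ χ with h | h | h | h | h | h
  · exact Or.inl h
  · exact Or.inr (Or.inl h)
  · exact Or.inr (Or.inr (Or.inl (h ▸ dvd_rfl)))
  · exact Or.inr (Or.inr (Or.inl (h ▸ dvd_mul_left _ _)))
  · exact Or.inr (Or.inr (Or.inr (by rw [show Fintype.card F - 1 = charDegree (χ : S → ℂ) by omega])))
  · exact Or.inr (Or.inr (Or.inr (by
      rw [show Fintype.card F - 1 = 2 * charDegree (χ : S → ℂ) by omega]; exact dvd_mul_left _ _)))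

omit [DecidableEq F] in
theorem graph_of_degrees {q : ℕ} (hq1 : 1 < q) (hqp : IsPrimePow q)
    (hdvd : ∀ d ∈ charDegrees S, d = 1 ∨ d = q ∨ d ∣ q + 1 ∨ d ∣ q - 1)
    (h0 : q ∈ charDegrees S) (hp : q + 1 ∈ charDegrees S) (hm : q - 1 ∈ charDegrees S) :
    degreePrimes S = {r : ℕ | r.Prime ∧ r ∣ q * (q ^ 2 - 1)} ∧
      ∀ r s : ℕ, (degreeGraph S).Adj r s ↔
        (r ≠ s ∧ r.Prime ∧ s.Prime ∧ ((r ∣ q + 1 ∧ s ∣ q + 1) ∨ (r ∣ q - 1 ∧ s ∣ q - 1))) := by
  have hfac : q ^ 2 - 1 = (q + 1) * (q - 1) := by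
    obtain ⟨k, rfl⟩ : ∃ k, q = k + 1 := ⟨q - 1, by omega⟩
    simp only [Nat.add_sub_cancel]
    apply Nat.sub_eq_of_eq_add; ring
  refine ⟨?_, ?_⟩
  · ext r
    simp only [degreePrimes, Set.mem_ofPred_eq, hfac]
    refine and_congr_right fun hr => ⟨?_, fun h => ?_⟩
    · rintro ⟨d, hd, hrd⟩
      rcases hdvd d hd with rfl | rfl | h | h
      · exact absurd hrd hr.not_dvd_one
      · exact hrd.mul_right _
      · exact ((hrd.trans h).mul_right _).mul_left _
      · exact ((hrd.trans h).mul_left _).mul_left _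
    · rcases (Nat.Prime.dvd_mul hr).mp h with h | h
      · exact ⟨q, h0, h⟩
      · rcases (Nat.Prime.dvd_mul hr).mp h with h | h
        · exact ⟨q + 1, hp, h⟩
        · exact ⟨q - 1, hm, h⟩
  · intro r s
    refine and_congr_right fun hne => and_congr_right fun hr => and_congr_right fun hs => ?_
    constructor
    · rintro ⟨d, hd, hrs⟩
      rcases hdvd d hd with rfl | rfl | h | h
      · exact absurd ((dvd_mul_right r s).trans hrs) hr.not_dvd_one
      · obtain ⟨t, e, ht, he, rfl⟩ := hqp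
        have h1 := (Nat.prime_dvd_prime_iff_eq hr ht.nat_prime).mp
          (hr.dvd_of_dvd_pow ((dvd_mul_right r s).trans hrs))
        have h2 := (Nat.prime_dvd_prime_iff_eq hs ht.nat_prime).mp
          (hs.dvd_of_dvd_pow ((dvd_mul_left s r).trans hrs))
        exact absurd (h1.trans h2.symm) hne
      · exact Or.inl ⟨((dvd_mul_right r s).trans hrs).trans h, ((dvd_mul_left s r).trans hrs).trans h⟩
      · exact Or.inr ⟨((dvd_mul_right r s).trans hrs).trans h, ((dvd_mul_left s r).trans hrs).trans h⟩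
    · rintro (⟨h1, h2⟩ | ⟨h1, h2⟩)
      · exact ⟨q + 1, hp, ((Nat.coprime_primes hr hs).mpr hne).mul_dvd_of_dvd_of_dvd h1 h2⟩
      · exact ⟨q - 1, hm, ((Nat.coprime_primes hr hs).mpr hne).mul_dvd_of_dvd_of_dvd h1 h2⟩

end Cfsg.Agent.BlockChar.PSL2Graph
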