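import Cfsg.Agent.BlockChar.CharCount
import Cfsg.Agent.Blocks.Covering
import Cfsg.Agent.Chars2.Clifford
import Cfsg.Prelude.Def_Solvable
import Mathlib.GroupTheory.SchurZassenhaus
import Mathlib.GroupTheory.FiniteAbelian.Duality

/-!
# Faithful characters of prime codegree
-/

set_option autoImplicit false
set_option linter.unusedSectionVars false
set_option linter.style.haveILetI false

namespace Cfsg.Agent.BlockChar

open Cfsg Cfsg.Agent
open scoped ComplexConjugate Pointwise

universe u

variable {G : Type u} [Group G] [Finite G]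

/-- A faithful character of prime codegree `p`: a normal subgroup of order `p` which is its own
centralizer. -/
theorem prime_codegree_core (χ : IrrCharacter G)
    (hfaith : ∀ g : G, (χ : G → ℂ) g = (χ : G → ℂ) 1 → g = 1) {p : ℕ} (hp : p.Prime)
    (hcod : Nat.card G = p * charDegree (χ : G → ℂ)) :
    ∃ P : Subgroup G, P.Normal ∧ Nat.card P = p ∧ Subgroup.centralizer (P : Set G) ≤ P ∧
      charDegree (χ : G → ℂ) < p := by
  classical
  haveI := Fintype.ofFinite G
  haveI := Fact.mk hp
  set d := charDegree (χ : G → ℂ) with hd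
  have hd0 : 0 < d := charDegree_pos χ.2
  have hd1 : (χ : G → ℂ) 1 = d := (charDegree_cast (Chars.irr_isCharacter χ)).symm
  have hdp : d < p := by
    have hsum := Chars.sum_sq_apply_one (G := G)
    choose n hn0 hn using fun ψ : IrrCharacter G => Chars.exists_irr_apply_one_eq ψ.2
    have hnat : ∑ ψ : IrrCharacter G, n ψ ^ 2 = Nat.card G := by
      apply Nat.cast_injective (R := ℂ)
      rw [← hsum, Nat.cast_sum]
      exact Finset.sum_congr rfl fun ψ _ => by rw [Nat.cast_pow, hn]
    have hle : d ^ 2 ≤ p * d := by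
      rw [← hcod, ← hnat]
      have : n χ = d := by
        have := hn χ
        rw [hd1] at this
        exact_mod_cast this.symm
      rw [← this]
      exact Finset.single_le_sum (f := fun ψ => n ψ ^ 2) (fun _ _ => Nat.zero_le _)
        (Finset.mem_univ χ)
    have hdle : d ≤ p := Nat.le_of_mul_le_mul_right (by rw [← sq]; exact hle) hd0
    refine lt_of_le_of_ne hdle fun e => ?_
    rw [e, ← sq] at hcod
    have hone : n (Blocks.oneChar G) = 1 := by
      have h := hn (Blocks.oneChar G)
      simpa [Blocks.oneChar] using h.symm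
    have hne : Blocks.oneChar G ≠ χ := by
      intro h
      have h' := hd1
      rw [← h, e] at h'
      simp [Blocks.oneChar] at h'
      exact hp.one_lt.ne (by exact_mod_cast h')
    have h2 : n χ ^ 2 + n (Blocks.oneChar G) ^ 2 ≤ Nat.card G := by
      rw [← hnat, ← Finset.add_sum_erase _ _ (Finset.mem_univ χ)]
      exact Nat.add_le_add_left (Finset.single_le_sum (f := fun ψ => n ψ ^ 2)
        (fun _ _ => Nat.zero_le _) (Finset.mem_erase.2 ⟨hne, Finset.mem_univ _⟩)) _
    have hnd : n χ = p := by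
      have := hn χ
      rw [hd1, e] at this
      exact_mod_cast this.symm
    rw [hnd, hone, hcod] at h2
    omega
  have hpd : ¬ p ∣ d := fun h => absurd (Nat.le_of_dvd hd0 h) (not_le.2 hdp)
  obtain ⟨x, hx⟩ := exists_prime_orderOf_dvd_card' (G := G) p ⟨d, hcod⟩
  set P := Subgroup.zpowers x with hP
  have hPc : Nat.card P = p := (Nat.card_zpowers x).trans hx
  have hPi : P.index = d := by
    refine Nat.eq_of_mul_eq_mul_left (n := Nat.card P) Nat.card_pos ?_
    rw [Subgroup.card_mul_index, hcod, hPc]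
  have hPp : IsPGroup p P := IsPGroup.of_card (n := 1) (by rw [hPc, pow_one])
  let S : Sylow p G := hPp.toSylow (by rwa [hPi])
  have hS : (S : Subgroup G) = P := IsPGroup.toSylow_coe _ _
  have hPn : P.Normal := by
    have h1 : Nat.card (Sylow p G) ∣ d := by
      rw [← hPi, ← hS]; exact Sylow.card_dvd_index S
    have h2 : Nat.card (Sylow p G) = 1 := by
      have h3 := card_sylow_modEq_one p G
      have h4 : Nat.card (Sylow p G) < p := (Nat.le_of_dvd hd0 h1).trans_lt hdp
      rw [Nat.ModEq, Nat.mod_eq_of_lt h4, Nat.mod_eq_of_lt hp.one_lt] at h3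
      exact h3
    haveI := (Nat.card_eq_one_iff_unique.1 h2).1
    rw [← hS]
    exact Sylow.normal_of_subsingleton S
  refine ⟨P, hPn, hPc, ?_, hdp⟩
  haveI := hPn
  haveI := Fintype.ofFinite P
  have hcomm : ∀ a b : P, a * b = b * a := fun a b => by
    haveI : IsCyclic P := isCyclic_of_prime_card hPc
    letI := IsCyclic.commGroup (α := P)
    exact mul_comm a b
  obtain ⟨θ, hθ⟩ := Blocks.exists_constituent (N := P) χ
  have hθ1 : (θ : P → ℂ) 1 = 1 := Chars.irr_apply_one_of_comm hcomm θ.2
  have hres := Chars.isCharacter_restrict (Chars.irr_isCharacter χ) P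
  obtain ⟨c, hc⟩ := Chars2.exists_multiplicities hres
  have hdeg := Chars2.clifford_degree χ.2 θ.2 hθ
  rw [hd1, hθ1, mul_one, hc θ] at hdeg
  set o := (Chars2.inertiaSub (θ : P → ℂ)).index with ho
  have hdeg' : d = o * c θ := by exact_mod_cast hdeg
  have hnorm : classInner (fun n : P => (χ : G → ℂ) n) (fun n : P => (χ : G → ℂ) n) =
      ((∑ φ : IrrCharacter P, c φ ^ 2 : ℕ) : ℂ) := by
    rw [Chars.classInner_eq_sum (Chars.isClassFunction_of_isCharacter hres), Nat.cast_sum]
    refine Finset.sum_congr rfl fun φ _ => ?_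
    rw [← Chars.classInner_conj_symm (fun n : P => (χ : G → ℂ) n) (φ : P → ℂ), hc, map_natCast,
      Nat.cast_pow, sq]
  have hle : ((∑ φ : IrrCharacter P, c φ ^ 2 : ℕ) : ℝ) * p ≤ (Nat.card G : ℝ) := by
    have h1 := congrArg Complex.re hnorm
    rw [Complex.natCast_re, Chars.classInner_def, hPc] at h1
    simp only [Complex.mul_conj] at h1
    rw [← Complex.ofReal_sum, ← Complex.ofReal_natCast, ← Complex.ofReal_inv, ← Complex.ofReal_mul,
      Complex.ofReal_re] at h1
    rw [← h1, mul_comm, ← mul_assoc, mul_inv_cancel₀ (Nat.cast_ne_zero.2 hp.ne_zero), one_mul]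
    have h2 : (∑ g : G, Complex.normSq ((χ : G → ℂ) g)) = (Nat.card G : ℝ) := by
      have h := Chars.classInner_self_irr χ.2
      rw [Chars.classInner_def, inv_mul_eq_iff_eq_mul₀ Chars.card_ne_zero, mul_one] at h
      simp only [Complex.mul_conj] at h
      rw [← Complex.ofReal_sum, ← Complex.ofReal_natCast] at h
      exact Complex.ofReal_inj.1 h
    rw [← h2, ← Finset.sum_subtype (Finset.univ.filter (· ∈ P)) (by simp)
      (fun g => Complex.normSq ((χ : G → ℂ) g))]
    exact Finset.sum_le_sum_of_subset_of_nonneg (Finset.subset_univ _) fun _ _ _ =>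
      Complex.normSq_nonneg _
  have hsum : (Chars2.orbitFinset (G := G) θ.2).card * c θ ^ 2 ≤ ∑ φ : IrrCharacter P, c φ ^ 2 := by
    refine le_trans (le_of_eq ?_) (Finset.sum_le_sum_of_subset
      (Finset.subset_univ (Chars2.orbitFinset (G := G) θ.2)))
    rw [Finset.sum_congr rfl (g := fun _ => c θ ^ 2) fun φ hφ => ?_, Finset.sum_const, smul_eq_mul]
    obtain ⟨g, hg⟩ := (Chars2.mem_orbitFinset θ.2).1 hφ
    have h := hc φ
    rw [← hg, Chars2.classInner_restrict_conjFun (Chars.isClassFunction_irr χ), hc θ] at h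
    rw [show c φ = c θ from (Nat.cast_injective h).symm]
  rw [Chars2.card_orbitFinset, ← ho] at hsum
  have hle' : (∑ φ : IrrCharacter P, c φ ^ 2) * p ≤ p * d := by rw [← hcod]; exact_mod_cast hle
  have hod : o * c θ ^ 2 ≤ o * c θ := by
    rw [← hdeg']
    exact hsum.trans (Nat.le_of_mul_le_mul_right (by rwa [mul_comm p d] at hle') hp.pos)
  have hc1 : c θ = 1 := by
    have hc0 : 0 < c θ := Nat.pos_of_ne_zero fun h => by rw [h, mul_zero] at hdeg'; omega
    have ho0 : 0 < o := Nat.pos_of_ne_zero fun h => by rw [h, zero_mul] at hdeg'; omega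
    have := Nat.le_of_mul_le_mul_left hod ho0
    have h2 : c θ * c θ ≤ c θ * 1 := by rwa [← sq, mul_one]
    have := Nat.le_of_mul_le_mul_left h2 hc0
    omega
  rw [hc1, mul_one] at hdeg'
  have hI : Chars2.inertiaSub (θ : P → ℂ) = P := by
    symm
    refine Subgroup.eq_of_le_of_card_ge (Chars2.le_inertiaSub (Chars.isClassFunction_irr θ)) ?_
    have h := Subgroup.card_mul_index (Chars2.inertiaSub (θ : P → ℂ))
    rw [← ho, ← hdeg', hcod] at h
    rw [hPc, Nat.eq_of_mul_eq_mul_right hd0 h]
  refine le_of_le_of_eq (fun g hg => ?_) hI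
  rw [Chars2.mem_inertiaSub]
  funext n
  rw [Chars2.conjFun_apply]
  refine congrArg (θ : P → ℂ) (Subtype.ext ?_)
  show g⁻¹ * (n : G) * g⁻¹⁻¹ = n
  rw [inv_inv, mul_assoc, Subgroup.mem_centralizer_iff.1 hg n n.2, inv_mul_cancel_left]

theorem prime_codegree_structure (χ : IrrCharacter G)
    (hfaith : ∀ g : G, (χ : G → ℂ) g = (χ : G → ℂ) 1 → g = 1) {p : ℕ} (hp : p.Prime)
    (hcod : Nat.card G = p * charDegree (χ : G → ℂ)) :
    (IsCyclic G ∧ Nat.card G = p) ∨
      ∃ H : Subgroup G, IsFrobeniusComplement H ∧ Nat.card ↥(frobeniusKernel H) = p := by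
  haveI := Fact.mk hp
  haveI := Fintype.ofFinite G
  obtain ⟨P, hPn, hPc, hPcen, hdp⟩ := prime_codegree_core χ hfaith hp hcod
  set d := charDegree (χ : G → ℂ) with hd
  have hd0 : 0 < d := charDegree_pos χ.2
  have hPi : P.index = d := by
    refine Nat.eq_of_mul_eq_mul_left (n := Nat.card P) Nat.card_pos ?_
    rw [Subgroup.card_mul_index, hcod, hPc]
  by_cases hd1 : d = 1
  · left
    have hG : Nat.card G = p := by rw [hcod, hd1, mul_one]
    exact ⟨isCyclic_of_prime_card hG, hG⟩
  right
  haveI := hPn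
  have hpd : ¬ p ∣ d := fun h => absurd (Nat.le_of_dvd hd0 h) (not_le.2 hdp)
  obtain ⟨H, hH⟩ := Subgroup.exists_left_complement'_of_coprime (N := P)
    (by rw [hPc, hPi]; exact (Nat.Prime.coprime_iff_not_dvd hp).2 hpd)
  have hHc : Nat.card H = d := by
    have := hH.card_mul
    rw [hPc, hcod, mul_comm p d] at this
    exact Nat.eq_of_mul_eq_mul_right hp.pos this
  have hdisj : ∀ a, a ∈ H → a ∈ P → a = 1 := fun a ha ha' =>
    Subgroup.disjoint_def.1 hH.disjoint ha ha'
  have hmul : ∀ g : G, ∃ h ∈ H, ∃ k ∈ P, h * k = g := fun g => by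
    obtain ⟨⟨⟨h, hh⟩, ⟨k, hk⟩⟩, e⟩ := (hH : Subgroup.IsComplement (H : Set G) (P : Set G)).2 g
    exact ⟨h, hh, k, hk, e⟩
  have hgen : ∀ k ∈ P, k ≠ 1 → ∀ h : G, h * k = k * h → h ∈ P := by
    intro k hk hk1 h he
    refine hPcen (Subgroup.mem_centralizer_iff.2 fun a ha => ?_)
    have hz : (⟨a, ha⟩ : P) ∈ Subgroup.zpowers (⟨k, hk⟩ : P) :=
      mem_zpowers_of_prime_card hPc fun e => hk1 (congrArg Subtype.val e)
    obtain ⟨j, hj⟩ := hz
    have hj' : k ^ j = a := by simpa using congrArg Subtype.val hj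
    rw [← hj']
    exact ((show Commute h k from he).symm.zpow_left j).eq
  refine ⟨H, ⟨fun e => hd1 (by rw [← hHc, e, Subgroup.card_bot]),
    fun e => hp.one_lt.ne' (by
      have h' : Nat.card G = d := by rw [← Subgroup.card_top, ← e, hHc]
      rw [hcod] at h'
      exact (Nat.mul_eq_right hd0.ne').1 h'), fun g hg => ?_⟩, ?_⟩
  · rw [eq_bot_iff]
    rintro a ⟨ha, ha'⟩
    replace ha' : a ∈ MulAut.conj g • H := ha'
    rw [Subgroup.mem_pointwise_smul_iff_inv_smul_mem, MulAut.smul_def,
      MulAut.inv_def, MulAut.conj_symm_apply] at ha'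
    rw [Subgroup.mem_bot]
    obtain ⟨h₀, hh₀, k, hk, rfl⟩ := hmul g
    set b := h₀⁻¹ * a * h₀ with hb
    have hbH : b ∈ H := H.mul_mem (H.mul_mem (H.inv_mem hh₀) ha) hh₀
    have hbk : k⁻¹ * b * k ∈ H := by
      rw [hb]; convert ha' using 1; group
    have hmem : b⁻¹ * (k⁻¹ * b * k) ∈ P := by
      rw [show b⁻¹ * (k⁻¹ * b * k) = (b⁻¹ * k⁻¹ * b) * k by group]
      exact P.mul_mem (by simpa using hPn.conj_mem _ (P.inv_mem hk) b⁻¹) hk
    have e := hdisj _ (H.mul_mem (H.inv_mem hbH) hbk) hmem
    rw [inv_mul_eq_one] at e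
    have hk1 : k ≠ 1 := fun hk1 => hg (by rw [hk1, mul_one]; exact hh₀)
    have hb1 : b = 1 := hdisj b hbH (hgen k hk hk1 b (by
      calc b * k = k * (k⁻¹ * b * k) := by group
        _ = k * b := by rw [← e]))
    rw [hb] at hb1
    have := congrArg (fun t => h₀ * t * h₀⁻¹) hb1
    simpa [mul_assoc] using this
  · have hker : frobeniusKernel H = (P : Set G) := by
      ext x
      constructor
      · intro hx
        by_contra hxP
        rcases hx with rfl | hx
        · exact hxP P.one_mem
        obtain ⟨h₀, hh₀, k, hk, e⟩ := hmul x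
        have hh₀1 : h₀ ≠ 1 := fun h1 => hxP (by rw [← e, h1, one_mul]; exact hk)
        let f : P → P := fun c => ⟨h₀⁻¹ * ((c : G) * h₀ * (c : G)⁻¹), by
          rw [← mul_assoc, ← mul_assoc]
          exact P.mul_mem (by simpa using hPn.conj_mem _ c.2 h₀⁻¹) (P.inv_mem c.2)⟩
        have hf : Function.Injective f := by
          intro a b hab
          have e' : (a : G) * h₀ * (a : G)⁻¹ = (b : G) * h₀ * (b : G)⁻¹ :=
            mul_left_cancel (congrArg Subtype.val hab)
          by_contra hne
          have hk1 : (b : G)⁻¹ * a ≠ 1 := fun h1 => hne (Subtype.ext (inv_mul_eq_one.1 h1).symm)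
          refine hh₀1 (hdisj h₀ hh₀ (hgen _ (P.mul_mem (P.inv_mem b.2) a.2) hk1 h₀ ?_))
          calc h₀ * ((b : G)⁻¹ * a) = (b : G)⁻¹ * ((b : G) * h₀ * (b : G)⁻¹) * a := by group
            _ = _ := by rw [← e']; group
        obtain ⟨c, hc⟩ := Finite.injective_iff_surjective.1 hf ⟨k, hk⟩
        refine hx (c : G) ?_
        rw [Subgroup.mem_pointwise_smul_iff_inv_smul_mem, MulAut.smul_def, MulAut.inv_def,
          MulAut.conj_symm_apply, ← e,
          show k = h₀⁻¹ * ((c : G) * h₀ * (c : G)⁻¹) from (congrArg Subtype.val hc).symm]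
        convert hh₀ using 1
        group
      · intro hx
        by_cases hx1 : x = 1
        · exact Or.inl hx1
        refine Or.inr fun g hg => ?_
        rw [Subgroup.mem_pointwise_smul_iff_inv_smul_mem, MulAut.smul_def, MulAut.inv_def,
          MulAut.conj_symm_apply] at hg
        have h1 := hdisj _ hg (by simpa using hPn.conj_mem x hx g⁻¹)
        have := congrArg (fun t => g * t * g⁻¹) h1
        exact hx1 (by simpa [mul_assoc] using this)
    rw [hker]
    exact hPc

theorem perfect_iff_no_prime_codegree [Nontrivial G] :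
    commutator G = ⊤ ↔ ∀ χ : IrrCharacter G,
      ¬ (Nat.card G / (Nat.card {g : G // (χ : G → ℂ) g = (χ : G → ℂ) 1} *
        charDegree (χ : G → ℂ))).Prime := by
  classical
  haveI := Fintype.ofFinite G
  constructor
  · intro hperf χ hpr
    set K := Chars.charKer (Chars.irr_isCharacter χ) with hK
    haveI : K.Normal := Chars.charKer_normal _
    obtain ⟨χ', hχ'⟩ := Blocks.exists_descend (N := K) χ.2 fun n hn => hn
    haveI := Fintype.ofFinite (G ⧸ K)
    have hfaith : ∀ q : G ⧸ K, (χ' : G ⧸ K → ℂ) q = (χ' : G ⧸ K → ℂ) 1 → q = 1 := by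
      intro q hq
      obtain ⟨g, rfl⟩ := QuotientGroup.mk_surjective q
      rw [QuotientGroup.eq_one_iff, hK, Chars.mem_charKer, hχ']
      exact hq
    have hdeg : charDegree (χ : G → ℂ) = charDegree (χ' : G ⧸ K → ℂ) := by
      apply Nat.cast_injective (R := ℂ)
      rw [charDegree_cast (Chars.irr_isCharacter χ), charDegree_cast (Chars.irr_isCharacter χ'), hχ']
      rfl
    set n := Nat.card (G ⧸ K) / charDegree (χ' : G ⧸ K → ℂ) with hn
    have heq : Nat.card G / (Nat.card {g : G // (χ : G → ℂ) g = (χ : G → ℂ) 1} *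
        charDegree (χ : G → ℂ)) = n := by
      rw [show Nat.card {g : G // (χ : G → ℂ) g = (χ : G → ℂ) 1} = Nat.card K from rfl,
        ← Nat.div_div_eq_div_mul, Subgroup.card_eq_card_quotient_mul_card_subgroup K,
        Nat.mul_div_cancel _ Nat.card_pos, hdeg]
    rw [heq] at hpr
    have hcod : Nat.card (G ⧸ K) = n * charDegree (χ' : G ⧸ K → ℂ) :=
      (Nat.div_mul_cancel (charDegree_dvd_card χ'.2)).symm
    obtain ⟨P, hPn, hPc, hPcen, hdp⟩ := prime_codegree_core χ' hfaith hpr hcod
    haveI := hPn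
    haveI : Fact n.Prime := ⟨hpr⟩
    -- the conjugation action on `P` has abelian image
    haveI : IsCyclic P := isCyclic_of_prime_card hPc
    let φ : G ⧸ K →* MulAut P := MulAut.conjNormal
    have hker : φ.ker ≤ P := fun g hg => hPcen (Subgroup.mem_centralizer_iff.2 fun a ha => by
      have h := congrArg (fun e : MulAut P => (e ⟨a, ha⟩ : G ⧸ K)) (MonoidHom.mem_ker.1 hg)
      simp only [φ, MulAut.conjNormal_apply, MulAut.one_apply] at h
      exact (mul_inv_eq_iff_eq_mul.1 h).symm)
    have hcomm : ∀ a b : MulAut P, a * b = b * a := fun a b =>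
      (IsCyclic.mulAutMulEquiv P).injective (by rw [map_mul, map_mul, mul_comm])
    have hle : commutator (G ⧸ K) ≤ P := by
      refine le_trans ?_ hker
      rw [commutator_def, Subgroup.commutator_le]
      intro a _ b _
      rw [MonoidHom.mem_ker, map_commutatorElement, commutatorElement_eq_one_iff_mul_comm]
      exact hcomm _ _
    have htop : commutator (G ⧸ K) = ⊤ := by
      rw [commutator_def, ← Subgroup.map_top_of_surjective (QuotientGroup.mk' K)
        (QuotientGroup.mk'_surjective K), ← Subgroup.map_commutator, ← commutator_def, hperf]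
    have hPtop : P = ⊤ := top_le_iff.1 (htop ▸ hle)
    have hcommP : ∀ a b : G ⧸ K, a * b = b * a := fun a b => by
      letI := IsCyclic.commGroup (α := P)
      exact congrArg Subtype.val
        (mul_comm (⟨a, hPtop ▸ Subgroup.mem_top a⟩ : P) ⟨b, hPtop ▸ Subgroup.mem_top b⟩)
    have hbot : commutator (G ⧸ K) = ⊥ := by
      rw [eq_bot_iff, commutator_def, Subgroup.commutator_le]
      intro a _ b _
      rw [Subgroup.mem_bot, commutatorElement_eq_one_iff_mul_comm]
      exact hcommP a b
    rw [hbot] at htop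
    have hcard : Nat.card (G ⧸ K) = 1 := by
      rw [← Subgroup.card_top, ← htop, Subgroup.card_bot]
    rw [hPtop, Subgroup.card_top, hcard] at hPc
    exact hpr.one_lt.ne hPc
  · intro hall
    by_contra hne
    haveI hnt : Nontrivial (Abelianization G) :=
      (QuotientGroup.nontrivial_iff (N := commutator G)).2 hne
    haveI : Finite (Abelianization G) := inferInstanceAs (Finite (G ⧸ commutator G))
    obtain ⟨p, hp, hpd⟩ := Nat.exists_prime_and_dvd (n := Nat.card (Abelianization G))
      Finite.one_lt_card.ne'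
    haveI := Fact.mk hp
    obtain ⟨a, ha⟩ := exists_prime_orderOf_dvd_card' (G := Abelianization G) p hpd
    have ha1 : a ≠ 1 := fun e => hp.one_lt.ne (by rw [← ha, e, orderOf_one])
    obtain ⟨φ, hφ⟩ := CommGroup.exists_apply_ne_one_of_hasEnoughRootsOfUnity
      (Abelianization G) ℂ ha1
    let ψ : G →* ℂˣ := φ.comp Abelianization.of
    -- cut the image down to prime order
    haveI : Finite ψ.range := Finite.of_surjective ψ.rangeRestrict ψ.rangeRestrict_surjective
    obtain ⟨b, hb⟩ := QuotientGroup.mk'_surjective (commutator G) a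
    have hψb : ψ b ≠ 1 := by
      show φ (Abelianization.of b) ≠ 1
      rw [show Abelianization.of b = a from hb]
      exact hφ
    obtain ⟨q, hq, hqd⟩ := Nat.exists_prime_and_dvd (n := Nat.card ψ.range) (by
      intro e
      exact hψb (congrArg Subtype.val
        ((Nat.card_eq_one_iff_unique.1 e).1.elim (ψ.rangeRestrict b) 1)))
    obtain ⟨m, hm⟩ := hqd
    have hm0 : m ≠ 0 := fun h => Nat.card_pos.ne' (hm.trans (by rw [h, mul_zero]))
    let ψ' : G →* ℂˣ := (powMonoidHom m).comp ψ
    haveI : IsCyclic ψ.range := subgroup_units_cyclic _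
    obtain ⟨⟨_, ⟨g, rfl⟩⟩, hgen⟩ := IsCyclic.exists_generator (α := ψ.range)
    have hordg : orderOf (ψ g) = Nat.card ψ.range := by
      rw [← orderOf_eq_card_of_forall_mem_zpowers hgen, ← Subgroup.orderOf_coe]
    have hrange : Nat.card ψ'.range = q := by
      have hord : orderOf (ψ' g) = q := by
        show orderOf ((ψ g) ^ m) = q
        rw [orderOf_pow' _ hm0, hordg, hm, Nat.gcd_eq_right (dvd_mul_left m q),
          Nat.mul_div_cancel _ (Nat.pos_of_ne_zero hm0)]
      have : ψ'.range = Subgroup.zpowers (ψ' g) := by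
        refine le_antisymm ?_ (Subgroup.zpowers_le.2 ⟨g, rfl⟩)
        rintro _ ⟨x, rfl⟩
        obtain ⟨j, hj⟩ := hgen ⟨ψ x, x, rfl⟩
        refine ⟨j, ?_⟩
        have hj' : ψ g ^ j = ψ x := by simpa using congrArg Subtype.val hj
        show (ψ g ^ m) ^ j = (ψ x) ^ m
        rw [← hj', ← zpow_natCast, ← zpow_natCast (ψ g ^ j), zpow_comm]
      rw [this, Nat.card_zpowers, hord]
    refine hall ⟨_, Chars.isIrrCharacter_hom ψ'⟩ ?_
    have hdeg : charDegree (fun x : G => ((ψ' x : ℂˣ) : ℂ)) = 1 := by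
      apply Nat.cast_injective (R := ℂ)
      rw [charDegree_cast (Chars.isCharacter_of_isIrr (Chars.isIrrCharacter_hom ψ'))]
      simp
    have hK : Nat.card {x : G // ((ψ' x : ℂˣ) : ℂ) = ((ψ' 1 : ℂˣ) : ℂ)} = Nat.card ψ'.ker :=
      Nat.card_congr (Equiv.subtypeEquivRight fun x => by
        rw [MonoidHom.mem_ker, map_one, Units.ext_iff])
    show (Nat.card G / (Nat.card {x : G // ((ψ' x : ℂˣ) : ℂ) = ((ψ' 1 : ℂˣ) : ℂ)} *
      charDegree (fun x : G => ((ψ' x : ℂˣ) : ℂ)))).Prime
    rw [hdeg, hK, mul_one, ← Subgroup.index_mul_card ψ'.ker, Nat.mul_div_cancel _ Nat.card_pos,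
      Subgroup.index_ker, hrange]
    exact hq

end Cfsg.Agent.BlockChar
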