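import Cfsg.Agent.Blocks.Basic
import Cfsg.Agent.Chars.Eigen
import Cfsg.Agent.Chars.Linear
import Cfsg.Agent.DegreeGraph.Values
import Cfsg.Agent.Chars2.Clifford
import Cfsg.Prelude.Def_Transfer
import Mathlib.GroupTheory.Nilpotent

/-!
# An irreducible character which is nonzero on two classes only
-/

set_option autoImplicit false
set_option linter.unusedSectionVars false
set_option linter.style.haveILetI false

namespace Cfsg.Agent.BlockChar

open Cfsg Cfsg.Agent
open scoped ComplexConjugate commutatorElement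

universe u

variable {G : Type u} [Group G] [Finite G]

/-- The shape of a group with a character nonzero on two classes only. -/
structure TwoClass (χ : IrrCharacter G) (N : Subgroup G) (c : G) (k : ℕ) : Prop where
  normal : N.Normal
  mem : c ∈ N
  ne_one : c ≠ 1
  support : ∀ g : G, (χ : G → ℂ) g ≠ 0 ↔ g ∈ N
  fuse : ∀ x ∈ N, x ≠ 1 → IsConj c x
  kills : ∀ ψ : IrrCharacter G, ψ ≠ χ → ∀ x ∈ N, (ψ : G → ℂ) x = (ψ : G → ℂ) 1
  apply_one : (χ : G → ℂ) 1 = ((k * (Nat.card N - 1) : ℕ) : ℂ)
  apply_mem : ∀ x ∈ N, x ≠ 1 → (χ : G → ℂ) x = -(k : ℂ)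
  card_eq : Nat.card G = k ^ 2 * (Nat.card N - 1) * Nat.card N

theorem exists_twoClass (hG : 2 < Nat.card G) {χ : IrrCharacter G}
    (hχ : Nat.card {C : ConjClasses G // ∃ g ∈ C.carrier, (χ : G → ℂ) g ≠ 0} = 2) :
    ∃ (N : Subgroup G) (c : G) (k : ℕ), TwoClass χ N c k := by
  classical
  haveI := Fintype.ofFinite G
  have hone : (χ : G → ℂ) 1 ≠ 0 := Chars.irr_apply_one_ne_zero χ.2
  have hcl := Chars.isClassFunction_irr χ
  have hconj : ∀ {a b : G}, IsConj a b → (χ : G → ℂ) a = (χ : G → ℂ) b := by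
    rintro a b h
    obtain ⟨x, rfl⟩ := isConj_iff.1 h
    exact (hcl a x).symm
  obtain ⟨C₁, C₂, hne, hall⟩ := Nat.card_eq_two_iff.1 hχ
  have hmem : ∀ g : G, (χ : G → ℂ) g ≠ 0 →
      ConjClasses.mk g = C₁.1 ∨ ConjClasses.mk g = C₂.1 := by
    intro g hg
    have h : (⟨ConjClasses.mk g, g, ConjClasses.mem_carrier_mk, hg⟩ :
        {C : ConjClasses G // ∃ g ∈ C.carrier, (χ : G → ℂ) g ≠ 0}) ∈
        ({C₁, C₂} : Set _) := hall ▸ Set.mem_univ _
    rcases h with h | h
    · exact Or.inl (congrArg Subtype.val h)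
    · exact Or.inr (congrArg Subtype.val (Set.mem_singleton_iff.1 h))
  obtain ⟨C, hC⟩ : ∃ C : {C : ConjClasses G // ∃ g ∈ C.carrier, (χ : G → ℂ) g ≠ 0},
      C.1 ≠ ConjClasses.mk 1 := by
    by_contra h
    push Not at h
    exact hne (Subtype.ext ((h C₁).trans (h C₂).symm))
  obtain ⟨c, hcC, hc0⟩ := C.2
  rw [ConjClasses.mem_carrier_iff_mk_eq] at hcC
  have hc1 : c ≠ 1 := fun h => hC (by rw [← hcC, h])
  have hcases : ∀ g : G, (χ : G → ℂ) g ≠ 0 → g = 1 ∨ IsConj c g := by
    intro g hg
    by_contra h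
    push Not at h
    have h1 : ConjClasses.mk g ≠ ConjClasses.mk 1 := fun e =>
      h.1 (isConj_one_left.1 (ConjClasses.mk_eq_mk_iff_isConj.1 e))
    have h2 : ConjClasses.mk g ≠ ConjClasses.mk c := fun e =>
      h.2 (ConjClasses.mk_eq_mk_iff_isConj.1 e).symm
    rcases hmem g hg with a | a <;> rcases hmem 1 hone with b | b <;>
      rcases hmem c hc0 with d | d <;>
      first
        | exact h1 (a.trans b.symm)
        | exact h2 (a.trans d.symm)
        | exact hC (hcC.symm.trans (d.trans b.symm))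
  set S := Finset.univ.filter fun g => IsConj c g with hS
  have hcS : c ∈ S := Finset.mem_filter.2 ⟨Finset.mem_univ c, IsConj.refl c⟩
  have h1S : (1 : G) ∉ S := fun h => hc1 (isConj_one_left.1 (Finset.mem_filter.1 h).2)
  have hsumφ : ∀ f : G → ℂ, IsClassFunction G f →
      ∑ g : G, (χ : G → ℂ) g * f g =
        (χ : G → ℂ) 1 * f 1 + (S.card : ℂ) * ((χ : G → ℂ) c * f c) := by
    intro f hf
    rw [← Finset.sum_subset (Finset.subset_univ (insert 1 S)) fun g _ hg => ?_,
      Finset.sum_insert h1S, Finset.sum_congr rfl fun g hg => ?_, Finset.sum_const, nsmul_eq_mul]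
    · obtain ⟨x, rfl⟩ := isConj_iff.1 (Finset.mem_filter.1 hg).2
      rw [hcl c x, hf c x]
    · by_contra h
      rcases hcases g (fun e => h (by rw [e, zero_mul])) with rfl | hcg
      · exact hg (Finset.mem_insert_self _ _)
      · exact hg (Finset.mem_insert_of_mem (Finset.mem_filter.2 ⟨Finset.mem_univ _, hcg⟩))
  have hinner : ∀ ψ : IrrCharacter G, (χ : G → ℂ) 1 * conj ((ψ : G → ℂ) 1) +
      (S.card : ℂ) * ((χ : G → ℂ) c * conj ((ψ : G → ℂ) c)) =
        if χ = ψ then (Nat.card G : ℂ) else 0 := by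
    intro ψ
    have h := Chars.classInner_irrCharacter χ ψ
    rw [Chars.classInner_def, hsumφ _ (fun g x => by
      show conj _ = conj _
      rw [Chars.isClassFunction_irr ψ g x]), inv_mul_eq_iff_eq_mul₀ Chars.card_ne_zero] at h
    rw [h, mul_ite, mul_one, mul_zero]
  have hS0 : (S.card : ℂ) ≠ 0 := Nat.cast_ne_zero.2 (Finset.card_pos.2 ⟨c, hcS⟩).ne'
  have hne1 : χ ≠ Blocks.oneChar G := by
    intro e
    have hv : ∀ g : G, (χ : G → ℂ) g ≠ 0 := fun g => by rw [e]; exact one_ne_zero
    have huniv : (Finset.univ : Finset G) = insert 1 S := Finset.ext fun g => by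
      simp only [Finset.mem_univ, true_iff]
      rcases hcases g (hv g) with rfl | h
      · exact Finset.mem_insert_self _ _
      · exact Finset.mem_insert_of_mem (Finset.mem_filter.2 ⟨Finset.mem_univ _, h⟩)
    have hcard := congrArg Finset.card huniv
    rw [Finset.card_univ, ← Nat.card_eq_fintype_card, Finset.card_insert_of_notMem h1S] at hcard
    have hdvd : S.card ∣ S.card + 1 := by
      rw [← hcard, hS, Chars.card_filter_isConj]
      exact Subgroup.index_dvd_card _
    have h1 : S.card = 1 := Nat.dvd_one.1 ((Nat.dvd_add_right (dvd_refl _)).1 hdvd)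
    omega
  have hA : (χ : G → ℂ) 1 + (S.card : ℂ) * (χ : G → ℂ) c = 0 := by
    have h := hinner (Blocks.oneChar G)
    rw [if_neg hne1] at h
    simpa [Blocks.oneChar] using h
  have hkill : ∀ ψ : IrrCharacter G, ψ ≠ χ → (ψ : G → ℂ) c = (ψ : G → ℂ) 1 := by
    intro ψ hψ
    have h := hinner ψ
    rw [if_neg hψ.symm] at h
    refine (RingHom.injective (starRingEnd ℂ)) ?_
    have h2 : (χ : G → ℂ) 1 * (conj ((ψ : G → ℂ) c) - conj ((ψ : G → ℂ) 1)) = 0 := by
      linear_combination -h + conj ((ψ : G → ℂ) c) * hA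
    exact sub_eq_zero.1 ((mul_eq_zero.1 h2).resolve_left hone)
  -- the subgroup
  let N : Subgroup G := ⨅ ψ : {ψ : IrrCharacter G // ψ ≠ χ},
    Chars.charKer (Chars.irr_isCharacter ψ.1)
  have hNn : N.Normal := Subgroup.normal_iInf_normal fun ψ => Chars.charKer_normal _
  have hmemN : ∀ x, x ∈ N ↔ ∀ ψ : IrrCharacter G, ψ ≠ χ → (ψ : G → ℂ) x = (ψ : G → ℂ) 1 := by
    intro x
    simp [N, Subgroup.mem_iInf]
  have hcN : c ∈ N := (hmemN c).2 hkill
  have hfuse : ∀ x ∈ N, x ≠ 1 → IsConj c x := by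
    intro x hx hx1
    have h := Chars.column_orth (G := G) 1 x
    rw [if_neg (fun e => hx1 (isConj_one_right.1 e))] at h
    have hx0 : (χ : G → ℂ) x ≠ 0 := by
      intro h0
      refine Chars.irr_apply_one_ne_zero (Blocks.oneChar G).2 ?_
      have hsum : ∑ ψ : IrrCharacter G, (if ψ = χ then 0 else (ψ : G → ℂ) 1 * conj ((ψ : G → ℂ) 1)) =
          0 := by
        refine Eq.trans ?_ h
        refine Finset.sum_congr rfl fun ψ _ => ?_
        split_ifs with e
        · rw [e, h0, map_zero, mul_zero]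
        · rw [(hmemN x).1 hx ψ e]
      choose d hd0 hd using fun ψ : IrrCharacter G => Chars.exists_irr_apply_one_eq ψ.2
      have hnat : ∑ ψ : IrrCharacter G, (if ψ = χ then 0 else d ψ * d ψ) = 0 := by
        apply Nat.cast_injective (R := ℂ)
        rw [Nat.cast_zero, ← hsum, Nat.cast_sum]
        refine Finset.sum_congr rfl fun ψ _ => ?_
        split_ifs
        · simp
        · rw [hd, map_natCast, Nat.cast_mul]
      have := (Finset.sum_eq_zero_iff.1 hnat) (Blocks.oneChar G) (Finset.mem_univ _)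
      rw [if_neg hne1.symm, mul_self_eq_zero] at this
      rw [hd, this, Nat.cast_zero]
    exact (hcases x hx0).resolve_left hx1
  have hN : ∀ g, (χ : G → ℂ) g ≠ 0 ↔ g ∈ N := by
    intro g
    constructor
    · intro hg
      rcases hcases g hg with rfl | h
      · exact N.one_mem
      · obtain ⟨x, rfl⟩ := isConj_iff.1 h
        exact hNn.conj_mem c hcN x
    · intro hg
      by_cases h1 : g = 1
      · rwa [h1]
      · rw [← hconj (hfuse g hg h1)]; exact hc0
  have hcard : S.card = Nat.card N - 1 := by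
    haveI := Fintype.ofFinite N
    have h : insert 1 S = Finset.univ.filter (· ∈ N) := Finset.ext fun g => by
      simp only [Finset.mem_insert, hS, Finset.mem_filter, Finset.mem_univ, true_and]
      constructor
      · rintro (rfl | h)
        · exact N.one_mem
        · obtain ⟨x, rfl⟩ := isConj_iff.1 h
          exact hNn.conj_mem c hcN x
      · exact fun hg => (em (g = 1)).imp id (hfuse g hg)
    have h3 : (Finset.univ.filter (· ∈ N)).card = Nat.card N := by
      rw [Nat.card_eq_fintype_card]; exact (Fintype.card_subtype _).symm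
    have h2 := congrArg Finset.card h
    rw [Finset.card_insert_of_notMem h1S, h3] at h2
    exact (Nat.sub_eq_of_eq_add h2.symm).symm
  obtain ⟨d, -, hd⟩ := Chars.exists_irr_apply_one_eq χ.2
  have hdvd : S.card ∣ d := by
    refine Chars.dvd_of_isIntegral_div (Finset.card_pos.2 ⟨c, hcS⟩) ?_
    have : (d : ℂ) / S.card = -(χ : G → ℂ) c := by
      rw [div_eq_iff hS0, ← hd]
      linear_combination hA
    rw [this]
    exact (DegreeGraph.isIntegral_value (Chars.irr_isCharacter χ) c).neg
  obtain ⟨k, hk⟩ := hdvd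
  have hcval : (χ : G → ℂ) c = -(k : ℂ) := by
    rw [hd, hk, Nat.cast_mul, ← mul_add] at hA
    linear_combination (mul_eq_zero.1 hA).resolve_left hS0
  refine ⟨N, c, k, hNn, hcN, hc1, hN, hfuse, fun ψ hψ x hx => (hmemN x).1 hx ψ hψ, ?_, ?_, ?_⟩
  · rw [hd, hk, hcard, mul_comm]
  · intro x hx hx1
    rw [← hconj (hfuse x hx hx1), hcval]
  · have h := hinner χ
    rw [if_pos rfl, hd, hcval, hk, map_neg, map_natCast, map_natCast] at h
    have h' : Nat.card G = k ^ 2 * S.card * (S.card + 1) := by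
      apply Nat.cast_injective (R := ℂ)
      rw [← h]
      push_cast
      ring
    rw [h', hcard, Nat.sub_add_cancel Nat.card_pos]

namespace TwoClass

variable {χ : IrrCharacter G} {N : Subgroup G} {c : G} {k : ℕ} (h : TwoClass χ N c k)

include h

theorem two_le : 2 ≤ Nat.card N := by
  haveI : Nontrivial N := ⟨⟨⟨c, h.mem⟩, 1, fun e => h.ne_one (congrArg Subtype.val e)⟩⟩
  exact Finite.one_lt_card

theorem k_pos : 0 < k := by
  rcases Nat.eq_zero_or_pos k with rfl | hk
  · have h0 := Chars.irr_apply_one_ne_zero χ.2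
    rw [h.apply_one] at h0
    simp at h0
  · exact hk

theorem faithful {g : G} (hg : (χ : G → ℂ) g = (χ : G → ℂ) 1) : g = 1 := by
  by_contra hg1
  have hN : g ∈ N := (h.support g).1 (hg ▸ Chars.irr_apply_one_ne_zero χ.2)
  rw [h.apply_mem g hN hg1, h.apply_one] at hg
  have : ((k + k * (Nat.card N - 1) : ℕ) : ℂ) = 0 := by push_cast at hg ⊢; linear_combination -hg
  rw [Nat.cast_eq_zero] at this
  have := h.k_pos
  omega

theorem eq_of_faithful {ψ : IrrCharacter G}
    (hψ : ∀ g : G, (ψ : G → ℂ) g = (ψ : G → ℂ) 1 → g = 1) : ψ = χ := by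
  by_contra hne
  exact h.ne_one (hψ c (h.kills ψ hne c h.mem))

theorem isConj_mul {x : G} (hx : x ∉ N) {n : G} (hn : n ∈ N) : IsConj x (x * n) := by
  classical
  haveI := Fintype.ofFinite G
  haveI := h.normal
  by_contra hne
  have h0 := Chars.column_orth (G := G) x (x * n)
  rw [if_neg hne] at h0
  have hterm : ∀ ψ : IrrCharacter G, (ψ : G → ℂ) x * conj ((ψ : G → ℂ) (x * n)) =
      ((Complex.normSq ((ψ : G → ℂ) x) : ℝ) : ℂ) := by
    intro ψ
    rw [← Complex.mul_conj]
    by_cases hψ : ψ = χ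
    · subst hψ
      rw [not_ne_iff.1 (mt (h.support x).1 hx), zero_mul, zero_mul]
    · congr 2
      have hxn : x * n * x⁻¹ ∈ N := h.normal.conj_mem n hn x
      rw [show x * n = (x * n * x⁻¹) * x by group,
        Chars.apply_mul_of_mem_charKer (Chars.irr_isCharacter ψ) x (h.kills ψ hψ _ hxn)]
  rw [Finset.sum_congr rfl fun ψ _ => hterm ψ, ← Complex.ofReal_sum, Complex.ofReal_eq_zero,
    Finset.sum_eq_zero_iff_of_nonneg fun ψ _ => Complex.normSq_nonneg _] at h0
  have := h0 (Blocks.oneChar G) (Finset.mem_univ _)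
  simp [Blocks.oneChar] at this

theorem le_of_normal (K : Subgroup G) [K.Normal] (hK : K ≠ ⊥) : N ≤ K := by
  obtain ⟨x, hx, hx1⟩ := (Subgroup.bot_or_exists_ne_one K).resolve_left hK
  intro n hn
  by_cases hxN : x ∈ N
  · by_cases hn1 : n = 1
    · rw [hn1]; exact K.one_mem
    · obtain ⟨g, hg⟩ := isConj_iff.1 ((h.fuse x hxN hx1).symm.trans (h.fuse n hn hn1))
      rw [← hg]
      exact Subgroup.Normal.conj_mem inferInstance x hx g
  · obtain ⟨g, hg⟩ := isConj_iff.1 (h.isConj_mul hxN hn)
    have := K.mul_mem (K.inv_mem hx) (Subgroup.Normal.conj_mem inferInstance x hx g)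
    rwa [hg, inv_mul_cancel_left] at this

theorem elementary : ∃ p : ℕ, p.Prime ∧ IsPGroup p N ∧ IsElementaryAbelian p N := by
  haveI := h.normal
  obtain ⟨p, hp, hpd⟩ := Nat.exists_prime_and_dvd (n := Nat.card N) (by have := h.two_le; omega)
  haveI := Fact.mk hp
  obtain ⟨z, hz⟩ := exists_prime_orderOf_dvd_card' p hpd
  have hord : ∀ x ∈ N, x ≠ 1 → orderOf x = p := by
    intro x hx hx1
    have hz1 : (z : G) ≠ 1 := by
      intro e
      have hz' : z = 1 := Subtype.ext e
      rw [hz', orderOf_one] at hz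
      exact hp.one_lt.ne hz
    obtain ⟨g, hg⟩ := isConj_iff.1 ((h.fuse z z.2 hz1).symm.trans (h.fuse x hx hx1))
    rw [← hg, ← hz, ← Subgroup.orderOf_coe z]
    exact orderOf_injective (MulAut.conj g).toMonoidHom (MulAut.conj g).injective _
  have hpow : ∀ a ∈ N, a ^ p = 1 := fun a ha => by
    by_cases ha1 : a = 1
    · rw [ha1, one_pow]
    · rw [← hord a ha ha1]; exact pow_orderOf_eq_one a
  have hP : IsPGroup p N := fun a => ⟨1, Subtype.ext (by simpa using hpow a a.2)⟩
  refine ⟨p, hp, hP, ⟨⟨fun a b => ?_⟩⟩, hpow⟩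
  haveI : Nontrivial N := ⟨⟨⟨c, h.mem⟩, 1, fun e => h.ne_one (congrArg Subtype.val e)⟩⟩
  obtain ⟨w, hw, hw1⟩ := (Subgroup.bot_or_exists_ne_one (Subgroup.center N)).resolve_left
    (Subgroup.nontrivial_iff_ne_bot _ |>.1 hP.center_nontrivial)
  have hw1' : (w : G) ≠ 1 := fun e => hw1 (Subtype.ext e)
  have hcomm : ∀ a ∈ N, ∀ b ∈ N, a * b = b * a := by
    intro a ha b hb
    by_cases ha1 : a = 1
    · rw [ha1, one_mul, mul_one]
    obtain ⟨g, rfl⟩ := isConj_iff.1 ((h.fuse w w.2 hw1').symm.trans (h.fuse a ha ha1))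
    have hb' : g⁻¹ * b * g ∈ N := by simpa using h.normal.conj_mem b hb g⁻¹
    have e : g⁻¹ * b * g * (w : G) = (w : G) * (g⁻¹ * b * g) :=
      congrArg Subtype.val (Subgroup.mem_center_iff.1 hw ⟨_, hb'⟩)
    calc g * w * g⁻¹ * b = g * ((w : G) * (g⁻¹ * b * g)) * g⁻¹ := by group
      _ = g * (g⁻¹ * b * g * w) * g⁻¹ := by rw [e]
      _ = _ := by group
  exact Subtype.ext (hcomm a a.2 b b.2)

theorem prime_to (p : ℕ) [Fact p.Prime] (hP : IsPGroup p N) : ¬ p ∣ Nat.card N - 1 := by
  intro hd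
  obtain ⟨e, he⟩ := hP.exists_card_eq
  have h2 := h.two_le
  have he0 : e ≠ 0 := by rintro rfl; rw [pow_zero] at he; omega
  have hdN : p ∣ Nat.card N := he ▸ dvd_pow_self p he0
  have := Nat.dvd_sub hdN hd
  rw [Nat.sub_sub_self (by omega)] at this
  exact (Fact.out : p.Prime).not_dvd_one this

theorem dvd_deg (p : ℕ) [Fact p.Prime] (hP : IsPGroup p N) {r : ℕ} [Fact r.Prime] (hr : r ≠ p)
    (R : Sylow r G) : Nat.card R ∣ k * (Nat.card N - 1) := by
  classical
  haveI := Fintype.ofFinite G
  haveI : Fintype (R : Subgroup G) := Fintype.ofFinite _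
  obtain ⟨n, hn⟩ := Chars.exists_classInner_eq_nat
    (Chars.isCharacter_restrict (Chars.irr_isCharacter χ) (R : Subgroup G))
    (Chars.irr_isCharacter (Blocks.oneChar (R : Subgroup G)))
  rw [Chars.classInner_def, Finset.sum_eq_single (1 : (R : Subgroup G)), OneMemClass.coe_one,
    h.apply_one, inv_mul_eq_iff_eq_mul₀ Chars.card_ne_zero] at hn
  · have h1 : conj ((Blocks.oneChar (R : Subgroup G)).1 1) = 1 := by
      simp [Blocks.oneChar]
    rw [h1, mul_one] at hn
    exact ⟨n, Nat.cast_injective (R := ℂ) (hn.trans (Nat.cast_mul _ _).symm)⟩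
  · intro x _ hx
    have hxN : (x : G) ∉ N := by
      intro hxN
      obtain ⟨i, hi⟩ := R.isPGroup' x
      obtain ⟨j, hj⟩ := hP ⟨x, hxN⟩
      have hi' : (x : G) ^ r ^ i = 1 := by simpa using congrArg Subtype.val hi
      have hj' : (x : G) ^ p ^ j = 1 := by simpa using congrArg Subtype.val hj
      refine hx (Subtype.ext (orderOf_eq_one_iff.1 (Nat.eq_one_of_dvd_coprimes
        (Nat.Coprime.pow i j ((Nat.coprime_primes (Fact.out : r.Prime) Fact.out).2 hr))
        (orderOf_dvd_of_pow_eq_one hi') (orderOf_dvd_of_pow_eq_one hj'))))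
    rw [not_ne_iff.1 (mt (h.support x).1 hxN), zero_mul]
  · simp

theorem k_primePow (p : ℕ) [Fact p.Prime] (hP : IsPGroup p N) : ∃ e : ℕ, k = p ^ e := by
  refine ⟨_, Nat.eq_prime_pow_of_unique_prime_dvd h.k_pos.ne' fun {r} hr hrk => ?_⟩
  by_contra hne
  haveI := Fact.mk hr
  obtain ⟨R⟩ := (inferInstance : Nonempty (Sylow r G))
  have h2 := h.two_le
  have hk := h.k_pos
  have hd := h.dvd_deg p hP hne R
  rw [Sylow.card_eq_multiplicity] at hd
  have h3 := (Nat.Prime.pow_dvd_iff_le_factorization hr (Nat.mul_ne_zero hk.ne' (by omega))).1 hd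
  rw [h.card_eq, Nat.factorization_mul (Nat.mul_ne_zero (by positivity) (by omega)) (by omega),
    Nat.factorization_mul (by positivity) (by omega), Nat.factorization_pow,
    Nat.factorization_mul hk.ne' (by omega)] at h3
  simp only [Finsupp.coe_add, Finsupp.coe_smul, Pi.add_apply, Pi.smul_apply, smul_eq_mul] at h3
  have := hr.factorization_pos_of_dvd hk.ne' hrk
  omega

theorem card_centralizer {x : G} (hx : x ∈ N) (hx1 : x ≠ 1) :
    Nat.card (Subgroup.centralizer ({x} : Set G)) = k ^ 2 * Nat.card N := by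
  classical
  haveI := Fintype.ofFinite G
  have hcard : (Finset.univ.filter fun g => IsConj x g) =
      (Finset.univ.filter (· ∈ N)).erase 1 := Finset.ext fun g => by
    simp only [Finset.mem_filter, Finset.mem_univ, true_and, Finset.mem_erase]
    constructor
    · intro hg
      obtain ⟨a, rfl⟩ := isConj_iff.1 hg
      exact ⟨fun e => hx1 (by simpa using e), h.normal.conj_mem x hx a⟩
    · exact fun hg => (h.fuse x hx hx1).symm.trans (h.fuse g hg.2 hg.1)
  have h1 := congrArg Finset.card hcard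
  haveI := Fintype.ofFinite N
  rw [Chars.card_filter_isConj, Finset.card_erase_of_mem (by simp), ← Fintype.card_subtype,
    ← Nat.card_eq_fintype_card, show Nat.card {x // x ∈ N} = Nat.card N from rfl] at h1
  have h3 := Subgroup.card_mul_index (Subgroup.centralizer ({x} : Set G))
  rw [h1, h.card_eq] at h3
  have h2 := h.two_le
  exact Nat.eq_of_mul_eq_mul_right (m := Nat.card N - 1) (by omega) (by rw [h3]; ring)

/-- A subgroup of order `k² q` is a Sylow subgroup. -/
theorem exists_sylow (p : ℕ) [Fact p.Prime] (hP : IsPGroup p N) (S : Subgroup G)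
    (hS : Nat.card S = k ^ 2 * Nat.card N) : ∃ P : Sylow p G, S = P := by
  obtain ⟨e, he⟩ := h.k_primePow p hP
  obtain ⟨f, hf⟩ := hP.exists_card_eq
  have hSp : IsPGroup p S := IsPGroup.of_card (n := e * 2 + f) (by rw [hS, he, hf, ← pow_mul, pow_add])
  have hidx : S.index = Nat.card N - 1 := by
    refine Nat.eq_of_mul_eq_mul_left (n := Nat.card S) Nat.card_pos ?_
    rw [Subgroup.card_mul_index, h.card_eq, hS]
    ring
  exact ⟨hSp.toSylow (by rw [hidx]; exact h.prime_to p hP), (IsPGroup.toSylow_coe _ _).symm⟩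

theorem centralizer_sylow (p : ℕ) [Fact p.Prime] (hP : IsPGroup p N) {x : G} (hx : x ∈ N)
    (hx1 : x ≠ 1) : ∃ P : Sylow p G, Subgroup.centralizer ({x} : Set G) = P :=
  h.exists_sylow p hP _ (h.card_centralizer hx hx1)

theorem inertia_sylow (p : ℕ) [Fact p.Prime] (hP : IsPGroup p N) (μ : IrrCharacter N)
    (hμ : (μ : N → ℂ) ≠ fun _ => (1 : ℂ)) :
    ∃ P : Sylow p G, ∀ g : G, g ∈ (P : Subgroup G) ↔
      ∀ n n' : N, (n' : G) = g * n * g⁻¹ → (μ : N → ℂ) n' = (μ : N → ℂ) n := by
  classical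
  haveI := Fintype.ofFinite G
  haveI := Fintype.ofFinite N
  haveI := h.normal
  obtain ⟨q, -, -, hel⟩ := h.elementary
  have hμ1 : (μ : N → ℂ) 1 = 1 := Chars.irr_apply_one_of_comm
    (fun a b => hel.1.is_comm.comm a b) μ.2
  have hne : μ ≠ Blocks.oneChar N := fun e => hμ (by rw [e]; rfl)
  have h0 : ∑ n : N, conj ((μ : N → ℂ) n) = 0 := by
    have := Chars.classInner_irrCharacter (Blocks.oneChar N) μ
    rw [if_neg (Ne.symm hne), Chars.classInner_def, inv_mul_eq_iff_eq_mul₀ Chars.card_ne_zero,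
      mul_zero] at this
    simpa [Blocks.oneChar] using this
  have hin : classInner (fun n : N => (χ : G → ℂ) n) (μ : N → ℂ) = (k : ℂ) := by
    rw [Chars.classInner_def, inv_mul_eq_iff_eq_mul₀ Chars.card_ne_zero]
    have hsplit : ∀ n : N, (χ : G → ℂ) (n : G) * conj ((μ : N → ℂ) n) =
        (if n = 1 then (Nat.card N : ℂ) * k else 0) - k * conj ((μ : N → ℂ) n) := by
      intro n
      split_ifs with e
      · subst e
        rw [OneMemClass.coe_one, h.apply_one, hμ1, map_one, Nat.cast_mul,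
          Nat.cast_sub (show 1 ≤ Nat.card N by have := h.two_le; omega)]
        ring
      · rw [h.apply_mem n n.2 fun e' => e (Subtype.ext e')]
        ring
    rw [Finset.sum_congr rfl fun n _ => hsplit n, Finset.sum_sub_distrib, ← Finset.mul_sum, h0,
      Finset.sum_ite_eq' Finset.univ (1 : N), if_pos (Finset.mem_univ _), mul_zero, sub_zero]
  have hk : (k : ℂ) ≠ 0 := Nat.cast_ne_zero.2 h.k_pos.ne'
  have hdeg := Chars2.clifford_degree χ.2 μ.2 (by rw [hin]; exact hk)
  rw [hin, hμ1, h.apply_one, mul_one] at hdeg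
  have hidx : (Chars2.inertiaSub (μ : N → ℂ)).index = Nat.card N - 1 := by
    have h' : k * (Nat.card N - 1) = (Chars2.inertiaSub (μ : N → ℂ)).index * k := by
      exact_mod_cast hdeg
    exact Nat.eq_of_mul_eq_mul_right h.k_pos (by rw [← h', mul_comm])
  have hcard : Nat.card (Chars2.inertiaSub (μ : N → ℂ)) = k ^ 2 * Nat.card N := by
    have h3 := Subgroup.card_mul_index (Chars2.inertiaSub (μ : N → ℂ))
    rw [hidx, h.card_eq] at h3
    have h2 := h.two_le
    exact Nat.eq_of_mul_eq_mul_right (m := Nat.card N - 1) (by omega) (by rw [h3]; ring)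
  obtain ⟨P, hP'⟩ := h.exists_sylow p hP _ hcard
  refine ⟨P, fun g => ?_⟩
  rw [← hP', ← (Chars2.inertiaSub (μ : N → ℂ)).inv_mem_iff, Chars2.mem_inertiaSub, funext_iff]
  constructor
  · intro hg n n' hn'
    rw [← hg n, Chars2.conjFun_apply]
    exact congrArg _ (Subtype.ext (by rw [hn']; simp))
  · intro hg n
    rw [Chars2.conjFun_apply]
    exact hg n ⟨_, _⟩ (by simp)

theorem card_centralizer_notMem {x : G} (hx : x ∉ N) :
    letI := h.normal
    Nat.card (Subgroup.centralizer ({x} : Set G)) =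
      Nat.card (Subgroup.centralizer ({(x : G ⧸ N)} : Set (G ⧸ N))) := by
  haveI := h.normal
  set π := QuotientGroup.mk' N
  set T := (Subgroup.centralizer ({(x : G ⧸ N)} : Set (G ⧸ N))).comap π with hT
  have hmem : ∀ g, g ∈ T ↔ x⁻¹ * (g * x * g⁻¹) ∈ N := by
    intro g
    rw [hT, Subgroup.mem_comap, Subgroup.mem_centralizer_singleton_iff, ← QuotientGroup.eq,
      QuotientGroup.mk_mul, QuotientGroup.mk_mul, QuotientGroup.mk_inv, eq_mul_inv_iff_mul_eq]
    exact eq_comm
  choose s hs using fun n : N => isConj_iff.1 (h.isConj_mul hx n.2)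
  have hTc : ∀ (n : N) (a : Subgroup.centralizer ({x} : Set G)), s n * (a : G) ∈ T := by
    intro n a
    rw [hmem, show x⁻¹ * (s n * a * x * (s n * (a : G))⁻¹) = (n : G) by
      rw [mul_inv_rev, mul_assoc (s n) (a : G), Subgroup.mem_centralizer_singleton_iff.1 a.2,
        show s n * (x * (a : G)) * ((a : G)⁻¹ * (s n)⁻¹) = s n * x * (s n)⁻¹ by group, hs n]
      group]
    exact n.2
  let e : N × Subgroup.centralizer ({x} : Set G) → T := fun q => ⟨_, hTc q.1 q.2⟩
  have he : Function.Bijective e := by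
    constructor
    · rintro ⟨n, a⟩ ⟨m, b⟩ hab
      have hab' : s n * (a : G) = s m * (b : G) := congrArg Subtype.val hab
      have key : ∀ (n : N) (a : Subgroup.centralizer ({x} : Set G)),
          x⁻¹ * ((s n * a) * x * (s n * (a : G))⁻¹) = n := by
        intro n a
        rw [mul_inv_rev, mul_assoc (s n) (a : G), Subgroup.mem_centralizer_singleton_iff.1 a.2,
          show s n * (x * (a : G)) * ((a : G)⁻¹ * (s n)⁻¹) = s n * x * (s n)⁻¹ by group, hs n]
        group
      have hnm : n = m := Subtype.ext (by rw [← key n a, hab', key m b])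
      subst hnm
      exact Prod.ext rfl (Subtype.ext (mul_left_cancel hab'))
    · rintro ⟨g, hg⟩
      have hn := (hmem g).1 hg
      refine ⟨⟨⟨_, hn⟩, ⟨(s ⟨_, hn⟩)⁻¹ * g, ?_⟩⟩, Subtype.ext (by simp [e])⟩
      rw [Subgroup.mem_centralizer_singleton_iff]
      have h1 := hs ⟨_, hn⟩
      simp only [mul_inv_cancel_left] at h1
      calc (s ⟨_, hn⟩)⁻¹ * g * x = (s ⟨_, hn⟩)⁻¹ * (g * x * g⁻¹) * g := by group
        _ = (s ⟨_, hn⟩)⁻¹ * (s ⟨_, hn⟩ * x * (s ⟨_, hn⟩)⁻¹) * g := by rw [h1]
        _ = _ := by group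
  have hcard := Nat.card_congr (Equiv.ofBijective e he)
  rw [Nat.card_prod] at hcard
  have hT' : Nat.card T = Nat.card N *
      Nat.card (Subgroup.centralizer ({(x : G ⧸ N)} : Set (G ⧸ N))) := by
    have h1 := Subgroup.card_mul_index T
    rw [hT, Subgroup.index_comap_of_surjective _ (QuotientGroup.mk'_surjective N),
      Subgroup.card_eq_card_quotient_mul_card_subgroup N,
      ← Subgroup.card_mul_index (Subgroup.centralizer ({(x : G ⧸ N)} : Set (G ⧸ N))),
      mul_right_comm, mul_comm (Nat.card (Subgroup.centralizer ({(x : G ⧸ N)} : Set (G ⧸ N))))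
        (Nat.card N)] at h1
    exact Nat.eq_of_mul_eq_mul_right (Nat.pos_of_ne_zero Subgroup.index_ne_zero_of_finite) h1
  exact Nat.eq_of_mul_eq_mul_left Nat.card_pos (hcard.trans hT')

theorem pgroup_centralizing_le (p : ℕ) [Fact p.Prime] (hP : IsPGroup p N) {x : G} (hx : x ∉ N)
    {R : Subgroup G} (hR : IsPGroup p R) (hRx : R ≤ Subgroup.centralizer ({x} : Set G))
    (P : Sylow p G) : Nat.card R * Nat.card N ≤ Nat.card P := by
  haveI := h.normal
  obtain ⟨a, ha⟩ := hR.exists_card_eq
  obtain ⟨b, hb⟩ := hP.exists_card_eq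
  have h1 : Nat.card R ∣ Nat.card (G ⧸ N) :=
    (Subgroup.card_dvd_of_le hRx).trans
      ((h.card_centralizer_notMem hx) ▸ Subgroup.card_subgroup_dvd_card _)
  have h2 : Nat.card R * Nat.card N ∣ Nat.card G :=
    (mul_dvd_mul_right h1 _).trans (Subgroup.card_eq_card_quotient_mul_card_subgroup N).symm.dvd
  rw [ha, hb, ← pow_add] at h2 ⊢
  rw [P.card_eq_multiplicity]
  exact Nat.pow_le_pow_right (Fact.out : p.Prime).pos
    (((Fact.out : p.Prime).pow_dvd_iff_le_factorization Nat.card_pos.ne').1 h2)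

theorem le_sylow (p : ℕ) [Fact p.Prime] (hP : IsPGroup p N) (P : Sylow p G) :
    N ≤ (P : Subgroup G) := by
  haveI := h.normal
  obtain ⟨Q, hQ⟩ := hP.exists_le_sylow
  obtain ⟨g, rfl⟩ := MulAction.exists_smul_eq G Q P
  intro n hn
  rw [Sylow.coe_subgroup_smul, Subgroup.mem_pointwise_smul_iff_inv_smul_mem]
  refine hQ ?_
  simpa [MulAut.smul_def] using h.normal.conj_mem n hn g⁻¹

theorem center_sylow (p : ℕ) [Fact p.Prime] (hP : IsPGroup p N) (P : Sylow p G) :
    (Subgroup.center (P : Subgroup G)).map (P : Subgroup G).subtype ≤ N ∧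
      ((Subgroup.center (P : Subgroup G)).map (P : Subgroup G).subtype = N ↔
        (P : Subgroup G).Normal) := by
  haveI := h.normal
  have hle : (Subgroup.center (P : Subgroup G)).map (P : Subgroup G).subtype ≤ N := by
    rintro _ ⟨z, hz, rfl⟩
    by_contra hzN
    have h1 := h.pgroup_centralizing_le p hP hzN P.isPGroup' (fun y hy =>
      Subgroup.mem_centralizer_singleton_iff.2
        (congrArg Subtype.val (Subgroup.mem_center_iff.1 hz ⟨y, hy⟩))) P
    exact absurd h1 (not_le.2 (lt_mul_of_one_lt_right Nat.card_pos (by have := h.two_le; omega)))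
  refine ⟨hle, fun he => ?_, fun hn => le_antisymm hle fun n hn' => ?_⟩
  · have hPC : (P : Subgroup G) = Subgroup.centralizer (N : Set G) := by
      obtain ⟨Q, hQ⟩ := h.centralizer_sylow p hP h.mem h.ne_one
      have hPle : (P : Subgroup G) ≤ Subgroup.centralizer (N : Set G) := by
        intro y hy
        rw [Subgroup.mem_centralizer_iff]
        intro n hn'
        obtain ⟨z, hz, rfl⟩ := he ▸ (show n ∈ N from hn')
        exact (congrArg Subtype.val (Subgroup.mem_center_iff.1 hz ⟨y, hy⟩)).symm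
      refine le_antisymm hPle ?_
      have h2 : Subgroup.centralizer (N : Set G) ≤ (Q : Subgroup G) :=
        hQ ▸ Subgroup.centralizer_le (Set.singleton_subset_iff.2 h.mem)
      have hPQ : (P : Subgroup G) = Q :=
        Subgroup.eq_of_le_of_card_ge (hPle.trans h2) (by rw [Sylow.card_eq_multiplicity,
          Sylow.card_eq_multiplicity])
      rw [hPQ]; exact h2
    rw [hPC]
    infer_instance
  · refine ⟨⟨n, h.le_sylow p hP P hn'⟩, Subgroup.mem_center_iff.2 fun y => Subtype.ext ?_, rfl⟩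
    by_cases hn1 : n = 1
    · simp [hn1]
    obtain ⟨Q, hQ⟩ := h.centralizer_sylow p hP hn' hn1
    haveI := (Sylow.unique_of_normal P hn).instSubsingleton
    have : (y : G) ∈ Subgroup.centralizer ({n} : Set G) := by
      rw [hQ, Subsingleton.elim Q P]; exact y.2
    exact Subgroup.mem_centralizer_singleton_iff.1 this

theorem upperCentral_sylow (p : ℕ) [Fact p.Prime] (hP : IsPGroup p N) (P : Sylow p G) :
    ∃ i : ℕ, Subgroup.upperCentralSeries (P : Subgroup G) i = N.subgroupOf (P : Subgroup G) := by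
  classical
  haveI := h.normal
  set U := Subgroup.upperCentralSeries (P : Subgroup G)
  set N' := N.subgroupOf (P : Subgroup G)
  have hN' : Nat.card N' = Nat.card N :=
    Nat.card_congr (Subgroup.subgroupOfEquivOfLe (h.le_sylow p hP P)).toEquiv
  have hstep : ∀ i, U i < N' → U (i + 1) ≤ N' := by
    intro i hi x hx
    by_contra hxN
    have hxN' : (x : G) ∉ N := hxN
    set C := Subgroup.centralizer ({x} : Set (P : Subgroup G))
    have hcard : Nat.card (P : Subgroup G) ≤ Nat.card (U i) * Nat.card C := by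
      rw [← Subgroup.card_mul_index C, mul_comm]
      refine Nat.mul_le_mul_right _ ?_
      rw [Subgroup.index]
      refine Nat.card_le_card_of_injective (fun q => (⟨Quotient.liftOn' q
        (fun y => ⁅x, y⁻¹⁻¹⁆) fun a b hab => ?_, ?_⟩ : U i)) ?_
      · have hc := Subgroup.mem_centralizer_singleton_iff.1 (QuotientGroup.leftRel_apply.1 hab)
        simp only [inv_inv, commutatorElement_def]
        have e : a * x⁻¹ * a⁻¹ = b * x⁻¹ * b⁻¹ := by
          have hc' : x⁻¹ * (a⁻¹ * b) = a⁻¹ * b * x⁻¹ := (Commute.inv_right hc).eq.symm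
          calc a * x⁻¹ * a⁻¹ = a * (x⁻¹ * (a⁻¹ * b)) * b⁻¹ := by group
            _ = _ := by rw [hc']; group
        calc x * a * x⁻¹ * a⁻¹ = x * (a * x⁻¹ * a⁻¹) := by group
          _ = _ := by rw [e]; group
      · induction q using QuotientGroup.induction_on with
        | H y => exact Subgroup.mem_upperCentralSeries_succ_iff.1 hx _
      · intro q₁ q₂ hq
        induction q₁ using QuotientGroup.induction_on with
        | H a =>
          induction q₂ using QuotientGroup.induction_on with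
          | H b =>
            have e : ⁅x, a⁻¹⁻¹⁆ = ⁅x, b⁻¹⁻¹⁆ := congrArg Subtype.val hq
            simp only [inv_inv, commutatorElement_def] at e
            rw [QuotientGroup.eq, Subgroup.mem_centralizer_singleton_iff]
            have e' : a * x⁻¹ * a⁻¹ = b * x⁻¹ * b⁻¹ := by
              refine mul_left_cancel (a := x) ?_
              simpa only [mul_assoc] using e
            have e'' : a * x * a⁻¹ = b * x * b⁻¹ := by
              simpa [mul_assoc] using congrArg (·⁻¹) e'
            calc a⁻¹ * b * x = a⁻¹ * (b * x * b⁻¹) * b := by group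
              _ = _ := by rw [← e'']; group
    have h1 := h.pgroup_centralizing_le p hP hxN'
      (R := C.map (P : Subgroup G).subtype) ((P.isPGroup'.to_subgroup C).map _) (by
        rintro _ ⟨y, hy, rfl⟩
        exact Subgroup.mem_centralizer_singleton_iff.2
          (congrArg Subtype.val (Subgroup.mem_centralizer_singleton_iff.1 hy))) P
    rw [Subgroup.card_map_of_injective Subtype.val_injective] at h1
    have h2 : Nat.card (U i) < Nat.card N := by
      rw [← hN']
      refine lt_of_le_of_ne (Subgroup.card_le_of_le hi.le) fun e => ?_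
      exact hi.ne (Subgroup.eq_of_le_of_card_ge hi.le e.ge)
    have h3 : Nat.card C * Nat.card (U i) < Nat.card C * Nat.card N :=
      Nat.mul_lt_mul_of_pos_left h2 Nat.card_pos
    rw [mul_comm (Nat.card (U i))] at hcard
    exact absurd (hcard.trans_lt (h3.trans_le h1)) (lt_irrefl _)
  by_contra hno
  push Not at hno
  have hall : ∀ i, U i < N' := by
    intro i
    induction i with
    | zero => exact lt_of_le_of_ne (by simp [U]) (hno 0)
    | succ i ih => exact lt_of_le_of_ne (hstep i ih) (hno _)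
  obtain ⟨n, hn⟩ := (P.isPGroup'.isNilpotent).nilpotent
  have := hall n
  rw [show U n = ⊤ from hn] at this
  exact not_top_lt this

end TwoClass

end Cfsg.Agent.BlockChar
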