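import Cfsg.Agent.Chars.GlaubermanSolvable
import Cfsg.Agent.Chars.CoprimeExt
import Cfsg.Agent.Chars2.Correspondence
import Cfsg.Agent.FGS2.Basic
import Cfsg.Agent.BlockChar.EqualDegree
import Mathlib.GroupTheory.SchurZassenhaus
import Mathlib.GroupTheory.GroupAction.ConjAct

/-!
# One character of degree divisible by `p` over a normal `p`-complement
-/

set_option autoImplicit false
set_option linter.unusedSectionVars false
set_option linter.style.haveILetI false

namespace Cfsg.Agent.BlockChar.UniqueSingular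

open Cfsg Cfsg.Agent
open scoped Pointwise

universe u

variable {G : Type u} [Group G] [Fintype G]

theorem card_carrier_eq_index (g : G) :
    Nat.card (ConjClasses.mk g).carrier = (Subgroup.centralizer ({g} : Set G)).index := by
  rw [← ConjAct.orbit_eq_carrier_conjClasses, Nat.card_coe_set_eq,
    ← MulAction.index_stabilizer, ConjAct.stabilizer_eq_centralizer]
  rfl

variable {p : ℕ} [Fact p.Prime]

theorem dvd_degree_of_ne_one (hP : IsPGroup p G) {χ : IrrCharacter G}
    (h : (χ : G → ℂ) 1 ≠ 1) : p ∣ charDegree (χ : G → ℂ) := by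
  obtain ⟨j, hj⟩ := EqualDegree.exists_pow_of_char hP χ
  have hd : charDegree (χ : G → ℂ) = p ^ j := by
    exact_mod_cast (EqualDegree.charDegree_eq' χ.2).trans hj
  rw [hd]
  exact dvd_pow_self p fun h0 => h (by rw [hj, h0, pow_zero, Nat.cast_one])

variable {N P : Subgroup G} [hN : N.Normal]

theorem inertia_dvd [Fintype N] (hidx : ∃ k : ℕ, N.index = p ^ k) {θ : N → ℂ}
    (hθ : IsIrrCharacter N θ) (hne : Chars2.inertiaSub (G := G) θ ≠ ⊤) :
    p ∣ (Chars2.inertiaSub (G := G) θ).index := by
  obtain ⟨k, hk⟩ := hidx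
  have h := Subgroup.index_dvd_of_le
    (Chars2.le_inertiaSub (G := G) (Chars.isClassFunction_of_isCharacter (Chars.isCharacter_of_isIrr hθ)))
  rw [hk] at h
  obtain ⟨j, -, hj⟩ := (Nat.dvd_prime_pow Fact.out).mp h
  rw [hj]
  exact dvd_pow_self p fun h0 => hne (Subgroup.index_eq_one.mp (by rw [hj, h0, pow_zero]))

theorem dvd_degree_over [Fintype N] (hidx : ∃ k : ℕ, N.index = p ^ k) {θ : N → ℂ}
    (hθ : IsIrrCharacter N θ) (hne : Chars2.inertiaSub (G := G) θ ≠ ⊤) {χ : IrrCharacter G}
    (hcon : classInner (fun n : N => (χ : G → ℂ) n) θ ≠ 0) :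
    p ∣ charDegree (χ : G → ℂ) := by
  obtain ⟨e, he⟩ := Chars.exists_classInner_eq_nat
    (Chars.isCharacter_restrict (Chars.irr_isCharacter χ) N) (Chars.isCharacter_of_isIrr hθ)
  obtain ⟨t, ht⟩ := Chars.exists_apply_one_eq (Chars.isCharacter_of_isIrr hθ)
  have h := Chars2.clifford_degree χ.2 hθ hcon
  rw [he, ht, ← EqualDegree.charDegree_eq' χ.2] at h
  rw [show charDegree (χ : G → ℂ) = (Chars2.inertiaSub (G := G) θ).index * e * t by exact_mod_cast h]
  exact ((inertia_dvd hidx hθ hne).mul_right e).mul_right t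

open scoped Classical in
/-- An irreducible character with regular orbit. -/
theorem inertia_eq_of_unique [Fintype N] (hcop : (Nat.card N).Coprime p)
    (hidx : ∃ k : ℕ, N.index = p ^ k)
    (huniq : ∀ χ χ' : IrrCharacter G, p ∣ charDegree (χ : G → ℂ) → p ∣ charDegree (χ' : G → ℂ) → χ = χ')
    {θ : N → ℂ} (hθ : IsIrrCharacter N θ) (hne : Chars2.inertiaSub (G := G) θ ≠ ⊤) :
    Chars2.inertiaSub (G := G) θ = N := by
  set T := Chars2.inertiaSub (G := G) θ with hT
  have hNT : N ≤ T := Chars2.le_inertiaSub (G := G)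
    (Chars.isClassFunction_of_isCharacter (Chars.isCharacter_of_isIrr hθ))
  haveI : Fintype T := Fintype.ofFinite T
  haveI : Fintype (N.subgroupOf T) := Fintype.ofFinite _
  haveI : (N.subgroupOf T).Normal := inferInstance
  let e := Subgroup.subgroupOfEquivOfLe hNT
  set θ' : N.subgroupOf T → ℂ := θ ∘ e with hθ'
  have hθi : IsIrrCharacter (N.subgroupOf T) θ' := Chars.isIrrCharacter_comp_equiv hθ e
  have hinv : Chars2.inertiaSub (G := T) θ' = ⊤ := by
    refine Chars2.inertiaSub_eq_top fun t n => ?_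
    have h := congrFun (Chars2.mem_inertiaSub.1 (T.inv_mem t.2 : (t : G)⁻¹ ∈ T)) (e n)
    rw [Chars2.conjFun_apply] at h
    simp only [hθ', Function.comp_apply]
    convert h using 2
    refine Subtype.ext ?_
    simp [e]
  have hcop' : (Nat.card (N.subgroupOf T)).Coprime (N.subgroupOf T).index := by
    obtain ⟨k, hk⟩ := hidx
    rw [Nat.card_congr e.toEquiv]
    refine (hcop.pow_right k).coprime_dvd_right ?_
    rw [← hk]
    exact Dvd.intro _ (Subgroup.relIndex_mul_index hNT)
  obtain ⟨ψ, hψ, hψres⟩ := Chars.extends_of_coprime (N.subgroupOf T) hcop' hθi hinv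
  have hres : Chars2.resSub N T hNT ψ = θ := funext fun n => by
    have h := hψres ⟨⟨(n : G), hNT n.2⟩, Subgroup.mem_subgroupOf.mpr n.2⟩
    exact h
  have h2 : classInner (Chars2.resSub N T hNT ψ) θ ≠ 0 := by
    rw [hres, Chars.classInner_self_irr hθ]; exact one_ne_zero
  -- every character of `T` over `θ` equals `ψ`
  have hind := Chars2.isIrr_indFun_of_inertia hNT hθ hT hψ h2
  have hone : ∀ φ : T →* ℂˣ, (∀ n (hn : n ∈ N), φ ⟨n, hNT hn⟩ = 1) → ∀ t, (φ t : ℂ) * ψ t = ψ t := by
    intro φ hφ
    have hψ' := Chars.isIrrCharacter_mul_hom hψ φ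
    have hres' : Chars2.resSub N T hNT (fun t => (φ t : ℂ) * ψ t) = θ := by
      rw [← hres]
      funext n
      simp [Chars2.resSub, hφ n n.2]
    have h2' : classInner (Chars2.resSub N T hNT fun t => (φ t : ℂ) * ψ t) θ ≠ 0 := by
      rw [hres', Chars.classInner_self_irr hθ]; exact one_ne_zero
    have hind' := Chars2.isIrr_indFun_of_inertia hNT hθ hT hψ' h2'
    have hdeg : ∀ {η : T → ℂ} (hη : IsIrrCharacter T η),
        p ∣ charDegree (indFun T η) := by
      intro η hη
      obtain ⟨d, hd⟩ := Chars.exists_apply_one_eq (Chars.isCharacter_of_isIrr hη)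
      have : charDegree (indFun T η) = T.index * d := by
        simp [charDegree, Chars.indFun_apply_one, hd, ← Nat.cast_mul]
      rw [this]
      exact (inertia_dvd hidx hθ hne).mul_right d
    have h := congrArg Subtype.val (huniq ⟨_, hind⟩ ⟨_, hind'⟩ (hdeg hψ) (hdeg hψ'))
    exact fun t => (congrFun (Chars2.indFun_inj_of_inertia hNT hθ hT hψ hψ' h2 h2' h) t).symm
  by_contra hTN
  set Nt := N.subgroupOf T
  have hNt : Nt ≠ ⊤ := fun h => hTN (le_antisymm (fun t ht =>
    Subgroup.mem_subgroupOf.mp (h ▸ Subgroup.mem_top (⟨t, ht⟩ : T) : (⟨t, ht⟩ : T) ∈ Nt)) hNT)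
  -- `T / N` is a nontrivial `p`-group, so has a nontrivial linear character
  have hpg : IsPGroup p (T ⧸ Nt) := by
    obtain ⟨k, hk⟩ := hidx
    have hd : Nt.index ∣ p ^ k := hk ▸ Dvd.intro _ (Subgroup.relIndex_mul_index hNT)
    obtain ⟨j, -, hj⟩ := (Nat.dvd_prime_pow Fact.out).mp hd
    exact IsPGroup.of_card (by rw [← Subgroup.index_eq_card]; exact hj)
  have hψ0 : ∀ t : T, t ∉ Nt ⊔ commutator T → ψ t = 0 := by
    intro t ht
    set K := Nt ⊔ commutator T
    haveI : K.Normal := inferInstance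
    letI : CommGroup (T ⧸ K) :=
      { mul_comm := fun a b => by
          induction a using QuotientGroup.induction_on with | H a =>
          induction b using QuotientGroup.induction_on with | H b =>
          refine QuotientGroup.eq.mpr (Subgroup.mem_sup_right ?_)
          rw [show (a * b)⁻¹ * (b * a) = b⁻¹ * a⁻¹ * b * a by group]
          have := Subgroup.commutator_mem_commutator (Subgroup.mem_top b⁻¹) (Subgroup.mem_top a⁻¹)
          rw [commutatorElement_def, inv_inv, inv_inv] at this
          exact this }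
    haveI : Finite (T ⧸ K) := inferInstance
    obtain ⟨φ, hφ⟩ := CommGroup.exists_apply_ne_one_of_hasEnoughRootsOfUnity (T ⧸ K) ℂ
      (show (t : T ⧸ K) ≠ 1 from fun h => ht ((QuotientGroup.eq_one_iff t).mp h))
    have h := hone (φ.comp (QuotientGroup.mk' K)) (fun n hn => by
      rw [MonoidHom.comp_apply, QuotientGroup.mk'_apply,
        (QuotientGroup.eq_one_iff _).mpr (Subgroup.mem_sup_left (Subgroup.mem_subgroupOf.mpr hn)),
        map_one]) t
    by_contra h0
    exact hφ (Units.ext (mul_right_cancel₀ h0 (h.trans (one_mul _).symm)))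
  have hlt : Nt ⊔ commutator T ≠ ⊤ := by
    intro h
    have hc : commutator (T ⧸ Nt) = ⊤ := by
      rw [EqualDegree.commutator_quot, eq_top_iff]
      rintro x -
      obtain ⟨t, rfl⟩ := QuotientGroup.mk'_surjective Nt x
      obtain ⟨a, ha, b, hb, rfl⟩ := Subgroup.mem_sup_of_normal_left.mp (h ▸ Subgroup.mem_top t)
      rw [map_mul, show QuotientGroup.mk' Nt a = 1 from (QuotientGroup.eq_one_iff a).mpr ha, one_mul]
      exact Subgroup.mem_map_of_mem _ hb
    haveI := hpg.isNilpotent
    haveI : Nontrivial (T ⧸ Nt) := QuotientGroup.nontrivial_iff.mpr hNt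
    exact (Group.IsSolvable.commutator_lt_top_of_nontrivial (T ⧸ Nt)).ne hc
  set K := Nt ⊔ commutator T
  haveI : Fintype K := Fintype.ofFinite K
  have hnorm := (Chars2.norm_restrict_eq_index_iff (N := K) hψ).mpr hψ0
  have hψK : IsIrrCharacter K (fun k : K => ψ k) := by
    obtain ⟨n, ρ, hρ, hρψ⟩ := hψ
    refine ⟨n, ρ.comp K.subtype, ?_, ?_⟩
    · haveI := hρ
      refine (Chars.isIrreducible_iff _).mpr ⟨Chars.nontrivial_of_isIrreducible ρ, fun S hS => ?_⟩
      let ρN : Representation ℂ Nt (Fin n → ℂ) := ρ.comp Nt.subtype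
      have hi : ρN.IsIrreducible := by
        refine Chars.isIrreducible_of_character ρN ?_
        convert hθi using 1
        funext k
        exact ((congrFun hρψ (k : T)).trans (hψres k))
      exact ((Chars.isIrreducible_iff ρN).mp hi).2 S fun g v hv =>
        hS ⟨(g : T), Subgroup.mem_sup_left g.2⟩ v hv
    · rw [← hρψ]; rfl
  rw [Chars.classInner_self_irr hψK] at hnorm
  exact hlt (Subgroup.index_eq_one.mp (by exact_mod_cast hnorm.symm))

end Cfsg.Agent.BlockChar.UniqueSingular
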